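/- U4 tower (row S5210), slot AS: the automorphisms of `S` on the factors of the series. -/
import Cfsg.Agent.H28.U4Gen

set_option autoImplicit false
set_option linter.unusedSectionVars false
set_option linter.unusedSimpArgs false

open Subgroup H90.RF H28.U4
open H90.U5 (BF DD exists_semi)

universe v

namespace H4.U4AS

variable {K : Type*} [Field K] {T : BF K}

theorem alg (ψ ζ μ f : K → K) (ha : ∀ s t, ψ (s + t) = ψ s + ψ t) (h1 : ψ 1 = 1)
    (hi : ∀ t, ψ t = 0 → t = 0) (hm : ∀ a l, T.σ l = l → ψ (a * l) = ψ a * ψ l)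
    (hk : ∀ l, T.σ l = l → T.σ (ψ l) = ψ l) (hz : ζ 1 ≠ 0)
    (h2 : ∀ a c, ζ (a * T.σ c + T.σ a * c) = ψ a * T.σ (ψ c) + T.σ (ψ a) * ψ c)
    (h3 : ∀ a b, T.σ b = b → ψ a * T.σ (f b) + T.σ (ψ a) * f b + ψ a * T.σ (ψ a) * ψ b =
      μ (a * b) + ζ (a * T.σ a * b)) :
    (∀ a c, ψ (a * c) = ψ a * ψ c) ∧ ∀ l, T.σ l = l → ζ l = ψ l := by
  have h0 : ψ 0 = 0 := by simpa using ha 0 0
  have tr : ∀ a, ζ (a + T.σ a) = ψ a + T.σ (ψ a) := fun a => by simpa [h1] using h2 a 1
  have nk : ∀ a, T.σ (a * T.σ a) = a * T.σ a := fun a => by rw [map_mul, T.sq, mul_comm]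
  have zl : ∀ m l, T.σ m = m → T.σ l = l → ζ (m * l) = ζ m * ψ l := fun m l hm' hl => by
    obtain ⟨t, rfl⟩ := T.exists_tr hm'
    have := tr (t * l)
    rw [map_mul, hl, ← add_mul, hm t l hl, map_mul, hk l hl] at this
    rw [this, tr, add_mul]
  have key : ∀ a b, T.σ b = b → (ψ b ^ 2 - ψ b) * (ψ a * T.σ (ψ a) - ζ (a * T.σ a)) =
      ψ a * T.σ (f b) + T.σ (ψ a) * f b - ψ b * (ψ a * T.σ (f 1) + T.σ (ψ a) * f 1) := fun a b hb => by
    have k1 := h3 a b hb
    have k2 := h3 (a * b) 1 (map_one _)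
    rw [mul_one, mul_one, h1, hm a b hb, map_mul, hk b hb, map_mul, hb,
      show a * b * (T.σ a * b) = a * T.σ a * b * b by ring,
      zl _ b (by rw [map_mul, nk, hb]) hb] at k2
    rw [zl _ b (nk a) hb] at k1 k2
    linear_combination k2 - k1
  have E : ∀ a, ζ (a * T.σ a) = ψ a * T.σ (ψ a) := fun a => by
    by_cases hG : G2 T
    · obtain ⟨l, hl, l0, l1⟩ := hG
      have k1 := key a l hl
      have k2 := key (a * l) l hl
      rw [hm a l hl, map_mul, hk l hl, map_mul, hl,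
        show a * l * (T.σ a * l) = a * T.σ a * l * l by ring,
        zl _ l (by rw [map_mul, nk, hl]) hl, zl _ l (nk a) hl] at k2
      have m0 : ψ l ≠ 0 := fun e => l0 (hi l e)
      have m1 : ψ l - 1 ≠ 0 := fun e => l1 (sub_eq_zero.1 (hi (l - 1) (by
        have := ha (l - 1) 1
        rw [sub_add_cancel, h1] at this
        linear_combination e - this)))
      refine mul_left_cancel₀ (pow_ne_zero 2 (mul_ne_zero m0 m1)) ?_
      linear_combination ψ l * k1 - k2
    · have k : ∀ l, T.σ l = l → l ≠ 0 → l = 1 := fun l hl l0 => by_contra fun l1 => hG ⟨l, hl, l0, l1⟩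
      by_cases a0 : a = 0
      · have := zl 1 0 (map_one _) (map_zero _)
        simpa [a0, h0] using this
      obtain ⟨t, ht⟩ := T.exists_tr (map_one T.σ)
      rw [k _ (nk a) fun e => a0 (T.nm_zero e), k _ (nk (ψ a)) fun e => a0 (hi a (T.nm_zero e))]
      refine k _ ?_ hz
      rw [← ht, tr, map_add, T.sq, add_comm]
  have z1 : ζ 1 = 1 := by simpa [h1] using E 1
  have zk : ∀ l, T.σ l = l → ζ l = ψ l := fun l hl => by
    simpa [z1] using zl 1 l (map_one _) hl
  have ω2 : ψ (T.ω * T.ω) = ψ T.ω * ψ T.ω := by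
    have k1 := ha (T.ω * T.ω) (T.ω * T.σ T.ω)
    have k2 : T.σ (T.ω + T.σ T.ω) = T.ω + T.σ T.ω := by rw [map_add, T.sq, add_comm]
    rw [← mul_add, hm _ _ k2, ← zk _ k2, tr, ← zk _ (nk _), E] at k1
    linear_combination -k1
  have aω : ∀ a, ψ (a * T.ω) = ψ a * ψ T.ω := fun a => by
    obtain ⟨x, y, rfl⟩ := T.exists_pair a
    rw [show ((x : K) + y * T.ω) * T.ω = T.ω * x + T.ω * T.ω * y by ring, mul_comm (y : K), ha, ha,
      hm _ _ x.2, hm _ _ y.2, hm _ _ y.2, ω2]
    ring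
  refine ⟨fun a c => ?_, zk⟩
  obtain ⟨x, y, rfl⟩ := T.exists_pair c
  rw [show a * ((x : K) + y * T.ω) = a * x + a * T.ω * y by ring, mul_comm (y : K), ha, ha,
    hm _ _ x.2, hm _ _ y.2, hm _ _ y.2, aω]
  ring

variable [Finite K]

theorem as_of (P : AP T) : AS T := ⟨P, fun θ h => by
  classical
  obtain ⟨pZ, pD, pA, pQ⟩ := P θ h
  have md : ∀ {X : Subgroup (Co T)}, Pr θ X → ∀ {u w}, u⁻¹ * w ∈ X → (θ u)⁻¹ * θ w ∈ X :=
    fun p u w k => by rw [← h.inv trivial, ← h.mul _ trivial _ trivial]; exact p _ k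
  have cD : ∀ t, xc T t ∈ sD T := fun _ => ⟨rfl, rfl⟩
  obtain ⟨α, hα⟩ : ∃ α : K → K, ∀ u, (θ u).a = α u.a := ⟨fun t => (θ (xa T t)).a, fun u => by
    have := md pA (u := u) (w := xa T u.a) (by simp [mem_sA, xa])
    simp only [mem_sA, Co.mul_a, Co.inv_a] at this
    linear_combination -this⟩
  obtain ⟨γ, hγ⟩ : ∃ γ : K → K, ∀ u ∈ sD T, (θ u).c = γ u.c := ⟨fun t => (θ (xc T t)).c, fun u hu => by
    have := (md pZ (u := u) (w := xc T u.c) (by simp [mem_sZ, xc, hu.1, hu.2])).2.2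
    simp only [Co.mul_c, Co.inv_a, Co.inv_c, (pD u hu).1] at this
    linear_combination -this⟩
  obtain ⟨ζ, hζ⟩ : ∃ ζ : K → K, ∀ u ∈ sZ T, (θ u).d = ζ u.d :=
    ⟨fun l => if k : T.σ l = l then (θ (xd T l k)).d else 0, fun u hu => by
      simp only [dif_pos (A_d hu.1)]
      rw [← eq_of_Z hu (w := xd T u.d (A_d hu.1)) ⟨rfl, rfl, rfl⟩ rfl]⟩
  obtain ⟨f, hf⟩ : ∃ f : K → K, ∀ b k, (θ (xb T b k)).c = f b :=
    ⟨fun l => if k : T.σ l = l then (θ (xb T l k)).c else 0, fun b k => by simp only [dif_pos k]⟩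
  have αi : ∀ t, α t = 0 → t = 0 := fun t e =>
    h.mem_of le_top pA (c := xa T t) trivial ((hα _).trans e)
  have αa : ∀ s t, α (s + t) = α s + α t := fun s t => by
    have := hα (xa T s * xa T t)
    rw [h.mul _ trivial _ trivial, Co.mul_a, hα, hα] at this
    exact this.symm
  have R1 : ∀ a u, γ (a * u.b) = α a * (θ u).b := fun a u => by
    have := hγ _ (cm_D (xa T a) u)
    rw [h.cm trivial trivial, cm_c, cm_c, hα, show (θ (xa T a)).b = 0 from pQ (xa T a) rfl] at this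
    simpa [xa] using this.symm
  set n := (θ (xb T 1 (map_one _))).b with hn
  have nk : T.σ n = n := Co.hb _
  have n0 : n ≠ 0 := fun e => one_ne_zero
    (show (xb T 1 (map_one _)).b = 0 from h.mem_of le_top pQ trivial e)
  have x0 : α 1 ≠ 0 := fun e => one_ne_zero (αi 1 e)
  have x1 : T.σ (α 1) ≠ 0 := (map_ne_zero _).2 x0
  have γα : ∀ a, γ a = α a * n := fun a => by
    rw [← R1 a (xb T 1 (map_one _)), xb, mul_one]
  have hb : ∀ u, (θ u).b = n * (α u.b / α 1) := fun u => by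
    have := R1 1 u
    rw [one_mul, γα] at this
    field_simp
    linear_combination -this
  obtain ⟨k1, k2⟩ := alg (T := T) (fun t => α t / α 1) (fun l => ζ l / (α 1 * T.σ (α 1) * n))
    (fun t => (θ (xc T t)).d / (α 1 * T.σ (α 1) * n)) (fun b => f b / (α 1 * n))
    (fun s t => by rw [αa, add_div]) (div_self x0)
    (fun t e => αi t ((div_eq_zero_iff.1 e).resolve_right x0))
    (fun a l hl => by
      have := R1 a (xb T l hl)
      rw [γα, hb] at this
      simp only [xb] at this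
      field_simp at this ⊢
      linear_combination this)
    (fun l hl => by
      have := (θ (xb T l hl)).hb
      rw [hb, map_mul, nk] at this
      exact mul_left_cancel₀ n0 this)
    (div_ne_zero (fun e => one_ne_zero (congrArg Co.d (h.eq (c := xd T 1 (map_one _)) (d := 1)
      trivial trivial (eq_of_Z (pZ _ ⟨rfl, rfl, rfl⟩) (pZ _ (one_mem _)) (by
        rw [hζ _ ⟨rfl, rfl, rfl⟩, h.one]; exact e))))) (mul_ne_zero (mul_ne_zero x0 x1) n0))
    (fun a c => by
      have := hζ _ (cm_Z (xa T a) (cD c))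
      rw [h.cm trivial trivial, cm_dA _ (pD _ (cD c)).1, cm_dA _ rfl, hα, hγ _ (cD c),
        (pD _ (cD c)).2, γα] at this
      simp only [xa, xc, mul_zero, add_zero, map_mul, nk] at this
      simp only [← this, map_div₀]
      field_simp)
    (fun a b k => by
      have zZ : xd T (a * T.σ a * b) (by simp [T.sq, k, mul_comm]) ∈ sZ T := ⟨rfl, rfl, rfl⟩
      have e : cm (xa T a) (xb T b k) =
          xc T (a * b) * xd T (a * T.σ a * b) (by simp [T.sq, k, mul_comm]) := by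
        ext
        · simp [xc, xd]
        · simp [xc, xd]
        · simp [cm_c, xa, xb, xc, xd]
        · rw [cm_dA _ rfl]; simp [xa, xb, xc, xd]
      have := congrArg (fun u => (θ u).d) e
      rw [h.cm trivial trivial, cm_dA _ (pA (xb T b k) rfl), h.mul _ trivial _ trivial,
        (mul_A (pD _ (cD _)).1 (pZ _ zZ).1).2.2, hζ _ zZ, hα, hf, hb] at this
      simp only [xa, xb, xd] at this
      simp only [← add_div, ← this, map_div₀, map_mul, nk]
      field_simp)
  obtain ⟨φ, hφ⟩ := exists_semi α αa x0 fun s t => by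
    have := k1 s t
    field_simp at this
    linear_combination this
  obtain ⟨y, hy⟩ := T.exists_nm nk
  have y0 : y ≠ 0 := fun e => n0 (by rw [← hy, e, zero_mul])
  refine ⟨⟨(Units.mk0 _ x0, Units.mk0 y y0), φ⟩, fun u => ⟨?_, ?_⟩, fun u hu => ?_, fun u hu => ?_⟩
  · rw [sd_a, hα, hφ]; rfl
  · rw [sd_b, hb, hφ u.b, mul_div_cancel_left₀ _ x0, ← hy]; rfl
  · rw [sd_c, hγ u hu, γα, hφ u.c, ← hy]
    simp only [Units.val_mk0]; ring
  · have := k2 u.d (A_d hu.1)
    rw [hφ u.d, mul_div_cancel_left₀ _ x0, div_eq_iff (mul_ne_zero (mul_ne_zero x0 x1) n0)] at this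
    rw [sd_d, hζ u hu, this, ← hy]
    simp only [Units.val_mk0]; ring⟩

theorem jobAS : H28.U4.JobAS.{v} := fun _ _ _ _ _ _ _ => as_of

end H4.U4AS
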