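/- U4 tower (row S5210), slot Tri: the three automizers. -/
import Cfsg.Agent.H28.U4Gen

set_option autoImplicit false
set_option linter.unusedSectionVars false
set_option linter.unusedSimpArgs false

open Subgroup H92 Cfsg Cfsg.FusionSystem H90.RF H28.U4
open H90.U5 (BF DD fn_X conj_aY res_aY inn_of_cg ext_of pel_of nor_of_cm pr_bot lg_aY)

universe v

namespace H4.U4Tri

variable {K : Type v} [Field K] [Finite K] {T : BF K}

variable (T) in
/-- a series of `Q` -/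
def yQ : ℕ → Subgroup (H28.U4.Co T)
  | 0 => ⊥ | 1 => sZ T | 2 => sD T | _ => sQ T

instance nyQ (j : ℕ) : (yQ T j).Normal := by unfold yQ; split <;> infer_instance
instance nzA (j : ℕ) : (zA T j).Normal := by unfold H28.U4.zA; split <;> infer_instance

theorem yQ_mono (i : ℕ) : yQ T i ≤ yQ T (i + 1) := by
  rcases i with _ | _ | _ | i
  exacts [bot_le, Z_le, D_le_Q, le_rfl]

theorem zA_mono (i : ℕ) : zA T i ≤ zA T (i + 1) := by
  rcases i with _ | _ | _ | i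
  exacts [bot_le, Z_le, D_le_A, le_rfl]

theorem yQ_le (i : ℕ) : yQ T i ≤ sQ T := by
  rcases i with _ | _ | _ | i
  exacts [bot_le, Z_le_Q, D_le_Q, le_rfl]

theorem zA_le (i : ℕ) : zA T i ≤ sA T := by
  rcases i with _ | _ | _ | i
  exacts [bot_le, Z_le_A, D_le_A, le_rfl]

theorem yQ_cm : ∀ i < 3, ∀ u ∈ yQ T (i + 1), ∀ s, cm s u ∈ yQ T i := by
  intro i hi u hu s
  interval_cases i
  exacts [cm_one s hu, cm_Z s hu, cm_D s u]

theorem zA_cm : ∀ i < 3, ∀ u ∈ zA T (i + 1), ∀ s, cm s u ∈ zA T i := by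
  intro i hi u hu s
  interval_cases i
  exacts [cm_one s hu, cm_Z s hu, cm_D s u]

theorem pr_yQ {β : H28.U4.Co T → H28.U4.Co T} (a : Au (sQ T) β) (h : Pr β (sD T)) (i : ℕ) :
    Pr β (yQ T i) := by
  rcases i with _ | _ | _ | i
  exacts [pr_bot a, pr_Z a, h, a.mem]

theorem pr_zA {β : H28.U4.Co T → H28.U4.Co T} (a : Au (sA T) β) (h : PZ T β) (i : ℕ) :
    Pr β (zA T i) := by
  rcases i with _ | _ | _ | i
  exacts [pr_bot a, h.1, h.2, a.mem]

/-- an automorphism of `Q` that is trivial on `W` fixes `Z` -/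
theorem fix_Z {β : H28.U4.Co T → H28.U4.Co T} (a : Au (sQ T) β) (h : ∀ u ∈ sQ T, (β u).π = u.π) :
    ∀ u ∈ sZ T, β u = u := fun u hu => by
  obtain ⟨t, rfl⟩ := Z_cm hu
  have m1 : xa T 1 ∈ sQ T := rfl
  have m2 : xc T t ∈ sQ T := rfl
  rw [a.cm m1 m2]
  exact eq_of_Z (cm_Q (a.mem _ m1) (a.mem _ m2)) (cm_Q m1 m2) (by
    rw [cm_dQ (a.mem _ m1) (a.mem _ m2), cm_dQ m1 m2, h _ m1, h _ m2])

theorem eq_ux {α : Equiv.Perm (H28.U4.Co T)} {s : H28.U4.Co T} (o : ∀ c, c ∉ sA T → α c = c)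
    (e : ∀ c ∈ sA T, α c = s * c * s⁻¹) : α = ux T s.a := by
  rw [← iS_eq]
  refine Equiv.ext fun u => ?_
  by_cases hu : u ∈ sA T
  · rw [iS_mem _ hu, e u hu]
  · rw [iS_not_mem _ hu, o u hu]

theorem jobTri : H28.U4.JobTri.{v} := fun p _ K _ _ _ T aP F hF => by
  have hP := pgroup_Co (T := T) p
  have n1 := fun α hα h => nor_of_cm hP hF (yQ T) 3 rfl le_rfl (fun i _ => yQ_le i) yQ_mono nyQ yQ_cm
    (α := α) hα fun i _ => pr_yQ ((lg_aY _).au α hα) h i
  have n2 := fun α hα h => nor_of_cm hP hF (zA T) 3 rfl le_rfl (fun i _ => zA_le i) zA_mono nzA zA_cm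
    (α := α) hα fun i _ => pr_zA ((lg_aY _).au α hα) h i
  have L : Lg (sA T) (aY F (sA T)) := lg_aY _
  refine ⟨lg_aY _, lg_aY _, ⟨L, ?_, fun α hα h k => ?_, fun α hα h t => ?_⟩,
    fun s => (conj_aY F s).imp fun _ h => ⟨h.1, fun u => h.2 u trivial⟩,
    fun y hy h => (pel_of hP hF hy (fun s => ⟨y s, fun c _ => ((lg_aY _).au y hy).conj trivial trivial⟩) h).imp
      fun _ h u => h u trivial,
    fun y hy h => (inn_of_cg hP hF (z0 T) 4 rfl le_rfl (fun _ _ => le_top) nz0 (fun i _ => z0_mono i) hy h).imp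
      fun _ h u => h u trivial,
    fun y hy => res_aY hy (aP y ((lg_aY _).au y hy)).2.2.2, fun α hα h => ext_of hP hF hα (n1 α hα h),
    fun α hα h => pel_of hP hF hα (n1 α hα h), fun α hα h => ?_,
    fun y hy => res_aY hy (aP y ((lg_aY _).au y hy)).2.2.1, fun α hα h => ext_of hP hF hα (n2 α hα h)⟩
  · have sy := (sylIn_of_fn (hP.to_subgroup ⊤) hF (fn_X (X := sA T) F)).map af
    rwa [show (autInducedBy ⊤ (sA T)).map af = (iS (sA T)).range from ?_] at sy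
    ext α
    constructor
    · rintro ⟨β, hβ, rfl⟩
      obtain ⟨s, -, e⟩ := mem_autInducedBy.1 hβ
      exact mem_U.2 ⟨s.a, eq_ux (fun c hc => af_of_not_mem _ hc) e⟩
    · rintro ⟨s, rfl⟩
      exact ⟨MulAut.conjNormal s, mem_autInducedBy.2 ⟨s, trivial, fun c hc => iS_mem s hc⟩, rfl⟩
  · obtain ⟨s, e⟩ := pel_of hP hF hα (n2 α hα h) k
    exact ⟨s.a, eq_ux (L.out α hα) e⟩
  · obtain ⟨s, e⟩ := n2 α hα h (xa T t)
    refine ⟨s.a, eq_ux (fun c hc => ?_) fun c hc => ?_⟩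
    · rw [Equiv.Perm.mul_apply, Equiv.Perm.mul_apply, L.out _ (inv_mem hα) c hc, ux_out t hc,
        L.out α hα c hc]
    · obtain ⟨c, hc', rfl⟩ := (L.au α hα).sur c hc
      rw [← e c hc', ← ux_apply t hc']
      simp
  · obtain ⟨s, e⟩ := inn_of_cg hP hF (yQ T) 3 rfl le_rfl (fun i _ => yQ_le i) nyQ (fun i _ => yQ_mono i) hα
      fun i hi u hu => by
        have a := (lg_aY _).au α hα
        have := (Q_mod (yQ_le _ hu) (a.mem u (yQ_le _ hu))).2 (h u (yQ_le _ hu))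
        interval_cases i
        · rw [fix_Z a h u hu]; exact inv_mul_cancel u
        exacts [this, Z_le this]
    have := h (xa T 1) rfl
    rw [e _ rfl, cj_Q' s rfl] at this
    exact ⟨s, by simpa [ub_apply, Co.π, xa, mem_sQ] using congrArg Prod.snd this, e⟩

end H4.U4Tri
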