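import Cfsg.Agent.H91.CL3Spec

/-! CL3 tower: the job M2. -/

set_option autoImplicit false

namespace H4.CLM2

open Subgroup H91.CL

variable {V Γ : Type} [AddCommGroup V] [Group Γ] [Finite Γ] [DistribMulAction Γ V]
  {S : Subgroup Γ}

theorem nor_of {G B : Subgroup Γ} (h : ∀ g ∈ G, ∀ b ∈ B, g * b * g⁻¹ ∈ B) :
    G ≤ normalizer (B : Set Γ) := fun a ha =>
  mem_normalizer_iff.2 fun b => ⟨h a ha b, fun k => by simpa [mul_assoc] using h _ (inv_mem ha) _ k⟩

theorem conj_lam {g l : Γ} (hg : g ∈ normalizer (S : Set Γ)) (hl : l ∈ Lam V S) :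
    g * l * g⁻¹ ∈ Lam V S := by
  change DistribMulAction.toAddMonoidEnd Γ V _ ∈ Subring.closure _ at hl ⊢
  rw [map_mul, map_mul]
  generalize DistribMulAction.toAddMonoidEnd Γ V l = x at hl
  induction hl using Subring.closure_induction with
  | mem x hx =>
    obtain ⟨s, hs, rfl⟩ := hx
    rw [← map_mul, ← map_mul]
    exact Subring.subset_closure ⟨_, (mem_normalizer_iff.1 hg s).1 hs, rfl⟩
  | zero => rw [mul_zero, zero_mul]; exact zero_mem _
  | one => rw [mul_one, ← map_mul, mul_inv_cancel, map_one]; exact one_mem _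
  | add x y _ _ hx hy => rw [mul_add, add_mul]; exact add_mem hx hy
  | neg x _ hx => rw [mul_neg, neg_mul]; exact neg_mem hx
  | mul x y _ _ hx hy =>
    convert mul_mem hx hy using 1
    simp only [mul_assoc]
    rw [← mul_assoc (DistribMulAction.toAddMonoidEnd Γ V g⁻¹), ← map_mul, inv_mul_cancel, map_one,
      one_mul]

theorem comm_lam [FaithfulSMul Γ V] {z l : Γ} (hz : z ∈ centralizer (S : Set Γ))
    (hl : l ∈ Lam V S) : l * z = z * l := by
  have : Subring.closure (DistribMulAction.toAddMonoidEnd Γ V '' S) ≤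
      Subring.centralizer {DistribMulAction.toAddMonoidEnd Γ V z} := by
    rw [Subring.closure_le]
    rintro _ ⟨s, hs, rfl⟩ _ rfl
    rw [← map_mul, ← map_mul, hz s hs]
  have e := this hl _ rfl
  rw [← map_mul, ← map_mul] at e
  exact eq_of_smul_eq_smul (α := V) fun v => (DFunLike.congr_fun e v).symm

theorem jobM2 : JobM2 := by
  intro K V Γ _ _ _ _ _ _ _ _ _ _ sc G H ks S mx st h c hc hl
  have n1 : G ≤ normalizer (Lam V S : Set Γ) := nor_of fun g hg l => conj_lam (st.nor hg)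
  have n2 : G ≤ normalizer ((G ⊓ linG K V Γ : Subgroup Γ) : Set Γ) := nor_of fun g hg b hb =>
    ⟨G.mul_mem (G.mul_mem hg hb.1) (G.inv_mem hg), Lin.conj hb.2 (ks.semi g (ks.le hg))⟩
  have n3 : G ≤ normalizer (((G ⊓ linG K V Γ ⊔ Lam V S) ⊓ centralizer S : Subgroup Γ) : Set Γ) :=
    (le_inf ((le_inf n2 n1).trans (normalizer_inf_normalizer_le_normalizer_sup _ _))
      (nor_of (B := centralizer S) fun g hg b hb s hs => by
        have := hb _ ((mem_normalizer_iff.1 (st.nor (inv_mem hg)) s).1 hs)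
        calc s * (g * b * g⁻¹) = g * (g⁻¹ * s * g⁻¹⁻¹ * b) * g⁻¹ := by group
          _ = g * b * g⁻¹ * s := by rw [this]; group)).trans inf_normalizer_le_normalizer_inf
  have s1 : Group.IsSolvable ↥((G ⊓ linG K V Γ ⊔ Lam V S) ⊓ centralizer S) :=
    SolMod.solvable ((Lam V S).subgroupOf _)
      ((solMod_sup (solv_of_le ks.sol inf_le_left) (inf_le_left.trans n1)).comap
        (inclusion inf_le_left))
      (Group.isSolvable_of_comm fun a b => Subtype.ext (Subtype.ext (comm_lam b.1.2.2 a.2)))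
  obtain ⟨l, h1, h2⟩ := h c hc hl
  have h3 : c⁻¹ * l ∈ (G ⊓ linG K V Γ ⊔ Lam V S) ⊓ centralizer S :=
    ⟨mul_mem (mem_sup_left (inv_mem ⟨hc, hl⟩)) (mem_sup_right h1), fun s hs => by
      rw [mul_assoc, h2 s hs]; group⟩
  have h4 := st.cls.sc_le (st.cen _ (mx.max _ le_sup_left (solv_sup ks.sol s1 n3) (mem_sup_right h3))
    fun s hs => (h3.2 s hs).symm)
  have h5 : c⁻¹ * l ∈ Lam V S := Subring.subset_closure ⟨_, h4, rfl⟩
  simpa using mul_mem h1 (inv_mem h5)

end H4.CLM2
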