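import Cfsg.Agent.Base

/-! Three doubly transitive actions of prime degree: linked symmetric designs are trivial. -/

set_option autoImplicit false

namespace H4.Dp

open Matrix Finset

variable {M X Y Z : Type*} [Group M] [MulAction M X] [MulAction M Y] [MulAction M Z]
  [Fintype X] [Fintype Y] [Fintype Z] {p : ℕ}

/-- doubly transitive of degree `p` -/
structure Two (M X : Type*) [Group M] [MulAction M X] [Fintype X] (p : ℕ) : Prop where
  card : Fintype.card X = p
  le : 2 ≤ p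
  two : ∀ x x' w w' : X, x ≠ x' → w ≠ w' → ∃ m : M, m • x = w ∧ m • x' = w'

theorem Two.nontrivial (h : Two M X p) : Nontrivial X :=
  Fintype.one_lt_card_iff_nontrivial.1 (by have := h.card; have := h.le; omega)

theorem Two.trans (h : Two M X p) (x w : X) : ∃ m : M, m • x = w := by
  have := h.nontrivial
  obtain ⟨x', hx⟩ := exists_ne x
  obtain ⟨w', hw⟩ := exists_ne w
  obtain ⟨m, hm, -⟩ := h.two x x' w w' hx.symm hw.symm
  exact ⟨m, hm⟩

theorem Two.ne (h : Two M X p) : (p : ℚ) ≠ 0 := by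
  have := h.le
  positivity

/-- invariant with zero row sums -/
structure Cen (M : Type*) [Group M] [MulAction M X] [MulAction M Y] (A : Matrix X Y ℚ) : Prop where
  inv : ∀ (m : M) x y, A (m • x) (m • y) = A x y
  row : ∀ x, ∑ y, A x y = 0

theorem Cen.tr {A : Matrix X Y ℚ} (h : Cen M A) (hY : Two M Y p) : Cen M Aᵀ := by
  refine ⟨fun m y x => h.inv m x y, fun y => ?_⟩
  have h1 : ∀ y', ∑ x, A x y' = ∑ x, A x y := fun y' => by
    obtain ⟨m, rfl⟩ := hY.trans y y'
    rw [← Equiv.sum_comp (MulAction.toPerm m)]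
    exact sum_congr rfl fun x _ => h.inv m x y
  have h2 : ∑ y', ∑ x, A x y' = 0 := by
    rw [sum_comm]
    exact sum_eq_zero fun x _ => h.row x
  rw [sum_congr rfl fun y' _ => h1 y', sum_const, card_univ, hY.card, nsmul_eq_mul] at h2
  exact (mul_eq_zero.1 h2).resolve_left hY.ne

theorem Cen.mul {A : Matrix X Y ℚ} {B : Matrix Y Z ℚ} (hA : Cen M A) (hB : Cen M B) :
    Cen M (A * B) := by
  refine ⟨fun m x z => ?_, fun x => ?_⟩
  · rw [mul_apply, mul_apply, ← Equiv.sum_comp (MulAction.toPerm m)]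
    exact sum_congr rfl fun y _ => by
      rw [MulAction.toPerm_apply, hA.inv, hB.inv]
  · simp only [mul_apply]
    rw [sum_comm]
    exact sum_eq_zero fun y _ => by rw [← mul_sum, hB.row, mul_zero]

open Classical in
/-- the projection to the vectors of sum zero -/
noncomputable def prj (X : Type*) (p : ℕ) : Matrix X X ℚ :=
  fun x x' => (if x = x' then 1 else 0) - 1 / p

theorem mul_prj {A : Matrix X Y ℚ} (h : ∀ x, ∑ y, A x y = 0) : A * prj Y p = A := by
  ext x y
  simp only [mul_apply, prj, mul_sub, sum_sub_distrib, ← sum_mul, h]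
  rw [sum_eq_single y (fun b _ hb => by rw [if_neg hb, mul_zero]) (by simp), if_pos rfl]
  ring

theorem prj_mul {A : Matrix X Y ℚ} (h : ∀ y, ∑ x, A x y = 0) : prj X p * A = A := by
  ext x y
  simp only [mul_apply, prj, sub_mul, sum_sub_distrib, ← mul_sum, h]
  rw [sum_eq_single x (fun b _ hb => by rw [if_neg hb.symm, zero_mul]) (by simp), if_pos rfl]
  ring

theorem Cen.scalar {S : Matrix X X ℚ} (h : Cen M S) (hX : Two M X p) :
    ∃ c : ℚ, S = c • prj X p := by
  classical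
  have := hX.nontrivial
  obtain ⟨x₀, x₁, h01⟩ := exists_pair_ne X
  have h1 : ∀ x, S x x = S x₀ x₀ := fun x => by
    obtain ⟨m, rfl⟩ := hX.trans x₀ x
    exact h.inv m _ _
  have h2 : ∀ x x', x ≠ x' → S x x' = S x₀ x₁ := fun x x' hx => by
    obtain ⟨m, rfl, rfl⟩ := hX.two x₀ x₁ x x' h01 hx
    exact h.inv m _ _
  have h3 := h.row x₀
  rw [← add_sum_erase _ _ (mem_univ x₀),
    sum_congr rfl fun x hx => h2 x₀ x (ne_of_mem_erase hx).symm, sum_const,
    card_erase_of_mem (mem_univ _), card_univ, hX.card, nsmul_eq_mul,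
    Nat.cast_sub (by have := hX.le; omega)] at h3
  have hp := hX.ne
  refine ⟨S x₀ x₀ - S x₀ x₁, ?_⟩
  ext x x'
  by_cases hx : x = x'
  · subst hx
    simp only [Matrix.smul_apply, prj, if_true, smul_eq_mul, h1 x]
    field_simp
    push_cast at h3
    linear_combination h3
  · simp only [Matrix.smul_apply, prj, if_neg hx, smul_eq_mul, h2 x x' hx]
    field_simp
    push_cast at h3
    linear_combination h3

open Classical in
/-- centred incidence matrix -/
noncomputable def inc (D : X → Y → Prop) (k p : ℕ) : Matrix X Y ℚ :=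
  fun x y => (if D x y then 1 else 0) - (k : ℚ) / p

open Classical in
theorem sum_ind (D : Y → Prop) : ∑ y, (if D y then (1 : ℚ) else 0) = {y | D y}.ncard := by
  rw [sum_boole, Set.ncard_eq_toFinset_card']
  simp

theorem cen_inc {D : X → Y → Prop} {k : ℕ} (hY : Two M Y p)
    (hD : ∀ (m : M) x y, D (m • x) (m • y) ↔ D x y) (hk : ∀ x, {y | D x y}.ncard = k) :
    Cen M (inc D k p) := by
  refine ⟨fun m x y => by unfold inc; rw [propext (hD m x y)], fun x => ?_⟩
  have := hY.ne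
  simp only [inc, sum_sub_distrib, sum_ind, hk, sum_const, card_univ, hY.card, nsmul_eq_mul]
  field_simp
  ring

theorem gram_apply {D : X → Y → Prop} {k : ℕ} (hY : Two M Y p)
    (hk : ∀ x, {y | D x y}.ncard = k) (x x' : X) :
    (inc D k p * (inc D k p)ᵀ) x x' = {y | D x y ∧ D x' y}.ncard - (k : ℚ) ^ 2 / p := by
  classical
  have := hY.ne
  have e : ∀ y, inc D k p x y * inc D k p x' y = (if D x y ∧ D x' y then (1 : ℚ) else 0) -
      (k : ℚ) / p * (if D x y then (1 : ℚ) else 0) - (k : ℚ) / p * (if D x' y then (1 : ℚ) else 0) +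
      ((k : ℚ) / p) ^ 2 := fun y => by
    by_cases h1 : D x y <;> by_cases h2 : D x' y <;> simp [inc, h1, h2] <;> ring
  simp only [mul_apply, transpose_apply, e, sum_add_distrib, sum_sub_distrib, ← mul_sum,
    sum_const, card_univ, hY.card, nsmul_eq_mul]
  have e1 := sum_ind (fun y => D x y ∧ D x' y)
  have e2 := sum_ind (D x)
  have e3 := sum_ind (D x')
  rw [hk] at e2 e3
  have e1' : ∑ y, (if D x y ∧ D x' y then (1 : ℚ) else 0) = {y | D x y ∧ D x' y}.ncard := by
    convert e1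
  rw [e1', e2, e3]
  field_simp
  ring

theorem gram {D : X → Y → Prop} {k : ℕ} (hX : Two M X p) (hY : Two M Y p)
    (hD : ∀ (m : M) x y, D (m • x) (m • y) ↔ D x y) (hk : ∀ x, {y | D x y}.ncard = k) :
    ∃ (c : ℚ) (l : ℕ), inc D k p * (inc D k p)ᵀ = c • prj X p ∧ c = (k : ℚ) ^ 2 - l * p ∧
      c * (p - 1) = k * (p - k) := by
  have h := cen_inc hY hD hk
  obtain ⟨c, hc⟩ := (h.mul (h.tr hY)).scalar hX
  have := hX.nontrivial
  obtain ⟨x, x', hx⟩ := exists_pair_ne X
  have h1 := gram_apply hY hk x x'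
  have h2 := gram_apply hY hk x x
  rw [hc] at h1 h2
  simp only [Matrix.smul_apply, prj, if_neg hx, if_true, smul_eq_mul, and_self, hk] at h1 h2
  have hp := hY.ne
  refine ⟨c, {y | D x y ∧ D x' y}.ncard, hc, ?_, ?_⟩
  · field_simp at h1
    linear_combination -h1
  · field_simp at h2
    linear_combination h2

theorem arith (hp : p.Prime) {k l : ℕ} {s : ℕ} (h0 : 0 < k) (h1 : k < p)
    (e1 : (s : ℤ) ^ 2 = (k : ℤ) ^ 2 - l * p) (e2 : (s : ℤ) ^ 2 * (p - 1) = k * (p - k)) :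
    k = 1 ∨ k + 1 = p := by
  have hp' : Prime (p : ℤ) := Nat.prime_iff_prime_int.1 hp
  have h0' : (1 : ℤ) ≤ k := by exact_mod_cast h0
  have h1' : (k : ℤ) + 1 ≤ p := by exact_mod_cast h1
  have hs0 : (0 : ℤ) ≤ s := Int.natCast_nonneg s
  have a1 : (s : ℤ) ^ 2 ≤ k := by nlinarith
  have a2 : (s : ℤ) ^ 2 ≤ p - k := by nlinarith
  have a3 : (1 : ℤ) ≤ s := by
    by_contra hc
    have : (s : ℤ) = 0 := by omega
    rw [this] at e2
    nlinarith
  have a4 : (s : ℤ) ≤ s ^ 2 := by nlinarith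
  have hd : (p : ℤ) ∣ (k - s) * (k + s) := ⟨l, by linear_combination -e1⟩
  rcases hp'.dvd_or_dvd hd with hd | hd
  · have : (k : ℤ) - s = 0 := Int.eq_zero_of_dvd_of_nonneg_of_lt (by omega) (by omega) hd
    have : (s : ℤ) ≤ 1 := by nlinarith
    omega
  · have := Int.le_of_dvd (by omega) hd
    have : (s : ℤ) ≤ 1 := by nlinarith
    omega

theorem design (hp : p.Prime) (hX : Two M X p) (hY : Two M Y p) (hZ : Two M Z p)
    {D₁ : X → Y → Prop} {D₂ : Y → Z → Prop} {D₃ : X → Z → Prop} {k k₃ : ℕ}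
    (i1 : ∀ (m : M) x y, D₁ (m • x) (m • y) ↔ D₁ x y)
    (i2 : ∀ (m : M) x y, D₂ (m • x) (m • y) ↔ D₂ x y)
    (i3 : ∀ (m : M) x y, D₃ (m • x) (m • y) ↔ D₃ x y)
    (k1 : ∀ x, {y | D₁ x y}.ncard = k) (k2 : ∀ x, {y | D₂ x y}.ncard = k)
    (k3 : ∀ x, {y | D₃ x y}.ncard = k₃) (h0 : 0 < k) (h1 : k < p) (h2 : 0 < k₃) (h3 : k₃ < p) :
    k₃ = 1 ∨ k₃ + 1 = p := by
  obtain ⟨c₁, -, g1, -, b1⟩ := gram hX hY i1 k1
  obtain ⟨c₂, -, g2, -, b2⟩ := gram hY hZ i2 k2
  obtain ⟨c₃, l, g3, a3, b3⟩ := gram hX hZ i3 k3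
  have C1 := cen_inc hY i1 k1
  have C2 := cen_inc hZ i2 k2
  have C3 := cen_inc hZ i3 k3
  have hp1 : (p : ℚ) - 1 ≠ 0 := by
    have : (2 : ℚ) ≤ p := by exact_mod_cast hX.le
    linarith
  have e12 : c₂ = c₁ := mul_right_cancel₀ hp1 (b2.trans b1.symm)
  subst e12
  have pos : ∀ {c : ℚ} {j : ℕ}, c * (p - 1) = j * (p - j) → 0 < j → j < p → c ≠ 0 := by
    rintro c j e j0 j1 rfl
    have : (0 : ℚ) < j := by exact_mod_cast j0
    have : (j : ℚ) < p := by exact_mod_cast j1
    nlinarith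
  have n1 := pos b1 h0 h1
  have n3 := pos b3 h2 h3
  obtain ⟨c, hc⟩ := ((C3.tr hZ).mul (C1.mul C2)).scalar hZ
  set A := inc D₁ k p
  set B := inc D₂ k p
  set C := inc D₃ k₃ p
  have e1 : c₃ • (A * B) = c • C := by
    have := congrArg (C * ·) hc
    simp only [← Matrix.mul_assoc, g3, Matrix.mul_smul, Matrix.smul_mul, mul_prj C3.row] at this
    rwa [prj_mul (A := A) (C1.tr hY).row] at this
  have e2 : (A * B) * (A * B)ᵀ = (c₂ * c₂) • prj X p := by
    rw [transpose_mul, Matrix.mul_assoc, ← Matrix.mul_assoc B, g2, Matrix.smul_mul,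
      prj_mul (A := Aᵀ) C1.row, Matrix.mul_smul, g1, smul_smul]
  have e3 : (c₃ * c₃ * (c₂ * c₂)) • prj X p = (c * c * c₃) • prj X p := by
    have : (c₃ • (A * B)) * (c₃ • (A * B))ᵀ = (c • C) * (c • C)ᵀ := by rw [e1]
    rwa [transpose_smul, transpose_smul, Matrix.smul_mul, Matrix.mul_smul, Matrix.smul_mul,
      Matrix.mul_smul, e2, g3, smul_smul, smul_smul, smul_smul, smul_smul] at this
  have := hX.nontrivial
  obtain ⟨x, x', hx⟩ := exists_pair_ne X
  have e4 := congrFun (congrFun e3 x) x'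
  have hp0 := hX.ne
  simp only [Matrix.smul_apply, prj, if_neg hx, smul_eq_mul] at e4
  have e5 : c₃ = (c / c₂) * (c / c₂) := by
    field_simp at e4 ⊢
    linear_combination e4
  have e6 : IsSquare (((k₃ : ℤ) ^ 2 - l * p : ℤ) : ℚ) := ⟨c / c₂, by rw [← e5, a3]; push_cast; ring⟩
  obtain ⟨s, hs⟩ := Rat.isSquare_intCast_iff.1 e6
  refine arith hp (l := l) (s := s.natAbs) h2 h3 ?_ ?_
  · rw [Int.natCast_natAbs, sq_abs, hs, sq]
  · rw [Int.natCast_natAbs, sq_abs, sq, ← hs]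
    rw [a3] at b3
    exact_mod_cast b3

end H4.Dp
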