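import Cfsg.Agent.H40.E82Spec

/-! Tower E82, slot Sim: the simple modules of `SL₂(2 ^ f)`. -/

set_option autoImplicit false

namespace H4.E82Sim

open Module Matrix H56.SL2M H40.E82
open scoped MatrixGroups

universe u

theorem finrank_eig {k V I : Type*} [Field k] [DecidableEq k] [AddCommGroup V] [Module k V] [Fintype I]
    (b : Basis I k V) (e : End k V) (d : I → k) (h : ∀ i, e (b i) = d i • b i) (c : k) :
    finrank k (e.eigenspace c) = Fintype.card {i // d i = c} := by
  have k1 : ∀ i x, b.repr (e x) i = d i * b.repr x i := fun i x => by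
    classical
    refine LinearMap.congr_fun (b.ext (f₁ := b.coord i ∘ₗ e) (f₂ := d i • b.coord i) fun l => ?_) x
    by_cases hl : l = i <;> simp [h, hl]
  have : e.eigenspace c = Submodule.span k (b '' {i | d i = c}) := by
    refine le_antisymm (fun x hx => b.mem_span_image.2 fun i hi => ?_) (Submodule.span_le.2 ?_)
    · have := k1 i x
      rw [End.mem_eigenspace_iff.1 hx, map_smul, Finsupp.smul_apply, smul_eq_mul] at this
      exact (mul_right_cancel₀ (Finsupp.mem_support_iff.1 hi) this).symm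
    · rintro _ ⟨i, rfl, rfl⟩
      exact End.mem_eigenspace_iff.2 (h i)
  rw [this, Set.image_eq_range]
  exact finrank_span_eq_card (b.linearIndependent.comp _ Subtype.val_injective)

theorem lucas : ∀ j < 64, ∀ m < 64, (m &&& j = m ↔ ¬ 2 ∣ j.descFactorial m / m.factorial) := by
  decide +kernel

theorem wt_eq (k : Type*) [Field k] [CharP k 2] {j : ℕ} (hj : j < 64) : wt k j = sb j := by
  ext m
  rw [mem_wt, sb, Finset.mem_filter, Finset.mem_range, Ne, CharP.cast_eq_zero_iff k 2,
    Nat.choose_eq_descFactorial_div_factorial]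
  exact ⟨fun h => ⟨by omega, (lucas j hj m (by omega)).2 h.2⟩,
    fun h => ⟨h.2 ▸ Nat.and_le_right, (lucas j hj m h.1).1 h.2⟩⟩

theorem jobSim (a : JobA.{u}) : JobSim.{u} := by
  intro F _ _ k V _ _ _ _ _ _ ι ρ hq hs
  classical
  obtain ⟨a1, -, -, -, -, -, a2, -⟩ := a ι ρ hq
  obtain ⟨φ, hφ, v, hv, j, hj, β, h⟩ := exists_top ι ρ
  let Φ : V →ₗ[k] SL(2, F) → k := LinearMap.pi fun g => φ ∘ₗ ρ g
  have hΦ : ∀ l g, Φ l g = φ (ρ g l) := fun _ _ => rfl
  have hΦ' : ∀ l g g', Φ (ρ g l) g' = Φ l (g' * g) := fun l g g' => by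
    rw [hΦ, hΦ, map_mul, End.mul_apply]
  have inj : Function.Injective Φ := by
    rw [← LinearMap.ker_eq_bot]
    refine (hs _ fun g l hl => ?_).resolve_right fun e => hφ (LinearMap.ext fun l => ?_)
    · exact funext fun g' => (hΦ' l g g').trans (congrFun hl _)
    · have : l ∈ LinearMap.ker Φ := e ▸ trivial
      simpa [hΦ] using congrFun this 1
  have hβ : β ≠ 0 := fun e => hv (inj (funext fun g => by simp [hΦ, h, e]))
  have hspan : Submodule.span k (Set.range fun g => ρ g v) = ⊤ := by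
    refine (hs _ fun g x hx => (Submodule.span_le (p := Submodule.comap (ρ g) _)).2 ?_ hx).resolve_left
      fun e => hv ?_
    · rintro _ ⟨g', rfl⟩
      exact Submodule.subset_span ⟨g * g', by simp⟩
    · have : v ∈ Submodule.span k (Set.range fun g => ρ g v) := Submodule.subset_span ⟨1, by simp⟩
      rwa [e] at this
  have hg : ∀ g (ξ η : Fin 2 → k) (a b : k), (∀ i, ι (g i 0) = a * ξ i + b * η i) → Φ (ρ g v) =
      ∑ m ∈ Finset.range (j + 1), (β * (a ^ m * b ^ (j - m) * j.choose m)) • ff ι j ξ η m := by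
    intro g ξ η a b hab
    simp only [mul_smul β, ← Finset.smul_sum, ← pow_eq_sum]
    funext g'
    rw [hΦ', hΦ, h, Pi.smul_apply, smul_eq_mul]
    simp only [rr, Matrix.SpecialLinearGroup.coe_mul, Matrix.mul_apply, Fin.sum_univ_two, map_add,
      map_mul, hab]
    congr 2
    ring
  have hA : ∀ r, Φ (A ι ρ r (ρ ww v)) = (β * j.choose r) • ff ι j ![1, 0] ![0, 1] r := fun r => by
    by_cases hr : r < Fintype.card F
    swap
    · rw [A, if_neg (by omega), if_neg hr, Nat.choose_eq_zero_of_lt (by omega)]; simp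
    refine sub_eq_zero.1 (mem_of_sum_mem ι ⊥ (j := Fintype.card F - 1) (by omega)
      (fun r => Φ (A ι ρ r (ρ ww v)) - (β * j.choose r) • ff ι j ![1, 0] ![0, 1] r) (fun t => ?_)
      (by omega))
    have e := hg (xx t * ww) ![1, 0] ![0, 1] (ι t) 1 fun i => by
      fin_cases i <;> simp [xx_coe, ww_coe]
    rw [map_mul, End.mul_apply, a1, LinearMap.sum_apply, map_sum, Finset.sum_subset
      (Finset.range_mono (show j + 1 ≤ Fintype.card F from hj)) fun m _ hm => by
        rw [Nat.choose_eq_zero_of_lt (by simpa using hm)]; simp] at e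
    rw [Submodule.mem_bot, Nat.sub_add_cancel (by omega)]
    simp only [smul_sub, Finset.sum_sub_distrib, sub_eq_zero, smul_smul]
    refine Eq.trans (by simp) (e.trans (Finset.sum_congr rfl fun m _ => ?_))
    congr 1
    ring
  have nz : ∀ m : wt k j, β * j.choose m ≠ 0 := fun m => mul_ne_zero hβ (mem_wt.1 m.2).2
  have up : ∀ ξ η : Fin 2 → k, ξ 0 * η 1 - ξ 1 * η 0 ≠ 0 →
      LinearMap.range Φ ≤ Submodule.span k (Set.range fun m : wt k j => ff ι j ξ η m) := by
    intro ξ η hd
    rw [LinearMap.range_eq_map, ← hspan, Submodule.map_span, Submodule.span_le]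
    rintro _ ⟨_, ⟨g, rfl⟩, rfl⟩
    rw [hg g ξ η ((ι (g 0 0) * η 1 - ι (g 1 0) * η 0) / (ξ 0 * η 1 - ξ 1 * η 0))
      ((ξ 0 * ι (g 1 0) - ξ 1 * ι (g 0 0)) / (ξ 0 * η 1 - ξ 1 * η 0)) fun i => by
        rw [div_mul_eq_mul_div, div_mul_eq_mul_div, ← add_div, eq_div_iff hd]
        fin_cases i <;> simp only [Fin.zero_eta, Fin.mk_one] <;> ring]
    refine Submodule.sum_mem _ fun m hm => ?_
    by_cases h0 : (j.choose m : k) = 0
    · simp [h0]
    · exact Submodule.smul_mem _ _ (Submodule.subset_span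
        ⟨⟨m, mem_wt.2 ⟨Nat.lt_succ_iff.1 (Finset.mem_range.1 hm), h0⟩⟩, rfl⟩)
  have low : Fintype.card (wt k j) ≤ finrank k (LinearMap.range Φ) := by
    rw [← finrank_span_eq_card (ff_indep ι hj)]
    refine Submodule.finrank_mono (Submodule.span_le.2 ?_)
    rintro _ ⟨m, rfl⟩
    exact (Submodule.smul_mem_iff _ (nz m)).1 ⟨_, hA m⟩
  have hz : ∀ g, Φ (ρ ww v) g = β * ι (g 1 1) ^ j := fun g => by
    rw [hΦ', hΦ, h]; simp [ww_coe, Matrix.mul_apply]
  refine ⟨j, hj, bot_le, fun g x hx => by rw [hx, map_zero]; rfl, fun _ _ _ => trivial, ρ ww v,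
    trivial, fun x _ => ?_, fun c hc r hr => ?_, fun r hr => inj ?_, fun s => sub_eq_zero.2 (inj ?_),
    sub_eq_zero.2 (inj ?_), fun y μ n ⟨ξ, η, hd, hξ, hη⟩ hn ho _ m' => ?_⟩ <;>
    try rw [← wt_eq k (hj.trans_le hq)] at *
  · obtain ⟨c, hc⟩ := (Submodule.mem_span_range_iff_exists_fun k).1
      (up ![1, 0] ![0, 1] (by simp) ⟨x, rfl⟩)
    refine ⟨fun r => if h : r ∈ wt k j then c ⟨r, h⟩ / (β * j.choose r) else 0,
      sub_eq_zero.2 (inj ?_)⟩
    rw [← hc, map_sum, ← Finset.sum_coe_sort (wt k j)]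
    refine Finset.sum_congr rfl fun m _ => ?_
    simp only [map_smul, hA, dif_pos m.2, smul_smul, div_mul_cancel₀ _ (nz m)]
  · have := congrArg Φ hc
    rw [map_sum, map_zero, ← Finset.sum_coe_sort] at this
    simp only [map_smul, hA, smul_smul] at this
    exact (mul_eq_zero.1 (Fintype.linearIndependent_iff.1 (ff_indep ι hj) _ this ⟨r, hr⟩)).resolve_right
      (nz ⟨r, hr⟩)
  · have : (j.choose r : k) = 0 := by
      by_cases e : r ≤ j
      · exact not_not.1 fun e' => hr (mem_wt.2 ⟨e, e'⟩)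
      · rw [Nat.choose_eq_zero_of_lt (by omega), Nat.cast_zero]
    rw [hA, this, mul_zero, zero_smul, map_zero]
  · funext g
    rw [map_smul, Pi.smul_apply, hΦ', hz, hz, smul_eq_mul, mul_left_comm, ← mul_pow, ← map_mul]
    congr 3
    simp [hh_coe, Matrix.mul_apply, mul_left_comm (s : F)]
  · funext g
    rw [hA, ← End.mul_apply, ← map_mul, a2, map_one, End.one_apply, hΦ, h]
    simp [ff, rr]
  have ind : LinearIndependent k fun m : wt k j => ff ι j ξ η m :=
    linearIndependent_iff_card_le_finrank_span.2 (low.trans (Submodule.finrank_mono (up ξ η hd)))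
  have eq := Submodule.eq_of_le_of_finrank_le (up ξ η hd) ((finrank_span_eq_card ind).trans_le low)
  have ex : ∀ m : wt k j, ∃ l, Φ l = ff ι j ξ η m := fun m =>
    LinearMap.mem_range.1 (eq ▸ Submodule.subset_span ⟨m, rfl⟩)
  choose l hl using ex
  have ind' : LinearIndependent k l := LinearIndependent.of_comp Φ (by
    rwa [show Φ ∘ l = fun m : wt k j => ff ι j ξ η m from funext hl])
  have hc : Fintype.card (wt k j) = finrank k V := by
    rw [← LinearMap.finrank_range_of_inj inj, eq, finrank_span_eq_card ind]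
  rw [top_inf_eq, bot_inf_eq, finrank_bot, zero_add,
    finrank_eig (basisOfLinearIndependentOfCardEqFinrank' l ind' hc) _
    (fun m => (μ : k) ^ (m : ℕ) * (μ⁻¹ : kˣ) ^ (j - m)) fun m => inj (funext fun g => ?_)]
  · rw [cw, ← wt_eq k (hj.trans_le hq), ← Fintype.card_coe]
    refine Fintype.card_congr ((Equiv.subtypeSubtypeEquivSubtypeInter (· ∈ wt k j)
      fun m => (μ : k) ^ m * (μ⁻¹ : kˣ) ^ (j - m) = μ ^ m').trans (Equiv.subtypeEquivRight fun m => ?_))
    rw [Finset.mem_filter]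
    refine and_congr_right fun hm => ?_
    obtain ⟨i, rfl⟩ := Nat.exists_eq_add_of_le (mem_wt.1 hm).1
    obtain ⟨n, rfl⟩ : ∃ n', n = n' + 1 := ⟨n - 1, by have := ho.pos; omega⟩
    have e1 : μ ^ n = μ⁻¹ := eq_inv_of_mul_eq_one_left (by rw [← pow_succ, ← hn, pow_orderOf_eq_one])
    have e2 : μ ^ (2 * m + n * (m + i)) = μ ^ m * μ⁻¹ ^ i := by
      rw [pow_add, pow_mul μ n, e1, pow_add, two_mul, pow_add, inv_pow μ m, mul_assoc,
        mul_inv_cancel_left]
    rw [Nat.add_sub_cancel_left, Nat.add_sub_cancel, ← Units.val_pow_eq_pow_val,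
      ← Units.val_pow_eq_pow_val, ← Units.val_pow_eq_pow_val, ← Units.val_mul, Units.val_inj, ← e2,
      pow_eq_pow_iff_modEq, hn]
    rfl
  · simp only [coe_basisOfLinearIndependentOfCardEqFinrank', hΦ', map_smul, hl, ff, Pi.smul_apply,
      rr_mul ι g y hξ, rr_mul ι g y hη, mul_pow, smul_eq_mul]
    ring

end H4.E82Sim
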