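import Cfsg.Agent.H4.PReg
import Cfsg.Agent.H12.Four

/-! Class sizes `{1, n, m, n m}` with coprime `n`, `m`: both are prime powers (row S4146). -/

set_option autoImplicit false

open Cfsg Subgroup H98 H4.PR

namespace H4.FS

variable {G : Type*} [Group G] [Finite G]

theorem nd {K L : Subgroup G} {r : ℕ} (hr : r.Prime) (h : ∀ a ∈ K, PE r a → a ∈ L) :
    ¬ r ∣ L.relIndex K := fun hd => by
  have := Fact.mk hr
  obtain ⟨R, hR⟩ := exists_isSyl r K
  exact hR.not_dvd_relIndex (hd.trans (relIndex_dvd_of_le_left K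
    fun a ha => h a (hR.le ha) (pe_of hr hR.isPGroup ha)))

omit [Finite G] in
theorem dv {K L : Subgroup G} {r : ℕ} (hr : r.Prime) (h : L ≤ K) {y : G} (h1 : y ∈ K)
    (h2 : y ∈ normalizer (L : Set G)) (h3 : PE r y) (h4 : y ∉ L) : r ∣ L.relIndex K := by
  have hn : zpowers y ⊔ L ≤ normalizer (L : Set G) := sup_le (zpowers_le.2 h2) le_normalizer
  rw [← relIndex_mul_relIndex L (zpowers y ⊔ L) K le_sup_right (sup_le (zpowers_le.2 h1) h)]
  refine Dvd.dvd.mul_right (by_contra fun e => h4 (mem_of_pow (H12.pow_relIndex_mem hn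
    (mem_sup_left (mem_zpowers y))) ?_)) _
  obtain ⟨k, hk⟩ := h3
  rw [hk]
  exact ((hr.coprime_iff_not_dvd.2 e).symm).pow_right k

theorem cmp {L : Subgroup G} {x g y : G} {n k r : ℕ} (hr : r.Prime) (h1 : L ≤ Cz x)
    (h2 : ¬ r ∣ L.relIndex (Cz x)) (hx : ind x = n * k) (hk : ¬ r ∣ k) (h3 : L ≤ Cz g)
    (h4 : y ∈ Cz g) (h5 : y ∈ normalizer (L : Set G)) (h6 : PE r y) (h7 : y ∉ L) : ¬ n ∣ ind g := by
  rintro ⟨j, hj⟩
  have e := (relIndex_mul_index h1).trans (relIndex_mul_index h3).symm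
  have n0 : 0 < n := Nat.pos_of_ne_zero fun e => (ind_pos x).ne' (by rw [hx, e, zero_mul])
  change _ * ind x = _ * ind g at e
  rw [hx, hj, mul_left_comm, mul_left_comm _ n, mul_right_inj' n0.ne'] at e
  exact (hr.dvd_mul.1 (e ▸ (dv hr h3 h4 h5 h6 h7).mul_right j)).elim h2 hk

theorem ind_mul {x w : G} (h : w ∈ Cz x) (hc : (orderOf x).Coprime (orderOf w)) :
    (Cz w).relIndex (Cz x) * ind x = ind (x * w) := by
  rw [ind, ind, H24.centralizer_mul_of_coprime (mem_cent_iff.1 h).symm hc, ← inf_relIndex_left,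
    relIndex_mul_index inf_le_left]

theorem cen_of_nd {r : ℕ} (hr : r.Prime) (h : ∀ g : G, ¬ r ∣ ind g) {w : G} (hw : PE r w) :
    w ∈ center G := by
  have := Fact.mk hr
  obtain ⟨R, hR⟩ := hw.zp.exists_le_sylow
  have := eq_top_of_forall_conj_mem fun g => exists_conj_mem_centralizer_sylow R (h g)
  exact mem_center_iff.2 fun g => (this.ge (mem_top g) w (hR (mem_zpowers w))).symm

omit [Finite G] in
theorem me (x : G) : x ∈ Cz x := mem_cent_iff.2 rfl

omit [Finite G] in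
theorem sy {x y : G} (h : x ∈ Cz y) : y ∈ Cz x := mem_cent_iff.2 (mem_cent_iff.1 h).symm

theorem mem_of_pe {K L : Subgroup G} (h : ∀ r : ℕ, r.Prime → ∀ a ∈ K, PE r a → a ∈ L) : K ≤ L :=
  fun a ha => mem_of_forall_primePow_mem a fun e q k hq _ hk => h q hq _ (pow_mem ha e) ⟨k, hk⟩

omit [Finite G] in
theorem cpr {r s : ℕ} {x y : G} (hr : r.Prime) (hs : s.Prime) (ne : r ≠ s) (hx : PE r x)
    (hy : PE s y) : (orderOf x).Coprime (orderOf y) := hx.choose_spec ▸ hy.cop hs hr ne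

/-- The class sizes are `1, n, m, n m`. -/
structure CS (G : Type*) [Group G] (n m : ℕ) : Prop where
  hn : 1 < n
  hm : 1 < m
  cop : n.Coprime m
  all : ∀ g : G, ind g = 1 ∨ ind g = n ∨ ind g = m ∨ ind g = n * m
  exn : ∃ g : G, ind g = n
  exm : ∃ g : G, ind g = m
  exnm : ∃ g : G, ind g = n * m

namespace CS

variable {n m : ℕ} (h : CS G n m) {x y g w : G}
include h

omit [Finite G] in
theorem symm : CS G m n :=
  ⟨h.hm, h.hn, h.cop.symm, fun g => by rw [mul_comm]; have := h.all g; tauto, h.exm, h.exn,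
    mul_comm n m ▸ h.exnm⟩

omit [Finite G] in
theorem nm : ¬ n ∣ m := fun e => h.hn.ne' (Nat.Coprime.eq_one_of_dvd h.cop e)

omit [Finite G] in
theorem nz (hx : ind x = n) : x ∉ center G := fun e => h.hn.ne' (hx.symm.trans (ind_eq_one_iff.2 e))

omit [Finite G] in
theorem dvd (g : G) : ind g ∣ n * m := by
  rcases h.all g with e | e | e | e <;> simp [e]

omit [Finite G] in
theorem of_dvd (h1 : ind w ∣ n) (h2 : w ∉ center G) : ind w = n := by
  rcases h.all w with e | e | e | e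
  · exact absurd (ind_eq_one_iff.1 e) h2
  · exact e
  · exact absurd (e ▸ h1) h.symm.nm
  · exact absurd ((dvd_mul_left m n).trans (e ▸ h1)) h.symm.nm

omit [Finite G] in
theorem of_nd (h1 : ¬ n ∣ ind w) (h2 : w ∉ center G) : ind w = m := by
  rcases h.all w with e | e | e | e
  · exact absurd (ind_eq_one_iff.1 e) h2
  · exact absurd e.symm.dvd h1
  · exact e
  · exact absurd (e ▸ dvd_mul_right n m) h1

theorem cz_eq (hx : ind x = n) (h1 : Cz x ≤ Cz w) (h2 : w ∉ center G) : ind w = n ∧ Cz x = Cz w :=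
  have := h.of_dvd (hx ▸ index_dvd_of_le h1) h2
  ⟨this, eq_of_le_of_index_le h1 (hx.trans this.symm).le⟩

theorem prim : ∃ p : ℕ, p.Prime ∧ ∃ x : G, PE p x ∧ ind x = n := by
  obtain ⟨x, hx⟩ := h.exn
  by_contra! hc
  exact h.nz hx (mem_of_forall_primePow_mem x fun e q k hq _ hk => by_contra fun hz =>
    hc q hq _ ⟨k, hk⟩ (h.of_dvd (hx ▸ ind_pow_dvd x e) hz))

theorem rel (hx : ind x = n) (h1 : w ∈ Cz x) (hc : (orderOf x).Coprime (orderOf w)) :
    Cz x ≤ Cz w ∨ (Cz w).relIndex (Cz x) = m := by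
  have e := ind_mul h1 hc
  have n0 := h.hn
  rw [hx] at e
  rcases h.all (x * w) with e' | e' | e' | e'
  · exact absurd (Nat.eq_one_of_mul_eq_one_left (e.trans e')) n0.ne'
  · exact .inl (relIndex_eq_one.1 ((mul_eq_right₀ (by omega)).1 (e.trans e')))
  · exact absurd (Dvd.intro_left _ (e.trans e')) h.nm
  · exact .inr (Nat.eq_of_mul_eq_mul_right (by omega) (e.trans (e'.trans (mul_comm n m))))

theorem top (hx : ind x = n * m) (h1 : w ∈ Cz x) (hc : (orderOf x).Coprime (orderOf w)) :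
    Cz x ≤ Cz w := by
  have e := (ind_mul h1 hc).dvd.trans (h.dvd _)
  rw [← hx] at e
  nth_rewrite 2 [← one_mul (ind x)] at e
  exact relIndex_eq_one.1 (Nat.dvd_one.1 (Nat.dvd_of_mul_dvd_mul_right (ind_pos x) e))

theorem ti (hx : ind x = n) (hy : ind y = m) (h1 : Cz x ⊓ Cz y ≤ center G) : False := by
  obtain ⟨g, hg⟩ := h.exnm
  have e := eq_of_le_of_index_le (center_le_centralizer ({g} : Set G)) (by
    refine (Nat.le_of_dvd (Nat.pos_of_ne_zero index_ne_zero_of_finite)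
      (index_dvd_of_le h1)).trans (index_inf_le.trans ?_)
    exact (congrArg₂ _ hx hy).trans_le hg.ge)
  have := ind_eq_one_iff.2 (e.ge (me g))
  rw [hg] at this
  exact h.hn.ne' (Nat.eq_one_of_mul_eq_one_right this)

theorem ti' (hx : ind x = n) (h1 : ∀ a ∈ Cz x, Cz x ≤ Cz a) : False := by
  obtain ⟨y, hy⟩ := h.exm
  refine h.ti hx hy fun w hw => by_contra fun hz => ?_
  have := h1 y ((h.cz_eq hx (h1 w hw.1) hz).2.ge (sy hw.2))
  exact h.symm.nm (hx ▸ hy ▸ index_dvd_of_le this)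

omit h in
theorem le_cz {K : Subgroup G} (h1 : ∀ r : ℕ, r.Prime → ∀ a ∈ K, PE r a → K ≤ Cz a) :
    ∀ a ∈ K, K ≤ Cz a := fun _ ha => le_cent_iff_mem_centralizer.2 (mem_of_pe
  (fun r hr a ha h2 => le_cent_iff_mem_centralizer.1 (h1 r hr a ha h2)) ha)

theorem exr {r : ℕ} (hr : r.Prime) (hd : r ∣ n) : ∃ y : G, PE r y ∧ y ∉ center G := by
  obtain ⟨x, hx⟩ := h.exn
  by_contra! hc
  refine nd (K := ⊤) (L := Cz x) hr (fun a _ ha => center_le_centralizer _ (hc a ha)) ?_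
  rw [relIndex_top_right]
  exact hd.trans hx.symm.dvd

theorem cen {r : ℕ} (hr : r.Prime) (h1 : ¬ r ∣ n) (h2 : ¬ r ∣ m) (hw : PE r w) : w ∈ center G :=
  cen_of_nd hr (fun g e => (hr.dvd_mul.1 (e.trans (h.dvd g))).elim h1 h2) hw

theorem lemB (hx : ind x = n)
    (h1 : ∀ r : ℕ, r.Prime → r ∣ n → ∀ a ∈ Cz x, PE r a → a ∈ center G) : False := by
  obtain ⟨r, hr, hd⟩ := Nat.exists_prime_and_dvd h.hn.ne'
  obtain ⟨y, y1, y2⟩ := h.exr hr hd
  have key : ∀ g y : G, PE r y → y ∉ center G → y ∈ Cz g → g ∉ center G → ind g = m :=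
    fun g y y1 y2 y3 => h.of_nd (cmp hr (center_le_centralizer _) (nd hr (h1 r hr hd))
      (hx.trans (mul_one n).symm) hr.not_dvd_one (center_le_centralizer _) y3
      (le_normalizer_of_normal (mem_top y)) y1 y2)
  have hy := key y y y1 y2 (me y) y2
  have k2 : ∀ y : G, PE r y → y ∉ center G → ∀ s : ℕ, s.Prime → s ≠ r → ∀ v ∈ Cz y, PE s v →
      v ∉ center G → Cz y = Cz v := fun y y1 y2 s hs sr v hv v1 v2 => by
    have c := cpr hr hs sr.symm y1 v1
    have e := ind_mul hv c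
    have c' : Commute y v := (mem_cent_iff.1 hv).symm
    rw [key y y y1 y2 (me y) y2, key (y * v) y y1 y2 (mem_cent_iff.2 (by
      rw [← mul_assoc, mul_assoc y v, ← c'.eq, mul_assoc])) fun e => y2 (ind_eq_one_iff.1
      (Nat.dvd_one.1 (ind_eq_one_iff.2 e ▸ ind_dvd_ind_mul_left c' c))),
      mul_eq_right₀ (by have := h.hm; omega)] at e
    exact (h.symm.cz_eq (key y y y1 y2 (me y) y2) (relIndex_eq_one.1 e) v2).2
  by_cases hc : ∃ s : ℕ, s.Prime ∧ s ≠ r ∧ ∃ v ∈ Cz y, PE s v ∧ v ∉ center G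
  · obtain ⟨s, hs, sr, v, hv, v1, v2⟩ := hc
    have e := k2 y y1 y2 s hs sr v hv v1 v2
    refine h.symm.ti' hy (le_cz fun t ht a ha a1 => ?_)
    by_cases az : a ∈ center G
    · exact fun g _ => sy (center_le_centralizer _ az)
    by_cases tr : t = r
    · exact (e.trans (k2 a (tr ▸ a1) az s hs sr v (sy (e.le ha)) v1 v2).symm).le
    · exact (k2 y y1 y2 t ht tr a ha a1 az).le
  · push Not at hc
    refine h.ti hx hy (mem_of_pe fun t ht a ha a1 => ?_)
    by_cases tr : t = r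
    · exact h1 r hr hd a ha.1 (tr ▸ a1)
    · exact hc t ht tr a ha.2 a1

theorem lemM {p : ℕ} (hp : p.Prime) (x1 : PE p x) (hx : ind x = n) :
    (∀ r : ℕ, r.Prime → r ∣ m → r = p) ∨ ∃ q : ℕ, q ≠ p ∧
      ∀ s : ℕ, s.Prime → s ≠ p → s ≠ q → ∀ w ∈ Cz x, PE s w → Cz x ≤ Cz w := by
  have hz : ∀ w : Cz x, w ∈ center (Cz x) ↔ Cz x ≤ Cz (w : G) := fun w =>
    ⟨fun e g hg => mem_cent_iff.2 (congrArg Subtype.val (mem_center_iff.1 e ⟨g, hg⟩)),
      fun e => mem_center_iff.2 fun g => Subtype.ext (mem_cent_iff.1 (e g.2))⟩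
  by_cases hc : ∀ q : ℕ, q.Prime → q ≠ p → ∃ s : ℕ, s.Prime ∧ s ≠ p ∧ s ≠ q ∧
      ∃ w : Cz x, w ∉ center (Cz x) ∧ PE s w
  · obtain ⟨q, hq, hq'⟩ := Nat.exists_infinite_primes (p + 1)
    obtain ⟨s, hs, sp, -, w, wz, hw⟩ := hc q hq' (by omega)
    refine .inl fun r hr hd => by_contra fun rp => Hy.not_dvd (m := m) ⟨hp, fun a ha az => ?_, hc⟩
      (hw.ndvd hs hp sp) wz hr rp hd
    refine (H18.index_centralizer_coe _ a).trans ((h.rel hx a.2 ?_).resolve_left (mt (hz a).2 az))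
    rw [x1.choose_spec, orderOf_coe]
    exact (hp.coprime_iff_not_dvd.2 ha).pow_left _
  · push Not at hc
    obtain ⟨q, -, qp, hc⟩ := hc
    exact .inr ⟨q, qp, fun s hs sp sq w hw ⟨k, hk⟩ => by_contra fun e =>
      hc s hs sp sq ⟨w, hw⟩ (mt (hz ⟨w, hw⟩).1 e) k (by rw [← orderOf_coe, hk])⟩

theorem one : ∃ q : ℕ, ∀ r : ℕ, r.Prime → r ∣ m → r = q := by
  by_contra hc
  obtain ⟨p, hp, x, x1, hx⟩ := h.prim
  obtain ⟨q, qp, h1⟩ := (h.lemM hp x1 hx).resolve_left fun e => hc ⟨p, e⟩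
  by_cases h2 : ∃ s : ℕ, s.Prime ∧ s ≠ p ∧ s ≠ q ∧ ∃ w ∈ Cz x, PE s w ∧ w ∉ center G
  · obtain ⟨s, hs, sp, sq, w, hw, w1, w2⟩ := h2
    obtain ⟨hw', e⟩ := h.cz_eq hx (h1 s hs sp sq w hw w1) w2
    obtain ⟨t, ts, h3⟩ := (h.lemM hs w1 hw').resolve_left fun e => hc ⟨s, e⟩
    rw [← e] at h3
    have h4 : ∀ r : ℕ, r.Prime → r ≠ t → ∀ a ∈ Cz x, PE r a → Cz x ≤ Cz a := fun r hr rt => by
      by_cases rs : r = s
      · exact h1 r hr (rs ▸ sp) (rs ▸ sq)
      · exact h3 r hr rs rt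
    refine h.ti' hx (le_cz fun r hr a ha a1 => ?_)
    by_cases rt : r = t
    · have : Cz x ≤ Cz a ∨ (Cz a).relIndex (Cz x) = m := by
        by_cases rp : r = p
        · rw [e]; exact h.rel hw' (e.le ha) (cpr hs hr (fun e => sp (e.trans rp)) w1 a1)
        · exact h.rel hx ha (cpr hp hr (Ne.symm rp) x1 a1)
      refine this.resolve_right fun e' => hc ⟨t, fun r' hr' hd => by_contra fun ne => ?_⟩
      exact nd hr' (fun b hb b1 => sy (h4 r' hr' ne b hb b1 ha)) (e' ▸ hd)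
    · exact h4 r hr rt a ha a1
  · push Not at h2
    have h3 : ∀ r : ℕ, r.Prime → r ∣ m → r = p ∨ r = q := fun r hr hd => by
      by_contra! ne
      have := Fact.mk hr
      obtain ⟨y, y1, y2⟩ := h.symm.exr hr hd
      obtain ⟨R, hR⟩ := H18.exists_sylow_le_of_not_dvd (H := Cz x) (p := r) fun e =>
        hr.one_lt.ne' (Nat.eq_one_of_dvd_coprimes h.cop (e.trans hx.dvd) hd)
      obtain ⟨g, -, hg⟩ := (isSyl_sylow R).exists_cj_le y1.zp le_top
      have y3 := hg (conj_mem_cj (mem_zpowers y))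
      have := h2 r hr ne.1 ne.2 _ (hR y3) (pe_of hr R.2 y3)
      exact y2 (by simpa [mul_assoc] using Normal.conj_mem' inferInstance _ this g)
    refine h.lemB hx fun r hr hd => h2 r hr (fun e => hc ⟨q, fun s hs hd' => ?_⟩)
      fun e => hc ⟨p, fun s hs hd' => ?_⟩
    · exact (h3 s hs hd').resolve_left fun e' => hr.one_lt.ne'
        (Nat.eq_one_of_dvd_coprimes h.cop hd ((e.trans e'.symm).dvd.trans hd'))
    · exact (h3 s hs hd').resolve_right fun e' => hr.one_lt.ne'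
        (Nat.eq_one_of_dvd_coprimes h.cop hd ((e.trans e'.symm).dvd.trans hd'))

end CS

end H4.FS
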