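import Cfsg.Agent.H4.FourA
import Cfsg.Agent.S4127
import Cfsg.Agent.H8.AbFitting
import Cfsg.Agent.H29.Burnside
import Cfsg.Agent.H2.MinNormal

/-! Camina's theorem: class sizes `{1, p^a, q^b, p^a q^b}` force nilpotency (row S4146). -/

set_option autoImplicit false

open Cfsg Subgroup H98 H4.PR

namespace H4.FS

variable {G : Type*} [Group G] [Finite G]

theorem cen_core {p : ℕ} (hp : p.Prime) {u : G} (h : ¬ p ∣ ind u) :
    u ∈ centralizer (pCore p G : Set G) := by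
  have := Fact.mk hp
  obtain ⟨P, hP⟩ := H18.exists_sylow_le_of_not_dvd h
  exact le_cent_iff_mem_centralizer.1 (((isPGroup_pCore p G).le_sylow_of_normal P).trans hP)

/-- The prime power case. -/
structure PP (G : Type*) [Group G] (n m p q : ℕ) : Prop extends CS G n m where
  hp : p.Prime
  hq : q.Prime
  pn : ∀ r : ℕ, r.Prime → r ∣ n → r = p
  qm : ∀ r : ℕ, r.Prime → r ∣ m → r = q

namespace PP

variable {n m p q : ℕ} (h : PP G n m p q) {x y u w : G}
include h

omit [Finite G] in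
theorem symm : PP G m n q p := ⟨h.toCS.symm, h.hq, h.hp, h.qm, h.pn⟩

omit [Finite G] in
theorem pd : p ∣ n :=
  have ⟨r, hr, hd⟩ := Nat.exists_prime_and_dvd h.hn.ne'
  (h.pn r hr hd).symm.dvd.trans hd

omit [Finite G] in
theorem pm : ¬ p ∣ m := fun e => h.hp.one_lt.ne' (Nat.eq_one_of_dvd_coprimes h.cop h.pd e)

omit [Finite G] in
theorem ne : p ≠ q := fun e => h.pm (e.dvd.trans h.symm.pd)

omit [Finite G] in
theorem pow : ∃ a, n = p ^ a :=
  ⟨_, Nat.eq_prime_pow_of_unique_prime_dvd (by have := h.hn; omega) fun hr hd => h.pn _ hr hd⟩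

theorem cen' {r : ℕ} (hr : r.Prime) (h1 : r ≠ p) (h2 : r ≠ q) (hw : PE r w) : w ∈ center G :=
  h.cen hr (mt (h.pn r hr) h1) (mt (h.qm r hr) h2) hw

theorem solv : Group.IsSolvable G := by
  have : Group.IsSolvable (G ⧸ center G) := H29.isSolvable_of_prime_dvd_card h.hp h.hq
    fun r hr hd => by_contra fun e => nd (K := ⊤) hr (fun a _ ha =>
      h.cen' hr (fun e' => e (.inl e')) (fun e' => e (.inr e')) ha) (by rwa [relIndex_top_right])
  have : Group.IsSolvable (center G) :=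
    isSolvable_of_comm fun a b => Subtype.ext (mem_center_iff.1 b.2 a)
  exact solvable_of_ker_le_range (center G).subtype (QuotientGroup.mk' (center G)) (by simp)

theorem npc (x1 : PE p x) (hx : ind x = n) (hw : PE q w) : w ∈ pCore q G := by
  have := Fact.mk h.hp
  have := Fact.mk h.hq
  obtain ⟨a, ha⟩ := h.pow
  obtain ⟨P, N, hN, hc⟩ := Cfsg.Agent.S4127.result (G := G) p a (fun y e => by
    have := e.trans (h.dvd y)
    rw [ha, pow_succ] at this
    exact h.pm (Nat.dvd_of_mul_dvd_mul_left (pow_pos h.hp.pos a) this)) ⟨x, x1, hx.trans ha⟩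
  have h1 : ¬ p ∣ Nat.card N := hc.index_eq_card ▸ P.not_dvd_index
  have := isNilpotent_of_primePow_central N h.hq fun y hy s k hs sq hk => by
    by_cases sp : s = p
    · rcases k with _ | k
      · rw [orderOf_eq_one_iff.1 (hk.trans (pow_zero s))]; exact one_mem _
      · exact absurd ((sp.symm.dvd.trans (hk ▸ dvd_pow_self s k.succ_ne_zero)).trans
          (N.orderOf_dvd_natCard hy)) h1
    · exact h.cen' hs sp sq ⟨k, hk⟩
  obtain ⟨b, hb⟩ := P.2.exists_card_eq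
  exact H2.le_pCore_of_le_fitting hw.zp (zpowers_le.2 (H2.le_fitting N (mem_of_coprime_index
    (by rw [hc.symm.index_eq_card, hb]; exact (hw.cop h.hq h.hp h.ne).symm)))) (mem_zpowers w)

theorem prim' (h1 : ∀ u : G, PE p u → ind u ≠ n) : ∃ x : G, PE q x ∧ ind x = n := by
  obtain ⟨r, hr, x, x1, hx⟩ := h.prim
  by_cases rq : r = q
  · exact ⟨x, rq ▸ x1, hx⟩
  · exact absurd (h.cen' hr (fun e => h1 x (e ▸ x1) hx) rq x1) (h.nz hx)

theorem case2 (h1 : ∀ u : G, PE p u → ind u ≠ n) (y1 : PE q y) (hy : ind y = m) : False := by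
  have := Fact.mk h.hq
  obtain ⟨x, x1, hx⟩ := h.prim' h1
  have hP : ∀ u : G, PE p u → u ∈ pCore p G := fun u => h.symm.npc y1 hy
  have hT : pCore p G ⊔ Cz x = ⊤ := by
    rw [← index_eq_one]
    by_contra e
    obtain ⟨r, hr, hd⟩ := Nat.exists_prime_and_dvd e
    have := h.pn r hr (hd.trans (hx ▸ index_dvd_of_le le_sup_right))
    refine nd (K := ⊤) (L := pCore p G ⊔ Cz x) h.hp (fun a _ ha => mem_sup_left (hP a ha)) ?_
    rw [relIndex_top_right]
    exact this.symm.dvd.trans hd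
  obtain ⟨Q, hQ⟩ := y1.zp.exists_le_sylow
  obtain ⟨g, hg⟩ := exists_conj_mem_centralizer_sylow Q (x := x) (hx ▸ h.symm.pm)
  have g1 : g * x * g⁻¹ ∈ Cz y := sy (le_cent_iff_mem_centralizer.2 hg (hQ (mem_zpowers y)))
  have key : pCore p G ≤ Cz x := le_of_forall_conj_mem fun u hu => by
    have u1 := pe_of h.hp (isPGroup_pCore p G) hu
    have u2 : u ∈ Cz y := le_cent_iff_mem_centralizer.2 (cen_core h.hp (hy ▸ h.pm)) hu
    obtain ⟨T, hT'⟩ := exists_isSyl q (Cz u ⊓ Cz y)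
    have t1 : IsSyl q T (Cz y) := isSyl_of_not_dvd_relIndex (hT'.le.trans inf_le_right)
      hT'.isPGroup fun e => by
        rw [← relIndex_mul_relIndex T _ _ hT'.le inf_le_right, inf_relIndex_right] at e
        refine (h.hq.dvd_mul.1 e).elim hT'.not_dvd_relIndex fun e => ?_
        rcases h.toCS.symm.rel hy u2 (cpr h.hq h.hp h.ne.symm y1 u1) with e' | e'
        · exact h.hq.not_dvd_one (relIndex_eq_one.2 e' ▸ e)
        · exact h.symm.pm (e' ▸ e)
    obtain ⟨c, -, hc⟩ := t1.exists_cj_le (Q := zpowers (g * x * g⁻¹))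
      (PE.zp ⟨_, ((MulAut.conj g).orderOf_eq x).trans x1.choose_spec⟩) (zpowers_le.2 g1)
    have c1 := mem_cent_iff.1 (hT'.le (hc (conj_mem_cj (mem_zpowers _)))).1
    obtain ⟨a, ha, b, hb, e⟩ := (mem_sup_right_norm le_normalizer_of_normal).1
      (hT.ge (mem_top (c * g)))
    refine ⟨a⁻¹, inv_mem ha, mem_cent_iff.2 ?_⟩
    have e1 : c * (g * x * g⁻¹) * c⁻¹ = a * x * a⁻¹ := by
      calc _ = c * g * x * (c * g)⁻¹ := by group
        _ = a * (b * x) * b⁻¹ * a⁻¹ := by rw [e]; group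
        _ = _ := by rw [mem_cent_iff.1 hb]; group
    rw [e1] at c1
    calc a⁻¹ * u * a⁻¹⁻¹ * x = a⁻¹ * (u * (a * x * a⁻¹)) * a := by group
      _ = _ := by rw [← c1]; group
  rw [sup_eq_right.2 key, ← index_eq_one] at hT
  exact h.hn.ne' (hx.symm.trans hT)

theorem cc (u1 : PE p u) (hu : ind u = n * m) (w1 : PE q w) (h1 : w ∈ Cz u) :
    w ∈ centralizer (pCore p G : Set G) := by
  have := Fact.mk h.hp
  refine H10.pxq_elem u1.zp (isPGroup_pCore p G) le_normalizer_of_normal ?_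
    (le_normalizer_of_normal (mem_top _)) ?_ fun a ha => h.top hu h1 (cpr h.hp h.hq h.ne u1 w1) ?_
  · simpa using (w1.cop (j := 1) h.hq h.hp h.ne).symm
  · exact le_centralizer_iff.1 (zpowers_le.2 (le_cent_iff_mem_centralizer.1 le_rfl)) h1
  · exact mem_cent_iff.2 (ha.2 u (mem_zpowers u)).symm

omit [Finite G] in
theorem f4 (h1 : ind u ≠ n) (h2 : ind u ≠ n * m) : ¬ p ∣ ind u := by
  rcases h.all u with e | e | e | e
  · exact e ▸ h.hp.not_dvd_one
  · exact absurd e h1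
  · exact e ▸ h.pm
  · exact absurd e h2

theorem lemA (h1 : ∀ u : G, PE p u → ind u ≠ n) (x1 : PE q x) (hx : ind x = n) :
    x ∈ centralizer (pCore p G : Set G) := by
  have := Fact.mk h.hp
  have := Fact.mk h.hq
  by_contra hc
  have a1 : ∀ u ∈ Cz x, PE p u → ¬ p ∣ ind u := fun u hu u1 =>
    h.f4 (h1 u u1) fun e => hc (h.cc u1 e x1 (sy hu))
  obtain ⟨u, hu, u1, uz⟩ : ∃ u ∈ Cz x, PE p u ∧ u ∉ center G := by
    by_contra! e
    exact h.lemB hx fun r hr hd a ha a1 => e a ha (h.pn r hr hd ▸ a1)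
  have um : ind u = m := h.of_nd (fun e => a1 u hu u1 (h.pd.trans e)) uz
  obtain ⟨T, hT⟩ := exists_isSyl p (Cz u ⊓ Cz x)
  have t1 : ¬ p ∣ T.relIndex (Cz x) := fun e => by
    rw [← relIndex_mul_relIndex T _ _ hT.le inf_le_right, inf_relIndex_right] at e
    refine (h.hp.dvd_mul.1 e).elim hT.not_dvd_relIndex fun e => ?_
    rcases h.rel hx hu (cpr h.hq h.hp h.ne.symm x1 u1) with e' | e'
    · exact h.hp.not_dvd_one (relIndex_eq_one.2 e' ▸ e)
    · exact h.pm (e' ▸ e)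
  have tx := hT.le.trans inf_le_right
  have t2 : T ≤ centralizer (pCore p G : Set G) := fun a ha =>
    cen_core h.hp (a1 a (tx ha) (pe_of h.hp hT.isPGroup ha))
  have pv := fun b => pe_of (x := b) h.hp (isPGroup_pCore p G)
  have t3 : ∀ b ∈ pCore p G, T ≤ Cz b := fun b hb a ha => mem_cent_iff.2 (t2 ha b hb).symm
  have key : ∀ b ∈ pCore p G, b ∉ Cz x → ∀ g, T ≤ Cz g → b ∈ Cz g → ¬ n ∣ ind g :=
    fun b hb hb' g g1 g2 => cmp h.hp tx t1 (hx.trans (mul_one n).symm) h.hp.not_dvd_one g1 g2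
      (centralizer_le_normalizer _ (le_cent_iff_mem_centralizer.1 (t3 b hb))) (pv b hb)
      fun e => hb' (tx e)
  have hV : pCore p G ≤ centralizer (pCore p G : Set G) := fun b hb => cen_core h.hp (by
    by_cases e : b ∈ Cz x
    · exact a1 b e (pv b hb)
    · have := key b hb e b (t3 b hb) (me b)
      exact h.f4 (fun e => this e.symm.dvd) fun e => this (e ▸ dvd_mul_right n m))
  obtain ⟨k, hk⟩ := (isPGroup_pCore p G).exists_card_eq
  have hF := (H8.fitting_decomposition (pCore p G) (zpowers x)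
    (le_centralizer_iff_isMulCommutative.1 hV) le_normalizer_of_normal
    (Nat.Coprime.coprime_dvd_left (relIndex_dvd_card _ _) (by
      rw [hk, Nat.card_zpowers]; exact (x1.cop h.hq h.hp h.ne).symm))).1
  have hD : ⁅pCore p G, zpowers x⁆ ≤ pCore p G := commutator_le_left _ _
  have hF' : ∀ b ∈ ⁅pCore p G, zpowers x⁆, b ∈ Cz x → b = 1 := fun b hb e =>
    mem_bot.1 (hF.le ⟨hb, hD hb,
      le_centralizer_iff.1 (zpowers_le.2 (le_cent_iff_mem_centralizer.1 le_rfl)) e⟩)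
  obtain ⟨⟨b, hb⟩, b1⟩ := ne_bot_iff_exists_ne_one.1 (show ⁅pCore p G, zpowers x⁆ ≠ ⊥ from fun e =>
    hc (le_centralizer_iff.1 (commutator_eq_bot_iff_le_centralizer.1 e) (mem_zpowers x)))
  have b2 : b ∉ Cz x := fun e => b1 (Subtype.ext (hF' b hb e))
  have g1 : u * b ∉ Cz x := by rwa [mul_mem_cancel_left hu]
  have ub : u * b = b * u := (cen_core h.hp (a1 u hu u1) b (hD hb)).symm
  have gm : ind (u * b) = m := h.of_nd (key b (hD hb) b2 _ (fun a ha => mem_cent_iff.2 (by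
      rw [← mul_assoc, mem_cent_iff.1 (hT.le ha).1, mul_assoc, mem_cent_iff.1 (t3 b (hD hb) ha),
        mul_assoc])) (mem_cent_iff.2 (by rw [← mul_assoc, ub]))) fun e => g1 (center_le_centralizer _ e)
  obtain ⟨Q, hQ⟩ := H18.exists_sylow_le_of_not_dvd (H := Cz x) (p := q) (hx ▸ h.symm.pm :)
  have xQ := H18.mem_sylow_of_le_centralizer Q ((H18.exists_orderOf_eq_pow_iff h.hq).1 x1) hQ
  have q1 : Cz (u * b) ⊓ Q ≤ Cz u ⊓ Q := fun w hw => by
    have w1 : w ∈ normalizer ((⁅pCore p G, zpowers x⁆ : Subgroup G) : Set G) :=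
      le_normalizer_commutator (H := Cz x) le_normalizer_of_normal (le_normalizer_of_le_centralizer
        (le_centralizer_iff.1 (zpowers_le.2 (le_cent_iff_mem_centralizer.1 le_rfl)))) (hQ hw.2)
    have e : u⁻¹ * (w * u * w⁻¹) = b * (w * b * w⁻¹)⁻¹ := by
      calc _ = u⁻¹ * (w * (u * b)) * b⁻¹ * w⁻¹ := by group
        _ = _ := by rw [mem_cent_iff.1 hw.1]; group
    have := hF' _ (mul_mem hb (inv_mem (conj_mem_of_mem_normalizer w1 hb))) (e ▸ mul_mem (inv_mem hu)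
      (mul_mem (mul_mem (hQ hw.2) hu) (inv_mem (hQ hw.2))))
    rw [← e, inv_mul_eq_one, eq_mul_inv_iff_mul_eq] at this
    exact ⟨mem_cent_iff.2 this.symm, hw.2⟩
  have q2 : m ∣ (Cz u).relIndex Q := by
    obtain ⟨a, ha⟩ := h.symm.pow
    refine (ha ▸ (h.hq.coprime_iff_not_dvd.2 Q.not_dvd_index).pow_left a :
      m.Coprime _).dvd_of_dvd_mul_right ?_
    rw [← inf_relIndex_right, relIndex_mul_index inf_le_right]
    exact um.symm.dvd.trans (index_dvd_of_le inf_le_left)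
  have q3 : (Cz (u * b)).relIndex Q ≤ m := by
    have := relIndex_le_of_le_right (H := Cz (u * b)) (le_top : (Q : Subgroup G) ≤ ⊤)
      (H12.relIndex_pos _ _).ne'
    rwa [relIndex_top_right, ← ind, gm] at this
  refine g1 (sy ((eq_of_le_of_index_le q1 ?_).ge ⟨sy hu, xQ⟩).1)
  rw [← relIndex_mul_index (inf_le_right : Cz (u * b) ⊓ Q ≤ Q),
    ← relIndex_mul_index (inf_le_right : Cz u ⊓ Q ≤ Q), inf_relIndex_right, inf_relIndex_right]
  exact Nat.mul_le_mul_right _ (q3.trans (Nat.le_of_dvd (H12.relIndex_pos _ _) q2))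

theorem core (u1 : PE p u) (h1 : u ∈ centralizer (pCore p G : Set G))
    (h2 : u ∈ centralizer (pCore q G : Set G)) : u ∈ pCore p G := by
  have := Fact.mk h.hp
  have := h.solv
  refine H2.le_pCore_of_le_fitting u1.zp (zpowers_le.2 (H2.centralizer_fitting_le G
    (le_cent_iff_mem_centralizer.1 ?_))) (mem_zpowers u)
  rw [H2.fitting_eq_iSup_pCore]
  refine iSup_le fun r => ?_
  by_cases rp : r.1 = p
  · exact rp ▸ le_cent_iff_mem_centralizer.2 h1
  by_cases rq : r.1 = q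
  · exact rq ▸ le_cent_iff_mem_centralizer.2 h2
  exact fun a ha => center_le_centralizer _ (h.cen' r.2 rp rq (pe_of r.2 (isPGroup_pCore _ G) ha))

theorem lemD (h1 : ∀ u : G, PE p u → ind u ≠ n) (h2 : ∀ w : G, PE q w → ind w ≠ m) (w1 : PE q w) :
    w ∈ centralizer (pCore p G : Set G) := by
  have := Fact.mk h.hp
  by_contra hc
  have hw : ind w = n * m := by
    rcases h.all w with e | e | e | e
    · exact absurd (center_le_centralizer _ (ind_eq_one_iff.1 e)) hc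
    · exact absurd (h.lemA h1 w1 e) hc
    · exact absurd e (h2 w w1)
    · exact e
  obtain ⟨T, hT⟩ := exists_isSyl p (Cz w)
  have t1 : T ≤ pCore p G := fun u hu => by
    have u1 := pe_of h.hp hT.isPGroup hu
    exact h.core u1 (cen_core h.hp (h.f4 (h1 u u1) fun e => hc (h.cc u1 e w1 (sy (hT.le hu)))))
      (h.symm.cc w1 (hw.trans (mul_comm n m)) u1 (hT.le hu))
  obtain ⟨b, hb, b1⟩ := SetLike.exists_of_lt (lt_inf_normalizer (isPGroup_pCore p G)
    (lt_of_le_of_ne t1 fun e => hc (le_cent_iff_mem_centralizer.1 (e ▸ hT.le))))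
  obtain ⟨x, x1, hx⟩ := h.prim' h1
  have := le_cent_iff_mem_centralizer.2 (h.lemA h1 x1 hx)
  exact cmp h.hp hT.le hT.not_dvd_relIndex hw h.pm (t1.trans this) (this hb.1) hb.2
    (pe_of h.hp (isPGroup_pCore p G) hb.1) b1 hx.symm.dvd

theorem nil : Group.IsNilpotent G := by
  have := Fact.mk h.hp
  have := Fact.mk h.hq
  by_cases h1 : ∀ u : G, PE p u → ind u ≠ n <;> by_cases h2 : ∀ w : G, PE q w → ind w ≠ m
  · obtain ⟨y, y1, hy⟩ := h.symm.prim' h2
    have := h.core y1 (cen_core h.hp (hy ▸ h.pm)) (h.symm.lemD h2 h1 y1)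
    refine (nd (K := ⊤) (L := Cz y) h.hq (fun a _ ha =>
      mem_cent_iff.2 (h.lemD h1 h2 ha y this).symm) ?_).elim
    rw [relIndex_top_right]
    exact h.symm.pd.trans hy.symm.dvd
  · push Not at h2
    obtain ⟨y, y1, hy⟩ := h2
    exact (h.case2 h1 y1 hy).elim
  · push Not at h1
    obtain ⟨y, y1, hy⟩ := h1
    exact (h.symm.case2 h2 y1 hy).elim
  · push Not at h1 h2
    obtain ⟨x, x1, hx⟩ := h1
    obtain ⟨y, y1, hy⟩ := h2
    refine H2.fitting_eq_top_iff.1 (top_le_iff.1 (mem_of_pe fun r hr a _ ha => ?_))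
    by_cases rp : r = p
    · exact H2.le_fitting_of_isPGroup (isPGroup_pCore p G) (h.symm.npc y1 hy (rp ▸ ha))
    by_cases rq : r = q
    · exact H2.le_fitting_of_isPGroup (isPGroup_pCore q G) (h.npc x1 hx (rq ▸ ha))
    exact H2.le_fitting_of_isMulCommutative _ (h.cen' hr rp rq ha)

end PP

theorem CS.main {n m : ℕ} (h : CS G n m) : Group.IsNilpotent G ∧ IsPrimePow n ∧ IsPrimePow m := by
  obtain ⟨q, hq⟩ := h.one
  obtain ⟨p, hp⟩ := h.symm.one
  obtain ⟨r, hr, hd⟩ := Nat.exists_prime_and_dvd h.hn.ne'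
  obtain ⟨s, hs, hd'⟩ := Nat.exists_prime_and_dvd h.hm.ne'
  have k : PP G n m p q := ⟨h, hp r hr hd ▸ hr, hq s hs hd' ▸ hs, hp, hq⟩
  exact ⟨k.nil, isPrimePow_iff_unique_prime_dvd.2 ⟨p, ⟨k.hp, k.pd⟩, fun r e => hp r e.1 e.2⟩,
    isPrimePow_iff_unique_prime_dvd.2 ⟨q, ⟨k.hq, k.symm.pd⟩, fun r e => hq r e.1 e.2⟩⟩

end H4.FS
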