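import Cfsg.Agent.H36.NGSpec
import Cfsg.Agent.H29.Codeg

/-! Tower NG: the job `JobF2`. -/

set_option autoImplicit false
set_option linter.unusedSectionVars false

namespace H4.NGF2

open Cfsg H87 H39 H2.PR H28 H36.NG
open scoped ComplexConjugate

universe u

theorem van {G : Type*} [Group G] [Finite G] (χ : IrrCharacter G) {s m : ℕ} (hs : s.Prime)
    (h : Nat.card G = m * dg χ) (hm : ¬ s ∣ m) {x : G} (hx : s ∣ orderOf x) :
    (χ : G → ℂ) x = 0 :=
  H29.eq_zero_of_pow_factorization_dvd hs χ.2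
    ((Nat.Coprime.pow_left _ (hs.coprime_iff_not_dvd.2 hm)).dvd_of_dvd_mul_left
      (h ▸ Nat.ordProj_dvd _ _)) hx

variable {G : Type u} [Group G] [Fintype G] {p q n h : ℕ} [Fact p.Prime] {P : Sylow p G}
  {X Y : Finset (IrrCharacter G)} {δ : IrrCharacter G → ℤ} {ε d : ℤ} {x y : G}
  {lam : Nor (P : Subgroup G) →* ℂˣ} {ω : ℂ} {a θ χ χ' : IrrCharacter G}

/-- The configuration. -/
structure Hy (p q n h : ℕ) [Fact p.Prime] (P : Sylow p G) (X Y : Finset (IrrCharacter G))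
    (δ : IrrCharacter G → ℤ) (ε d : ℤ) (x y : G) (lam : Nor (P : Subgroup G) →* ℂˣ) (ω : ℂ)
    (a : IrrCharacter G) : Prop where
  all : All p q (q + 1) n q (q + 1) h P X Y δ ε d x y lam ω
  kf : KF p q (q + 1) n (q + 1) X Y δ
  a1 : A1 p q X δ = {a}
  a2 : A2 p n X δ = ∅
  b2 : B2 p (q + 1) X δ = ∅
  hd : d = -(q + 2)

namespace Hy

variable (H : Hy p q n h P X Y δ ε d x y lam ω a)
include H

theorem hp : p = q * (q + 1) + 1 := H.all.cf.UK

theorem hn : n + 2 = p := by have := H.all.cf.hn; omega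

theorem np : n * p + 1 = q ^ 2 * (q + 1) ^ 2 := by
  have h1 := H.hp
  have h2 := H.hn
  have h3 : n + 1 = q * (q + 1) := by omega
  calc n * p + 1 = (n + 1) ^ 2 := by rw [← h2]; ring
    _ = _ := by rw [h3]; ring

theorem card : Nat.card G = p * q ^ 3 * (q + 1) ^ 2 := by
  rw [H.all.m1.card, H.np]; ring

theorem ya (hθ : θ ∈ Y) : ε = 1 ∧ dg θ = (q + 1) ^ 2 := by
  have h1 := H.all.ty.hY θ hθ
  have h2 : (p : ℤ) = q * (q + 1) + 1 := by exact_mod_cast H.hp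
  rw [H.hd, h2] at h1
  push_cast at h1
  have h3 : (0 : ℤ) ≤ q := Int.natCast_nonneg q
  have h4 : (0 : ℤ) ≤ dg θ := Int.natCast_nonneg _
  rcases H.all.cf.br.sε with rfl | rfl
  · refine ⟨rfl, ?_⟩
    have h5 : ((q : ℤ) + 1) * dg θ = (q + 1) * (q + 1) ^ 2 := by linear_combination -h1
    exact_mod_cast mul_left_cancel₀ (by omega) h5
  · exfalso
    have h5 : ((q : ℤ) + 1) * dg θ + (q + 1) ^ 3 = 0 := by linear_combination h1
    have h6 : (0 : ℤ) ≤ ((q : ℤ) + 1) * dg θ := by positivity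
    have h7 : (0 : ℤ) < ((q : ℤ) + 1) ^ 3 := by positivity
    omega

theorem ma : a ∈ X ∧ δ a = 1 ∧ dg a = q ^ 3 := by
  have h1 : a ∈ A1 p q X δ := H.a1 ▸ Finset.mem_singleton_self a
  obtain ⟨h2, h3, h4⟩ := Finset.mem_filter.1 h1
  refine ⟨h2, h3, ?_⟩
  rw [H.hp] at h4
  have : dg a + (q * (q + 1) + 1) = q ^ 3 + (q * (q + 1) + 1) := by rw [h4]; ring
  omega

theorem sum_X {M : Type*} [AddCommMonoid M] (f : IrrCharacter G → M) :
    ∑ χ ∈ X, f χ = f (one G) + f a + ∑ χ ∈ B1 p X δ, f χ := by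
  rw [H.all.ty.sum_X, H.a1, H.a2, H.b2]; simp

theorem cardB : (B1 p X δ).card + 2 = q := by
  have := H.all.ty.nm.cnt
  rw [H.a1, H.a2, H.b2] at this
  simp only [Finset.card_singleton, Finset.card_empty] at this
  omega

theorem cnt {Ψ : G → ℂ} (hΨ : IsCharacter G Ψ) (h1 : ∀ g, p ∣ orderOf g → Ψ g = 1)
    (h2 : mlt Ψ (one G) ≤ 1) (hθ : θ ∈ Y) : mlt Ψ θ ≤ mlt Ψ a := by
  have h3 := H.all.m1.count Ψ hΨ 1 (by simpa using h1) θ hθ
  rw [H.sum_X, H.all.cf.br.δ_one, H.ma.2.1, (H.ya hθ).1] at h3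
  have h4 : ∑ χ ∈ B1 p X δ, δ χ * mlt Ψ χ ≤ 0 := Finset.sum_nonpos fun χ hχ => by
    rw [(Finset.mem_filter.1 hχ).2.1]; omega
  omega

theorem valB (hχ : χ ∈ B1 p X δ) {g : G} (hg : p ∣ orderOf g) : (χ : G → ℂ) g = -1 := by
  obtain ⟨h1, h2, -⟩ := Finset.mem_filter.1 hχ
  rw [H.all.cf.br.valX χ h1 g hg, h2]; simp

theorem oneB (hχ : χ ∈ B1 p X δ) : (χ : G → ℂ) 1 = q * (q + 1) := by
  obtain ⟨-, -, h3⟩ := Finset.mem_filter.1 hχ
  rw [H.hp] at h3
  rw [← coe_dg, show dg χ = q * (q + 1) by omega]; simp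

theorem vanB (hχ : χ ∈ B1 p X δ) {b : ℕ} (hb : ¬ q ∣ b) : (χ : G → ℂ) (x ^ b) = 0 := by
  have h1 := H.all.m2.sum χ χ.2.isCharacter (-1) fun g hg => by rw [H.valB hχ hg]; simp
  obtain ⟨-, -, h3⟩ := Finset.mem_filter.1 hχ
  have h4 : (charDegree (χ : G → ℂ) : ℤ) + 1 = p := by exact_mod_cast h3
  have h5 : (p : ℤ) ≠ 0 := by exact_mod_cast (Fact.out : p.Prime).ne_zero
  have h6 : ∑ i ∈ Finset.range q, mm (LL lam i) χ = 0 := by
    exact_mod_cast (mul_eq_zero.1 (h1.trans (by linear_combination h4))).resolve_left h5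
  rw [H.all.m2.val χ χ.2.isCharacter b hb]
  exact Finset.sum_eq_zero fun i hi => by rw [Finset.sum_eq_zero_iff.1 h6 i hi]; simp

theorem exists_i (hθ : θ ∈ Y) : ∃ i < q, 1 ≤ mlt (LL lam i) θ := by
  by_contra hc
  push Not at hc
  have h1 := H.all.m2.sumY θ hθ
  rw [Finset.sum_eq_zero fun i hi => Nat.lt_one_iff.1 (hc i (Finset.mem_range.1 hi)),
    (H.ya hθ).1, (H.ya hθ).2, H.hp] at h1
  push_cast at h1
  have h3 : (0 : ℤ) < ((q : ℤ) + 1) * (q * (q + 1) + 1) := by positivity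
  nlinarith

theorem orth (hχ : χ ∈ B1 p X δ) (hχ' : χ' ∈ B1 p X δ) (hθ : θ ∈ Y) :
    classInner ((χ : G → ℂ) * fun g => conj ((χ' : G → ℂ) g)) θ = 0 := by
  classical
  set Ψ : G → ℂ := (χ : G → ℂ) * fun g => conj ((χ' : G → ℂ) g) with hΨ
  have c : IsCharacter G Ψ := χ.2.isCharacter.mul χ'.2.isCharacter.conj
  have v1 : ∀ g, p ∣ orderOf g → Ψ g = 1 := fun g hg => by
    simp [hΨ, H.valB hχ hg, H.valB hχ' hg]
  have dΨ : charDegree Ψ = (q * (q + 1)) ^ 2 := charDegree_eq (by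
    simp only [hΨ, Pi.mul_apply, H.oneB hχ, H.oneB hχ', map_mul, map_add, map_natCast, map_one]
    push_cast; ring)
  have h1 := H.all.m2.sum Ψ c 1 (by simpa using v1)
  have h5 : (p : ℤ) ≠ 0 := by exact_mod_cast (Fact.out : p.Prime).ne_zero
  have h2 : ∑ i ∈ Finset.range q, mm (LL lam i) Ψ = q * (q + 1) := by
    have h3 : (p : ℤ) = q * (q + 1) + 1 := by exact_mod_cast H.hp
    have h4 : (p : ℤ) * (∑ i ∈ Finset.range q, mm (LL lam i) Ψ : ℕ) = p * (q * (q + 1) : ℕ) := by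
      rw [h1, dΨ, h3]; push_cast; ring
    exact_mod_cast mul_left_cancel₀ h5 h4
  obtain ⟨i, hi, h3⟩ := H.exists_i hθ
  have h4 := H.all.m2.flat Ψ c (fun b hb => by simp [hΨ, H.vanB hχ hb]) i hi
  rw [h2] at h4
  replace h4 := Nat.eq_of_mul_eq_mul_left (by omega) h4
  have h6 := H.cnt (H.all.m1.chL i) (H.all.m1.vL i) (by
    rw [H.all.m1.one i hi]; split_ifs <;> omega) hθ
  have h7 := H.cnt c v1 (by
    have := coe_mlt c (one G)
    rw [hΨ, ← classInner_eq_mul_one, classInner_irr] at this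
    split_ifs at this
    · exact (Nat.cast_eq_one.1 this).le
    · rw [Nat.cast_eq_zero.1 this]; omega) hθ
  have h8 : ∑ ψ ∈ insert a Y, mlt Ψ ψ * mlt (LL lam i) ψ ≤ q + 1 := by
    rw [← h4, H.all.m2.add Ψ c i]
    exact Finset.sum_le_sum_of_subset (Finset.subset_univ _)
  rw [Finset.sum_insert fun k => H.all.cf.br.ne_XY H.ma.1 k rfl, Finset.sum_congr rfl fun ψ hψ => by
    rw [H.all.m1.uni Ψ c 1 (by simpa using v1) ψ hψ θ hθ,
      H.all.m1.uni _ (H.all.m1.chL i) 1 (by simpa using H.all.m1.vL i) ψ hψ θ hθ],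
    Finset.sum_const, H.all.cf.br.cardY, smul_eq_mul] at h8
  rw [← coe_mlt c, Nat.cast_eq_zero]
  by_contra h9
  have h10 : 1 ≤ mlt Ψ θ * mlt (LL lam i) θ := Nat.mul_pos (by omega) h3
  have h11 : 1 ≤ mlt Ψ a * mlt (LL lam i) a := Nat.mul_pos (by omega) (by omega)
  nlinarith

theorem reg (hq : 3 < q) (hθ : θ ∈ Y) {u : G} (h1 : u ≠ 1) (h2 : ¬ p ∣ orderOf u) :
    (θ : G → ℂ) u = 0 ∨ ∃ z : ℤ, -1 ≤ z ∧ (θ : G → ℂ) u = z ∧
      ∑ χ ∈ B1 p X δ, (χ : G → ℂ) u = 1 - z := by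
  obtain ⟨k1, k2, z, e1, e2, e3, e4⟩ := H.kf u h1 h2 θ hθ
  obtain ⟨s, hs, hsu⟩ := Nat.exists_prime_and_dvd (orderOf_eq_one_iff.not.2 h1)
  have hsp : ¬ s ∣ p := fun k =>
    h2 ((Nat.prime_dvd_prime_iff_eq hs (Fact.out : p.Prime)).1 k ▸ hsu)
  by_cases hsq : s ∣ q
  · have ha : (a : G → ℂ) u = 0 := van a (m := p * (q + 1) ^ 2) hs (by rw [H.card, H.ma.2.2]; ring)
      (fun k => (hs.dvd_mul.1 k).elim hsp fun k =>
        hs.one_lt.ne' (Nat.dvd_one.1 ((Nat.dvd_add_right hsq).1 (hs.dvd_of_dvd_pow k)))) hsu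
    rw [H.a1, Finset.sum_singleton, ha] at e3 e4
    refine .inr ⟨z, ?_, e1, by rw [e4, add_zero]⟩
    have e5 : ((n * p + 1 : ℕ) : ℂ) = (q ^ 2 * (q + 1) ^ 2 : ℕ) := by rw [H.np]
    have e6 : (p : ℂ) = q * (q + 1) + 1 := by exact_mod_cast H.hp
    have e7 : (p : ℤ) = q * (q + 1) + 1 := by exact_mod_cast H.hp
    set c := Nat.card (Subgroup.centralizer ({u} : Set G))
    have e8 : ((q : ℤ) + 1) * (k1 * c) = (q + 1) * (q ^ 2 * (q + 1) - q ^ 2 * z) := by
      have : ((q : ℂ) + 1) * (k1 * c) = (q + 1) * (q ^ 2 * (q + 1) - q ^ 2 * z) := by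
        push_cast at e3 e5
        linear_combination e3 + e5 - (q + 1) * z * e6
      exact_mod_cast this
    replace e8 := mul_left_cancel₀ (by omega) e8
    have e9 : (k2 : ℤ) * c = q ^ 2 * ((q + 1) + (q - 1) * z) := by
      push_cast at e2
      linear_combination e2 + e8 + q * z * e7
    have e10 : (0 : ℤ) ≤ (q + 1) + (q - 1) * z :=
      nonneg_of_mul_nonneg_right (a := (q : ℤ) ^ 2) (e9 ▸ by positivity) (by positivity)
    have e11 : (3 : ℤ) < q := by exact_mod_cast hq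
    nlinarith
  · exact .inl (van θ (m := p * q ^ 3) hs (by rw [H.card, (H.ya hθ).2])
      (fun k => (hs.dvd_mul.1 k).elim hsp fun k => hsq (hs.dvd_of_dvd_pow k)) hsu)

theorem false (hq : 3 < q) : False := by
  classical
  have B := H.all.cf.br
  obtain ⟨θ, hθ⟩ := B.Y_nonempty
  set β : G → ℂ := ∑ χ ∈ B1 p X δ, (χ : G → ℂ) with hβ
  set b := (B1 p X δ).card with hb
  have I1 : classInner (θ : G → ℂ) (β * fun g => conj (β g)) = 0 := by
    rw [classInner_eq_zero_comm, show (β * fun g => conj (β g)) = ∑ χ ∈ B1 p X δ, ∑ χ' ∈ B1 p X δ,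
      ((χ : G → ℂ) * fun g => conj ((χ' : G → ℂ) g)) by
        funext g
        simp only [hβ, Pi.mul_apply, Finset.sum_apply, map_sum, Finset.sum_mul_sum],
      classInner_sum_left]
    refine Finset.sum_eq_zero fun χ hχ => ?_
    rw [classInner_sum_left]
    exact Finset.sum_eq_zero fun χ' hχ' => H.orth hχ hχ' hθ
  have I2 := θ.2.classInner_self
  have I3 := B.inner_sg_Y hθ
  have I4 := B.inner_mul_conj_sg hθ
  rw [(H.ya hθ).1] at I3
  set f : G → ℂ := fun g => (θ : G → ℂ) g * conj ((β * fun g => conj (β g)) g) +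
    4 * ((θ : G → ℂ) g * conj ((θ : G → ℂ) g)) - b ^ 2 * ((θ : G → ℂ) g * conj (sg p g)) -
    4 * (((θ : G → ℂ) * fun g => conj ((θ : G → ℂ) g)) g * conj (sg p g)) with hf
  have S : ∑ g, f g = ((q ^ 3 * (q + 1) ^ 2 * (b ^ 2 + 4 * q) : ℕ) : ℂ) := by
    simp only [hf, Finset.sum_add_distrib, Finset.sum_sub_distrib, ← Finset.mul_sum,
      ← card_mul_classInner]
    rw [I1, I2, H.card]
    have e6 : (p : ℂ) = q * (q + 1) + 1 := by exact_mod_cast H.hp
    push_cast at I3 ⊢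
    linear_combination -(b ^ 2 * q ^ 3 * (q + 1) ^ 2) * I3 - 4 * (q ^ 3 * (q + 1) ^ 2) * I4
  have f1 : f 1 = (((q + 1) ^ 2 * (b * (q * (q + 1))) ^ 2 + 4 * (q + 1) ^ 4 : ℕ) : ℂ) := by
    have β1 : β 1 = b * (q * (q + 1)) := by
      rw [hβ, Finset.sum_apply, Finset.sum_congr rfl fun χ hχ => H.oneB hχ]; simp [hb]
    simp only [hf, sg_of_not B.not_dvd_one, Pi.mul_apply, β1, ← coe_dg, (H.ya hθ).2, map_mul,
      map_natCast, map_add, map_one, map_zero]
    push_cast; ring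
  have pos : ∀ g, 0 ≤ (f g).re := fun g => by
    by_cases h1 : g = 1
    · rw [h1, f1, Complex.natCast_re]; positivity
    by_cases h2 : p ∣ orderOf g
    · have βg : β g = -b := by
        rw [hβ, Finset.sum_apply, Finset.sum_congr rfl fun χ hχ => H.valB hχ h2]; simp [hb]
      have : f g = 0 := by
        simp only [hf, sg_of h2, Pi.mul_apply, βg, map_mul, map_neg, map_natCast, map_one]
        ring
      rw [this]; rfl
    rcases H.reg hq hθ h1 h2 with h3 | ⟨z, h3, h4, h5⟩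
    · simp [hf, h3]
    · have βg : β g = 1 - z := by rw [hβ, Finset.sum_apply, h5]
      have : f g = ((z * (1 - z) ^ 2 + 4 * z ^ 2 : ℤ) : ℂ) := by
        simp only [hf, sg_of_not h2, Pi.mul_apply, βg, h4, map_mul, map_sub, map_intCast, map_one,
          map_zero]
        push_cast; ring
      rw [this, Complex.intCast_re]
      have : (0 : ℤ) ≤ z * (1 - z) ^ 2 + 4 * z ^ 2 := by
        rcases h3.eq_or_lt with rfl | h3
        · norm_num
        · have : 0 ≤ z := by omega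
          positivity
      exact_mod_cast this
  have le := Finset.single_le_sum (s := Finset.univ) (fun g _ => pos g) (Finset.mem_univ 1)
  rw [← Complex.re_sum, S, f1, Complex.natCast_re, Complex.natCast_re, Nat.cast_le] at le
  have h1 := H.cardB
  have h2 : 4 ≤ b ^ 2 := by nlinarith
  have h3 : (q + 1) ^ 2 * q ^ 2 * (b ^ 2 * (q + 1) ^ 2) ≤
      (q + 1) ^ 2 * q ^ 2 * (q * (b ^ 2 + 4 * q)) := by
    calc _ = (q + 1) ^ 2 * (b * (q * (q + 1))) ^ 2 := by ring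
      _ ≤ _ := (Nat.le_add_right _ _).trans le
      _ = _ := by ring
  have h4 := Nat.le_of_mul_le_mul_left h3 (by positivity)
  have h5 := Nat.mul_le_mul_right (q ^ 2 + q + 1) h2
  nlinarith

end Hy

theorem jobF2 : JobF2.{u} := by
  intro G _ _ p U K n e t h _ P X Y δ ε d x y lam ω A kf a2 b2 hd hK ht he a1
  subst ht he hK
  obtain ⟨a, ha⟩ := Finset.card_eq_one.1 a1
  by_contra hq
  exact Hy.false ⟨A, kf, ha, Finset.card_eq_zero.1 a2, Finset.card_eq_zero.1 b2, by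
    rw [hd]; push_cast; ring⟩ (not_le.1 hq)

end H4.NGF2
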