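import Cfsg.Agent.H68.OuSpec

/-! ORE4: the job G (pole placement, linear algebra). -/

set_option autoImplicit false

namespace H4.OuG

open Polynomial Module Submodule H68.Ou

universe u

variable {F V : Type u} [Field F] [AddCommGroup V] [Module F V] [FiniteDimensional F V]
  {H L : Submodule F V} {v : V} {f g : End F V}

theorem out (h : finrank F H < finrank F L) : ∃ v ∈ L, v ∉ H := by
  by_contra! k
  exact absurd (Submodule.finrank_mono k) h.not_ge

theorem sup_of_dim (le : H ≤ L) (d : finrank F L = finrank F H + 1) (h1 : v ∈ L) (h2 : v ∉ H) :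
    H ⊔ span F {v} = L :=
  eq_of_le_of_finrank_eq (sup_le le ((span_singleton_le_iff_mem _ _).2 h1))
    (by rw [finrank_sup_span_singleton h2, d])

theorem hy_of_dim (le : H ≤ L) (d : finrank F L = finrank F H + 1) (h1 : v ∈ L) (h2 : v ∉ H) :
    ∀ u ∈ L, ∃ t : F, u - t • v ∈ H := fun u hu => by
  rw [← sup_of_dim le d h1 h2] at hu
  obtain ⟨a, ha, _, hb, rfl⟩ := mem_sup.1 hu
  obtain ⟨t, rfl⟩ := mem_span_singleton.1 hb
  exact ⟨t, by rwa [add_sub_cancel_right]⟩

theorem dim_of_hy (le : H ≤ L) (h1 : v ∈ L) (h2 : v ∉ H) (h : ∀ u ∈ L, ∃ t : F, u - t • v ∈ H) :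
    finrank F L = finrank F H + 1 := by
  rw [← finrank_sup_span_singleton h2]
  refine le_antisymm (Submodule.finrank_mono fun u hu => ?_)
    (Submodule.finrank_mono (sup_le le ((span_singleton_le_iff_mem _ _).2 h1)))
  obtain ⟨t, ht⟩ := h u hu
  rw [← sub_add_cancel u (t • v)]
  exact add_mem_sup ht (smul_mem _ _ (mem_span_singleton_self v))

theorem dim_inf (le : H ≤ L) (d : finrank F L = finrank F H + 1) (hf : ∀ u ∈ H, f u ∈ L)
    (h1 : v ∈ H) (h2 : f v ∉ H) : finrank F H = finrank F ↥(H ⊓ H.comap f) + 1 :=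
  dim_of_hy inf_le_left h1 (fun k => h2 k.2) fun u hu => by
    obtain ⟨t, ht⟩ := hy_of_dim le d (hf v h1) h2 _ (hf u hu)
    exact ⟨t, sub_mem hu (smul_mem _ _ h1), by simpa using ht⟩

omit [FiniteDimensional F V] in
theorem ch_le {n : ℕ} : ch f v n ≤ L ↔ ∀ i < n, (f ^ i) v ∈ L :=
  ⟨fun h _ hi => h (pow_mem_ch f v hi), fun h => span_le.2 (by rintro _ ⟨i, rfl⟩; exact h i i.2)⟩

omit [FiniteDimensional F V] in
theorem ch_succ (n : ℕ) : ch f v (n + 1) = ch f v n ⊔ span F {(f ^ n) v} := by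
  refine le_antisymm (ch_le.2 fun i hi => ?_) (sup_le (ch_le.2 fun i hi => pow_mem_ch f v (by omega))
    ((span_singleton_le_iff_mem _ _).2 (pow_mem_ch f v (by omega))))
  rcases Nat.lt_succ_iff_lt_or_eq.1 hi with h | rfl
  exacts [mem_sup_left (pow_mem_ch f v h), mem_sup_right (mem_span_singleton_self _)]

theorem chain (f : End F V) : ∀ (n : ℕ) (H L : Submodule F V), H ≤ L → finrank F H = n →
    finrank F L = n + 1 → (∀ u ∈ H, f u ∈ L) → (∀ Y ≤ H, (∀ u ∈ Y, f u ∈ Y) → Y = ⊥) →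
    ∃ w, L = ch f w (n + 1) ∧ H = ch f w n := by
  intro n
  induction n with
  | zero =>
    intro H L le dH dL _ _
    obtain ⟨w, h1, h2⟩ := out (H := H) (L := L) (by omega)
    have e : H = ch f w 0 := by rw [Submodule.finrank_eq_zero.1 dH, ch]; simp
    exact ⟨w, by rw [ch_succ, ← e, pow_zero, End.one_apply, sup_of_dim le (by omega) h1 h2], e⟩
  | succ n ih =>
    intro H L le dH dL hf hY
    have ne : ¬ ∀ u ∈ H, f u ∈ H := fun k => by
      rw [hY H le_rfl k, finrank_bot] at dH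
      omega
    obtain ⟨y, h1, h2⟩ : ∃ y ∈ H, f y ∉ H := by simpa using ne
    have := dim_inf le (by omega) hf h1 h2
    obtain ⟨w, e, -⟩ := ih (H ⊓ H.comap f) H inf_le_left (by omega) dH (fun u hu => hu.2)
      fun Y k => hY Y (k.trans inf_le_left)
    have e1 : ∀ i, f ((f ^ i) w) = (f ^ (i + 1)) w := fun i => by rw [pow_succ', End.mul_apply]
    refine ⟨w, ?_, e⟩
    rw [ch_succ, ← e, sup_of_dim le (by omega) (e1 n ▸ hf _ (e ▸ pow_mem_ch f w (by omega)))]
    intro k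
    refine ne (e.le.trans (ch_le (L := H.comap f) |>.2 fun i hi => ?_))
    rw [mem_comap, e1]
    rcases Nat.lt_succ_iff_lt_or_eq.1 hi with h | rfl
    exacts [e ▸ pow_mem_ch f w (by omega), k]

theorem beta (hg : Function.Injective g) : ∀ (n : ℕ) (H L : Submodule F V), H ≤ L →
    finrank F H = n → finrank F L = n + 1 → (∀ u ∈ H, g u ∈ L) → ∃ β : End F V,
      (∀ u ∈ H, β u ∈ L) ∧ (∀ Y ≤ H, (∀ u ∈ Y, β u ∈ Y) → Y = ⊥) ∧
        ∀ Y ≤ H, (∀ u ∈ Y, ∃ u' ∈ Y, β u = g u') → Y = ⊥ := by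
  intro n
  induction n with
  | zero =>
    intro H L _ dH _ _
    rw [Submodule.finrank_eq_zero.1 dH]
    exact ⟨0, by simp, fun Y k _ => le_bot_iff.1 k, fun Y k _ => le_bot_iff.1 k⟩
  | succ n ih =>
    intro H L le dH dL hL
    have key : ∀ (H' : Submodule F V) (y w : V) (β' : End F V), H' ≤ H → y ∈ H → y ∉ H' →
        finrank F H' = n → w ∈ L → w ∉ H → (∀ u ∈ H', β' u ∈ H) →
        (∀ Y ≤ H', (∀ u ∈ Y, β' u ∈ Y) → Y = ⊥) → ∃ β : End F V, (∀ u ∈ H', β u = β' u) ∧ β y = w ∧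
          (∀ u ∈ H, β u ∈ L) ∧ (∀ u ∈ H, β u ∈ H → u ∈ H') ∧
          ∀ Y ≤ H, (∀ u ∈ Y, β u ∈ Y) → Y = ⊥ := fun H' y w β' le' y1 y2 d w1 w2 b1 b2 => by
      obtain ⟨β, e1, e2⟩ := LinearMap.exists_extend_of_notMem (β'.domRestrict H') y2 w
      have e3 : ∀ u ∈ H', β u = β' u := fun u hu => LinearMap.congr_fun e1 ⟨u, hu⟩
      have e4 : ∀ u ∈ H, ∃ t : F, u - t • y ∈ H' ∧ β u - t • w ∈ H := fun u hu => by
        obtain ⟨t, ht⟩ := hy_of_dim le' (by omega) y1 y2 u hu
        exact ⟨t, ht, by rw [← e2, ← map_smul, ← map_sub, e3 _ ht]; exact b1 _ ht⟩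
      have e5 : ∀ u ∈ H, β u ∈ H → u ∈ H' := fun u hu k => by
        obtain ⟨t, h1, h2⟩ := e4 u hu
        have := sub_mem k h2
        rw [sub_sub_cancel] at this
        by_cases ht : t = 0
        · simpa [ht] using h1
        · exact absurd ((smul_mem_iff _ ht).1 this) w2
      refine ⟨β, e3, e2, fun u hu => ?_, e5, fun Y k hY => ?_⟩
      · obtain ⟨t, -, h2⟩ := e4 u hu
        simpa using add_mem (le h2) (smul_mem _ t w1)
      · have k' : Y ≤ H' := fun u hu => e5 u (k hu) (k (hY u hu))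
        exact b2 Y k' fun u hu => e3 u (k' hu) ▸ hY u hu
    by_cases hc : ∀ u ∈ H, g u ∈ H
    · obtain ⟨y, y1, y2⟩ := out (H := (⊥ : Submodule F V)) (L := H) (by rw [finrank_bot]; omega)
      obtain ⟨φ, p1, -⟩ := exists_le_ker_of_notMem y2
      have y3 : y ∉ H ⊓ LinearMap.ker φ := fun k => p1 k.2
      have d := dim_of_hy inf_le_left y1 y3 fun u hu =>
        ⟨φ u / φ y, sub_mem hu (smul_mem _ _ y1), by simp [p1]⟩
      obtain ⟨w, w1, w2⟩ := out (H := H) (L := L) (by omega)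
      obtain ⟨β', b1, b2, b3⟩ := ih (H ⊓ LinearMap.ker φ) H inf_le_left (by omega) dH
        fun u hu => hc u hu.1
      obtain ⟨β, c1, -, c3, c4, c5⟩ := key _ y w β' inf_le_left y1 y3 (by omega) w1 w2 b1 b2
      refine ⟨β, c3, c5, fun Y k hY => ?_⟩
      have k' : Y ≤ H ⊓ LinearMap.ker φ := fun u hu => c4 u (k hu) (by
        obtain ⟨u', h1, h2⟩ := hY u hu
        exact h2 ▸ hc u' (k h1))
      exact b3 Y k' fun u hu => c1 u (k' hu) ▸ hY u hu
    · obtain ⟨y, y1, y2⟩ : ∃ y ∈ H, g y ∉ H := by simpa using hc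
      have d := dim_inf le (by omega) hL y1 y2
      have y3 : y ∉ H ⊓ H.comap g := fun k => y2 k.2
      obtain ⟨β', b1, b2, b3⟩ := ih (H ⊓ H.comap g) H inf_le_left (by omega) dH fun u hu => hu.2
      obtain ⟨w, w1, w2⟩ := out (H := (H ⊓ H.comap g).map (g - β')) (L := H)
        ((Submodule.finrank_map_le _ _).trans_lt (by omega))
      obtain ⟨β, c1, c2, c3, c4, c5⟩ := key _ y (g y + w) β' inf_le_left y1 y3 (by omega)
        (add_mem (hL y y1) (le w1)) (fun k => y2 ((add_mem_cancel_right w1).1 k)) b1 b2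
      refine ⟨β, c3, c5, fun Y k hY => ?_⟩
      have z : Y ⊓ (H ⊓ H.comap g) = ⊥ := b3 _ inf_le_right fun u hu => by
        obtain ⟨u', h1, h2⟩ := hY u hu.1
        rw [c1 u hu.2] at h2
        exact ⟨u', ⟨h1, k h1, show g u' ∈ H from h2 ▸ b1 u hu.2⟩, h2⟩
      refine eq_bot_iff.2 fun u hu => ?_
      obtain ⟨u', h1, h2⟩ := hY u hu
      obtain ⟨t, ht⟩ := hy_of_dim inf_le_left d y1 y3 u (k hu)
      have e1 : β u = β' (u - t • y) + t • (g y + w) := by
        rw [← c1 _ ht, ← c2, map_sub, map_smul, sub_add_cancel]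
      have e2 : u' - u ∈ Y ⊓ (H ⊓ H.comap g) := ⟨sub_mem h1 hu, sub_mem (k h1) (k hu), by
        have : g (u' - u) = β' (u - t • y) + t • w - g (u - t • y) := by
          rw [map_sub g, ← h2, e1, map_sub g, map_smul g]; module
        change g (u' - u) ∈ H
        rw [this]
        exact sub_mem (add_mem (b1 _ ht) (smul_mem _ _ w1)) ht.2⟩
      rw [z, mem_bot, sub_eq_zero] at e2
      by_cases h0 : t = 0
      · exact z.le ⟨hu, by simpa [h0] using ht⟩
      · refine absurd ((smul_mem_iff _ h0).1 (mem_map.2 ⟨_, ht, ?_⟩)) w2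
        rw [e2, e1] at h2
        rw [LinearMap.sub_apply, map_sub g, ← h2, map_smul g]; module

theorem jobG : JobG.{u} := by
  intro F V _ _ _ _ g L χ hg ⟨e, e1, e2, e3⟩ mon deg _
  have d := dim_of_hy (H := L ⊓ L.comap g) inf_le_left e1 (fun k => e2 k.2) fun u hu =>
    (e3 u hu).imp fun t ht => ⟨sub_mem hu (smul_mem _ _ e1), ht⟩
  have hL : ∀ u ∈ L ⊓ L.comap g, g u ∈ L := fun u hu => hu.2
  have le : L ⊓ L.comap g ≤ L := inf_le_left
  generalize L ⊓ L.comap g = H at d hL le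
  generalize hn : finrank F H = n at d
  obtain ⟨β, b1, b2, b3⟩ := beta hg n H L le hn d hL
  obtain ⟨w, eL, eH⟩ := chain β n H L le hn d b1 b2
  have inj : LinearMap.ker (β.domRestrict H) = ⊥ := eq_bot_iff.2 fun u hu => Subtype.ext
    ((b2 (H ⊓ LinearMap.ker β) inf_le_left fun a ha => by rw [ha.2]; exact zero_mem _).le ⟨u.2, hu⟩)
  obtain ⟨γ, hγ⟩ := LinearMap.exists_leftInverse_of_injective _ inj
  have d1 : finrank F (H.map β) = n := by
    rw [← LinearMap.range_domRestrict, LinearMap.finrank_range_of_inj (LinearMap.ker_eq_bot.1 inj), hn]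
  have le1 : H.map β ≤ L := map_le_iff_le_comap.2 b1
  have p1 : ∀ i, β ((β ^ i) w) = (β ^ (i + 1)) w := fun i => by rw [pow_succ', End.mul_apply]
  have m1 : ∀ i < n, (β ^ i) w ∈ H := fun i hi => eH ▸ pow_mem_ch β w hi
  have m2 : ∀ i ≤ n, (β ^ i) w ∈ L := fun i hi => eL ▸ pow_mem_ch β w (by omega)
  have w1 : w ∉ H.map β := fun k => by
    have : L ≤ H.map β := eL.le.trans (ch_le.2 fun i hi => by
      rcases i with _ | i
      exacts [k, ⟨_, m1 i (by omega), p1 i⟩])
    have := Submodule.finrank_mono this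
    omega
  obtain ⟨z, z1, z2⟩ := LinearMap.exists_extend_of_notMem ((H.subtype ∘ₗ γ).domRestrict (H.map β)) w1
    (-∑ j ∈ Finset.range (n + 1), χ.coeff j • (β ^ (n - j)) w)
  have z3 : ∀ u ∈ H, z (β u) = u := fun u hu =>
    (LinearMap.congr_fun z1 ⟨_, u, hu, rfl⟩).trans
      (congrArg Subtype.val (LinearMap.congr_fun hγ ⟨u, hu⟩))
  have z4 : ∀ j ≤ n, (z ^ j) ((β ^ n) w) = (β ^ (n - j)) w := fun j hj => by
    induction j with
    | zero => rfl
    | succ j ih =>
      rw [pow_succ', End.mul_apply, ih (by omega), show n - j = n - (j + 1) + 1 by omega, ← p1,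
        z3 _ (m1 _ (by omega))]
  have z5 : aeval z χ ((β ^ n) w) = 0 := by
    have := mon.coeff_natDegree
    rw [deg, d] at this
    rw [aeval_eq_sum_range, deg, d, Finset.sum_range_succ, this, one_smul, LinearMap.add_apply,
      pow_succ', End.mul_apply, z4 n le_rfl, Nat.sub_self, pow_zero, End.one_apply, z2,
      LinearMap.sum_apply, add_neg_eq_zero]
    exact Finset.sum_congr rfl fun j hj => by
      rw [LinearMap.smul_apply, z4 j (by simpa [Nat.lt_succ_iff] using hj)]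
  refine ⟨z, fun u hu => ?_, eL.le.trans (ch_le (L := LinearMap.ker (aeval z χ)) |>.2 fun i hi => ?_),
    ?_⟩
  · obtain ⟨t, a, ha, ht⟩ := hy_of_dim le1 (by omega) (m2 0 (by omega)) w1 u hu
    rw [← sub_add_cancel u (t • w), show u - t • w = β a from ht.symm, map_add, z3 a ha, map_smul, z2]
    exact add_mem (le ha) (smul_mem _ _ (neg_mem (sum_mem fun j _ => smul_mem _ _ (m2 _ (by omega)))))
  · rw [LinearMap.mem_ker, show i = n - (n - i) by omega, ← z4 _ (by omega), ← End.mul_apply,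
      ← aeval_X_pow (R := F), ← map_mul, mul_comm, map_mul, End.mul_apply, z5, map_zero]
  · obtain ⟨v, hv, -⟩ := chain (g * z) n (H.map β) L le1 d1 d
      (by rintro _ ⟨a, ha, rfl⟩; rw [End.mul_apply, z3 a ha]; exact hL a ha) fun Y k hY => by
        have h1 : (H ⊓ Y.comap β).map g ≤ (H ⊓ Y.comap β).map β := by
          rintro _ ⟨a, ha, rfl⟩
          have := hY _ ha.2
          rw [End.mul_apply, z3 a ha.1] at this
          obtain ⟨b, hb, e⟩ := k this
          exact ⟨b, ⟨hb, show β b ∈ Y from e ▸ this⟩, e⟩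
        have h2 := eq_of_le_of_finrank_le h1 ((Submodule.finrank_map_le _ _).trans
          (LinearEquiv.finrank_eq (equivMapOfInjective g hg _)).le)
        have h3 := b3 _ inf_le_left fun u hu =>
          let ⟨a, ha, e⟩ := h2.ge ⟨u, hu, rfl⟩; ⟨a, ha, e.symm⟩
        refine eq_bot_iff.2 fun u hu => ?_
        obtain ⟨a, ha, rfl⟩ := k hu
        rw [(mem_bot F).1 (h3.le ⟨ha, hu⟩), map_zero]
        exact zero_mem _
    exact ⟨v, by rw [d]; exact hv⟩

end H4.OuG
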