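import Cfsg.Agent.H49.OcCov

/-! Parrott's theorem, slot BR: the stabiliser of two opposite points. -/

set_option autoImplicit false
set_option linter.unusedSectionVars false
set_option linter.unusedSimpArgs false

namespace H4.Pb

open Subgroup H63.Oc H63.Oc.Asm H49.Oc
open scoped commutatorElement

theorem exists_comm {Γ : Type*} [Group Γ] [Finite Γ] (hΓ : IsPGroup 2 Γ) {X : Set Γ} {y : Γ}
    (hX : ∀ c ∈ X, ⁅c, y⁆ ∈ X) {c : Γ} (hc : c ∈ X) (h1 : c ≠ 1) :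
    ∃ d ∈ X, d ≠ 1 ∧ d * y = y * d := by
  have := Fact.mk Nat.prime_two
  have := hΓ.isNilpotent
  by_contra! h
  have key : ∀ n, ∃ d ∈ X, d ≠ 1 ∧ d ∈ (⊤ : Subgroup Γ).lowerCentralSeries n := fun n => by
    induction n with
    | zero => exact ⟨c, hc, h1, mem_top _⟩
    | succ n ih =>
      obtain ⟨d, hd, d1, hn⟩ := ih
      exact ⟨_, hX d hd, fun e => h d hd d1 (commutatorElement_eq_one_iff_mul_comm.1 e),
        commutator_mem_commutator hn (mem_top y)⟩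
  obtain ⟨n, hn⟩ := Subgroup.nilpotent_iff_lowerCentralSeries.1 this
  obtain ⟨d, -, d1, hd⟩ := key n
  exact d1 (mem_bot.1 (hn ▸ hd))

variable {K : Type*} [Field K] [Finite K] [CharP K 2] {T : TF K} {G : Type*} [Group G] [Finite G]
  {A : AD T G}

theorem w_inv (A : AD T G) : (ww3 A)⁻¹ = ww3 A := by
  rw [ww3, mul_inv_rev, mul_inv_rev, n1_inv, n8_inv, mul_assoc]

theorem ν_eq (A : AD T G) : A.ν = ww3 A * A.n8 * ww3 A := by
  simp only [AD.ν, ww3, mul_assoc]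

theorem ν_inv (A : AD T G) : A.ν⁻¹ = A.ν := by
  rw [ν_eq, mul_inv_rev, mul_inv_rev, w_inv, n8_inv, mul_assoc]

theorem w_c (A : AD T G) (x : G) : ww3 A * x * (ww3 A)⁻¹ =
    A.n1 * (A.n8 * (A.n1 * x * A.n1⁻¹) * A.n8⁻¹) * A.n1⁻¹ := by rw [ww3]; group

theorem ν_c (A : AD T G) (x : G) : A.ν * x * A.ν⁻¹ =
    ww3 A * (A.n8 * (ww3 A * x * (ww3 A)⁻¹) * A.n8⁻¹) * (ww3 A)⁻¹ := by rw [ν_eq]; group

/-- the stabiliser in `C` of the opposite point -/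
def MM (A : AD T G) : Subgroup G := A.C ⊓ (N2 A).comap (MulAut.conj A.ν).toMonoidHom

theorem mem_MM {g : G} : g ∈ MM A ↔ g ∈ A.C ∧ A.ν * g * A.ν⁻¹ ∈ N2 A := Iff.rfl

theorem w_uu (A : AD T G) (b a : K) : ww3 A * A.ι (uu T b a) * (ww3 A)⁻¹ =
    A.ι ⟨0, 0, 0, 0, b, a, 0, 0, 0, 0, 0, 0⟩ := by
  rw [w_c, cj1 A (d := ⟨0, b, a, 0, 0, 0, 0, 0, 0, 0, 0, 0⟩) rfl (by ext <;> simp [Co.nu1, uu]),
    cj8 A (d := ⟨0, 0, 0, 0, 0, 0, 0, b, a, 0, 0, 0⟩) ⟨rfl, rfl⟩ (by ext <;> simp [Co.nu8]),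
    cj1 A (d := ⟨0, 0, 0, 0, b, a, 0, 0, 0, 0, 0, 0⟩) rfl (by ext <;> simp [Co.nu1])]

theorem ν_uu (A : AD T G) (b a : K) : A.ν * A.ι (uu T b a) * A.ν⁻¹ = A.ι (uu T b a) := by
  rw [ν_c, w_uu, cj8 A (d := ⟨0, 0, 0, 0, b, a, 0, 0, 0, 0, 0, 0⟩) ⟨rfl, rfl⟩
    (by ext <;> simp [Co.nu8]), ← w_uu, w_inv]
  have h := mul_inv_cancel (ww3 A)
  rw [w_inv] at h
  simp only [← mul_assoc, h, one_mul]
  rw [mul_assoc, h, mul_one]

theorem ν_h (A : AD T G) (p : Kˣ × Kˣ) : A.ν * A.h p * A.ν⁻¹ ∈ N2 A := by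
  have h1 : ∀ p, A.n1 * A.h p * A.n1⁻¹ = A.h (w1 p) := fun p => by rw [n1_inv, A.n1_h]
  have h8 : ∀ p, A.n8 * A.h p * A.n8⁻¹ = A.h (w8 T p) := fun p => by rw [n8_inv, A.tor.n8_h]
  rw [ν_c, w_c, w_c, h1, h8, h1, h8, h1, h8, h1]
  exact h_N2 A _

variable (L : Loc A.toCS)
include L

theorem U8_MM {u : Co T} (hu : u ∈ sU8 T) : A.ι u ∈ MM A :=
  ⟨A.ι_mem u, by
    change A.ν * A.ι u * A.ν⁻¹ ∈ N2 A
    rw [eq_uu hu, ν_uu]
    exact C_N2 L (A.ι_mem _)⟩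

theorem h0_MM (p : T0 T) : A.h0 p ∈ MM A :=
  mem_MM.2 ⟨A.h0_mem p, A.tor.h_h0 p ▸ ν_h A p⟩

theorem C_of_N2 {g : G} (hg : g ∈ N2 A) {k : ℕ} (h : g ^ 2 ^ k = 1) : g ∈ A.C :=
  L.bh.two g (L.bh.nZ.le hg) ⟨k, h⟩

/-- an element `g` of `C` with `w g w ∈ C` lies in `T₈` -/
theorem mem_T8 {g : G} (hg : g ∈ A.C) (h : ww3 A * g * (ww3 A)⁻¹ ∈ A.C) : g ∈ A.im (sT8 T) := by
  refine (L.ty.c8 0 g hg).1 ?_
  have h1 := L.bc.cenZ _ h 1
  rw [show x4 T 0 = 1 from rfl, one_mul, ← w_x4]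
  rw [w_inv] at h1 ⊢
  have h2 := mul_inv_cancel (ww3 A)
  rw [w_inv] at h2
  calc g * (ww3 A * A.ι (x4 T 1) * ww3 A)
      = ww3 A * ww3 A * g * (ww3 A * A.ι (x4 T 1) * ww3 A) := by rw [h2, one_mul]
    _ = ww3 A * (ww3 A * g * ww3 A * A.ι (x4 T 1)) * ww3 A := by group
    _ = ww3 A * A.ι (x4 T 1) * ww3 A * g * (ww3 A * ww3 A) := by rw [h1]; group
    _ = _ := by rw [h2, mul_one]

theorem MQ {c : Co T} (hc : c ∈ sQ T) (hM : A.ι c ∈ MM A) : c = 1 := by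
  by_contra h1
  have hy : A.ι (y8 T 1) ∈ MM A := U8_MM L (by simp [mem_sU8, y8])
  obtain ⟨d, ⟨⟨d1, d2⟩, dM⟩, h1, hd⟩ := exists_comm isPGroup_Co
    (X := {c | c ∈ sQ T ∧ A.ι c ∈ MM A}) (y := y8 T 1) (fun c hc => ⟨by
      simp [mem_sQ, commutatorElement_def, y8, hc.1.1, hc.1.2, CharTwo.add_self_eq_zero], by
      rw [map_commutatorElement, commutatorElement_def]
      exact mul_mem (mul_mem (mul_mem hc.2 hy) (inv_mem hc.2)) (inv_mem hy)⟩) ⟨hc, hM⟩ h1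
  have e1 : d.a1 = 0 := by simpa [y8, d1] using congrArg Co.b2 hd
  have e2 : d.b2 = 0 := by simpa [y8, d1, d2] using congrArg Co.b4 hd
  have e3 : d.b6 = 0 := by simpa [y8, d1, d2, e1, e2] using congrArg Co.a7 hd
  have e4 : d.a2 = 0 := by simpa [y8, d1, d2, e1, e2] using congrArg Co.a3 hd
  have e5 : d.a3 = 0 := by simpa [y8, d1, d2, e1, e2, e3, e4] using congrArg Co.a5 hd
  have e6 : d.a5 = 0 := by simpa [y8, d1, d2, e1, e2, e3, e4, e5] using congrArg Co.a6 hd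
  have k1 : ww3 A * A.ι d * (ww3 A)⁻¹ = A.ι ((⟨0, 0, 0, 0, 0, 0, d.a7, 0, d.a6 + d.a7 * d.b4,
      0, 0, 0⟩ : Co T) * uu T d.b4 d.a4) := by
    rw [w_c, cj1 A (d := ⟨0, 0, 0, d.a7, 0, d.a6 + d.a7 * d.b4, 0, d.b4, d.a4, 0, 0, 0⟩) e1
        (by ext <;> simp [Co.nu1, *]),
      cj8 A (d := ⟨0, d.b4, d.a4, 0, 0, d.a6, d.a7, 0, 0, 0, 0, 0⟩) ⟨rfl, rfl⟩
        (by ext <;> simp [Co.nu8, add_assoc, CharTwo.add_self_eq_zero]),
      cj1 A rfl rfl]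
    congr 1
    ext <;> simp [Co.nu1, uu]
  have k2 : d ^ 2 ^ 2 = 1 := by
    rw [show 2 ^ 2 = 2 * 2 from rfl, pow_mul, pow_two, pow_two]
    ext <;> simp [CharTwo.add_self_eq_zero, *]
  have k3 := C_of_N2 L dM.2 (k := 2) (by
    change (A.ν * A.ι d * A.ν⁻¹) ^ 2 ^ 2 = 1
    rw [conj_pow, ← map_pow, k2, map_one, mul_one, mul_inv_cancel])
  change A.ν * A.ι d * A.ν⁻¹ ∈ A.C at k3
  rw [ν_c, k1] at k3
  obtain ⟨z, hz, e⟩ := mem_T8 L (mul_mem (mul_mem A.n8_mem (A.ι_mem _)) (inv_mem A.n8_mem)) k3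
  rw [map_mul, ← conj_mul, cj8 A ⟨rfl, rfl⟩ rfl] at e
  have k4 := big L (u := uu T d.b4 d.a4) (by simp [mem_sU8, uu]) (by
    nth_rewrite 2 [← n8_inv]
    rw [← inv_mul_eq_iff_eq_mul.2 e]
    exact mul_mem (inv_mem (S_N1 L _)) (S_N1 L _))
  have e7 : d.b4 = 0 := congrArg Co.b8 k4
  have e8 : d.a4 = 0 := congrArg Co.a8 k4
  rw [k4, map_one, mul_one, mul_inv_cancel, mul_one] at e
  rw [A.inj e] at hz
  simp [mem_sT8, Co.nu8, e7] at hz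
  exact h1 (by ext <;> simp [*])

theorem exists_n : Cov A.toCS → ∃ q ∈ sQ T, A.ι q * A.n8 ∈ MM A := fun cov => by
  by_contra! hn
  have split : ∀ c : Co T, (uu T c.b8 c.a8)⁻¹ * c ∈ sQ T := fun c => by
    simp [mem_sQ, uu, CharTwo.add_self_eq_zero]
    grind
  have hu : ∀ b a, uu T b a ∈ sU8 T := fun b a => by simp [mem_sU8, uu]
  have h1 : Function.Surjective fun z : K × K × T0 T => (⟨A.ι (uu T z.1 z.2.1) * A.h0 z.2.2,
      mul_mem (U8_MM L (hu _ _)) (h0_MM L _)⟩ : MM A) := fun ⟨g, hg⟩ => by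
    rcases (L.bc.bruhat g).1 hg.1 with ⟨c, p, rfl⟩ | ⟨c, p, u, hu', rfl⟩
    · have h2 := MQ L (split c) (by
        rw [map_mul, map_inv]
        exact mul_mem (inv_mem (U8_MM L (hu _ _))) ((mul_mem_cancel_right (h0_MM L p)).1 hg))
      exact ⟨(c.b8, c.a8, p), Subtype.ext (by simp only [inv_mul_eq_one.1 h2])⟩
    · refine absurd ?_ (hn (dg T p⁻¹.1.1 p⁻¹.1.2 ((uu T c.b8 c.a8)⁻¹ * c)) (by
        have := split c
        simp only [mem_sQ, dg] at this ⊢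
        simp only [this, mul_zero, and_self]))
      rw [← A.h0_conj, map_inv, inv_inv, map_mul, map_inv]
      have h2 := mul_mem (inv_mem (h0_MM L p)) (mul_mem (inv_mem (U8_MM L (hu c.b8 c.a8)))
        ((mul_mem_cancel_right (U8_MM L hu')).1 hg))
      simpa only [mul_assoc] using h2
  have h2 := Nat.card_le_card_of_surjective _ h1
  rw [Nat.card_prod, Nat.card_prod, L.bc.card_T0] at h2
  have h3 : (MM A).relIndex A.C ≤ (N2 A).index := by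
    rw [MM, inf_relIndex_left, ← index_comap_of_surjective (N2 A)
      (f := (MulAut.conj A.ν).toMonoidHom) (MulAut.conj A.ν).surjective, ← relIndex_top_right]
    exact relIndex_le_of_le_right le_top (by rw [relIndex_top_right]; exact index_ne_zero_of_finite)
  have h4 : (MM A).relIndex A.C * Nat.card (MM A) = Nat.card A.C := by
    rw [relIndex, ← Nat.card_congr (subgroupOfEquivOfLe (H := MM A) inf_le_left).toEquiv,
      index_mul_card]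
  have h5 := Nat.mul_le_mul (h3.trans cov.index) h2
  rw [h4, L.bc.card_C] at h5
  obtain ⟨k, hk⟩ := Nat.exists_eq_add_of_le' (Finite.one_lt_card (α := K))
  rw [hk, show k + 1 + 1 - 1 = k + 1 from rfl] at h5
  have h6 : (k + 2 + 1) * ((k + 2) ^ 3 + (k + 2) + 1) ^ 3 < (k + 2) ^ 10 * ((k + 2) ^ 2 + 1) := by
    ring_nf
    omega
  have h7 := Nat.mul_lt_mul_of_pos_right h6
    (show 0 < (k + 2) * ((k + 2) * (k + 1)) by positivity)
  exact absurd (h5.trans_lt h7) (by ring_nf; omega)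

end H4.Pb
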