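import Cfsg.Agent.H4.PaB1

/-! Parrott's theorem, slot BR: the braid relation. -/

set_option autoImplicit false
set_option linter.unusedSectionVars false
set_option linter.unusedSimpArgs false

namespace H4.Pb

open Subgroup H63.Oc H63.Oc.Asm H49.Oc

variable {K : Type*} [Field K] [Finite K] [CharP K 2] {T : TF K}

theorem nu8_Q (c : Co T) : c.nu8 ∈ sQ T := ⟨rfl, rfl⟩

theorem conj_Q (u : Co T) {c : Co T} (hc : c ∈ sQ T) : u * c * u⁻¹ ∈ sQ T := by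
  obtain ⟨h1, h2⟩ := hc
  simp [mem_sQ, CharTwo.add_self_eq_zero, *]
  grind

theorem fix_dg {α : K} (h0 : α ≠ 0) (h1 : α ≠ 1) {q : Co T} (hq : q ∈ sQ T)
    (h : dg T α 1 q = q) : q = 1 := by
  have k1 : α * T.σ α ≠ 1 := fun e => h1 (eq_one_of_pw (T := T) h0 (i := 1) (j := 1) 0 rfl (by
    simpa using e))
  have k2 : α ^ 2 * T.σ α ≠ 1 := fun e => h1 (eq_one_of_pw (T := T) h0 (i := 2) (j := 1) 1 rfl (by
    simpa using e))
  have k3 : T.σ α ≠ 1 := fun e => h1 (T.σ.injective (by rw [e, map_one]))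
  have k : ∀ {a x : K}, a ≠ 1 → a * x = x → x = 0 := fun ha e =>
    (mul_left_eq_self₀.1 e).resolve_left ha
  ext
  · exact k h1 (congrArg Co.a1 h)
  · exact k h1 (by simpa [dg] using congrArg Co.b2 h)
  · exact k k1 (by simpa [dg] using congrArg Co.a2 h)
  · exact k k1 (by simpa [dg] using congrArg Co.a3 h)
  · exact k k3 (by simpa [dg] using congrArg Co.b4 h)
  · exact k k2 (by simpa [dg] using congrArg Co.a4 h)
  · exact k k1 (by simpa [dg] using congrArg Co.a5 h)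
  · exact k h1 (by simpa [dg] using congrArg Co.b6 h)
  · exact k k1 (by simpa [dg] using congrArg Co.a6 h)
  · exact k h1 (by simpa [dg] using congrArg Co.a7 h)
  · exact hq.1
  · exact hq.2

theorem solve_u {b a d c : K} (h : ∀ x ∈ sQ T, (y8 T 1 * x.nu8 * (y8 T 1)⁻¹).nu8 * uu T b a =
    uu T b a * (uu T d c * x * (uu T d c)⁻¹).nu8) : uu T b a = y8 T 1 ∧ uu T d c = x8 T 1 := by
  have e6 : uu T d c * x6 T 1 * (uu T d c)⁻¹ = x6 T 1 := by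
    rw [mul_inv_eq_iff_eq_mul]
    ext <;> simp [uu, x6]
  have e5 : uu T d c * x5 T 1 * (uu T d c)⁻¹ = ⟨0, 0, 0, 0, 0, 0, 1, 0, d, 0, 0, 0⟩ := by
    rw [mul_inv_eq_iff_eq_mul]
    ext <;> simp [uu, x5]
  have h6 := h (x6 T 1) ⟨rfl, rfl⟩
  have h5 := h (x5 T 1) ⟨rfl, rfl⟩
  have h3 := h (x3 T 1) ⟨rfl, rfl⟩
  rw [e6] at h6
  rw [e5] at h5
  obtain rfl : 1 = b := by simpa [uu, x6, y8, Co.nu8] using congrArg Co.a3 h6
  obtain rfl : 0 = a := by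
    simpa [uu, x6, y8, Co.nu8, CharTwo.add_self_eq_zero] using congrArg Co.a4 h6
  obtain rfl : 0 = d := by simpa [uu, x5, y8, Co.nu8] using congrArg Co.a2 h5
  obtain rfl : 1 = c := by simpa [uu, x3, y8, Co.nu8] using congrArg Co.a2 h3
  exact ⟨rfl, rfl⟩

theorem solve_q (h2 : ∀ a : K, a = 0 ∨ a = 1) {q : Co T} (hq : q ∈ sQ T) (e1 : q * q.nu8 = 1)
    (e2 : q * y8 T 1 * (x8 T 1 * q.nu8 * (x8 T 1)⁻¹).nu8 = y8 T 1 * q) :
    q = 1 ∨ ∃ x ∈ [x6 T 1, x7 T 1, x6 T 1 * x7 T 1], x ∈ sQ T ∧ q = x * x⁻¹.nu8 := by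
  have hσ : ∀ x, T.σ x = x := fun x => by rcases h2 x with rfl | rfl <;> simp
  obtain ⟨a1, b2, a2, a3, b4, a4, a5, b6, a6, a7, b8, a8⟩ := q
  obtain ⟨rfl, rfl⟩ : b8 = 0 ∧ a8 = 0 := hq
  have t : ∀ x : K, x + x = 0 := CharTwo.add_self_eq_zero
  obtain rfl : a7 = a1 := by
    have := congrArg Co.a1 e1
    simp [Co.nu8] at this
    grind
  obtain rfl : b6 = b2 := by
    have := congrArg Co.b2 e1
    simp [Co.nu8] at this
    grind
  obtain rfl : b6 = 0 := by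
    have := congrArg Co.a7 e2
    simp [Co.nu8, x8, y8, hσ] at this
    grind
  obtain rfl : b4 = 0 := by
    have := congrArg Co.b4 e2
    simp [Co.nu8, x8, y8, hσ] at this
    grind
  obtain rfl : a6 = a2 := by
    have := congrArg Co.a2 e1
    simp [Co.nu8] at this
    grind
  have f3 := congrArg Co.a3 e1
  have f4 := congrArg Co.a4 e2
  have f6 := congrArg Co.a6 e2
  simp only [List.mem_cons, List.not_mem_nil, or_false, exists_eq_or_imp, exists_eq_left]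
  rcases h2 a7 with rfl | rfl <;> rcases h2 a6 with rfl | rfl <;>
    simp [Co.nu8, x8, y8, hσ, t] at f3 f4 f6
  · exact .inl (by ext <;> simp <;> grind)
  · exact .inr (.inl ⟨⟨rfl, rfl⟩, by ext <;> simp [Co.nu8, x6, t] <;> grind⟩)
  · exact .inr (.inr (.inl ⟨⟨rfl, rfl⟩, by ext <;> simp [Co.nu8, x7, t] <;> grind⟩))
  · exact .inr (.inr (.inr ⟨by simp [mem_sQ, x6, x7], by
      ext <;> simp [Co.nu8, x6, x7, t] <;> grind⟩))

variable {G : Type*} [Group G] [Finite G] {A : AD T G} (L : Loc A.toCS)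
include L

theorem n8_big {α : K} (h0 : α ≠ 0) (h1 : α ≠ 1) {q : Co T} (hq : q ∈ sQ T)
    (h : A.ι q * A.n8 ∈ MM A) : q = 1 := by
  have e1 : A.h (Units.mk0 α h0, 1) * A.n8 * (A.h (Units.mk0 α h0, 1))⁻¹ = A.n8 := by
    have := A.tor.n8_h (Units.mk0 α h0, 1)
    rw [show w8 T (Units.mk0 α h0, 1) = (Units.mk0 α h0, 1) by simp [w8]] at this
    rw [mul_inv_eq_iff_eq_mul]
    nth_rewrite 1 [← this]
    rw [mul_assoc, A.n8_sq, mul_one]
  have e2 : A.h (Units.mk0 α h0, 1) * (A.ι q * A.n8) * (A.h (Units.mk0 α h0, 1))⁻¹ ∈ MM A := by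
    refine mem_MM.2 ⟨h_nor A _ h.1, ?_⟩
    rw [← conj_mul, ← conj_mul, ← conj_inv]
    exact mul_mem (mul_mem (ν_h A _) h.2) (inv_mem (ν_h A _))
  rw [← conj_mul, e1, A.tor.h_conj] at e2
  have e3 := mul_mem e2 (inv_mem h)
  rw [mul_inv_rev, ← mul_assoc, mul_inv_cancel_right, ← map_inv, ← map_mul] at e3
  exact fix_dg h0 h1 hq (mul_inv_eq_one.1 (MQ L (mul_mem (by
    simp only [mem_sQ, dg, hq.1, hq.2, mul_zero, and_self]) (inv_mem hq)) e3))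

theorem n8_two (h2 : ∀ a : K, a = 0 ∨ a = 1) (hN : NoAlt A) {q : Co T} (hq : q ∈ sQ T)
    (h : A.ι q * A.n8 ∈ MM A) : q = 1 := by
  have c8 : ∀ {c}, c ∈ sQ T → A.n8 * A.ι c = A.ι c.nu8 * A.n8 := fun hc =>
    mul_inv_eq_iff_eq_mul.1 (cj8 A hc rfl)
  have s1 : A.ι q * A.n8 * (A.ι q * A.n8) = A.ι (q * q.nu8) := by
    rw [mul_assoc, ← mul_assoc A.n8, c8 hq, mul_assoc, A.n8_sq, mul_one, map_mul]
  have e1 := MQ L (mul_mem hq (nu8_Q q)) (s1 ▸ mul_mem h h)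
  obtain ⟨u1, hu1, u2, hu2, p, e⟩ := A.rank8 (y8 T 1) (by simp [mem_sU8, y8]) fun e => by
    simpa [y8] using congrArg Co.b8 e
  have hp : ∀ a : Kˣ, a = 1 := fun a => Units.ext ((h2 a).resolve_left a.ne_zero)
  rw [show p = 1 from Subtype.ext (Prod.ext (hp _) (hp _)), map_one, mul_one, eq_uu hu1,
    eq_uu hu2] at e
  obtain ⟨f1, f2⟩ := solve_u (T := T) (b := u1.b8) (a := u1.a8) (d := u2.b8) (c := u2.a8)
    fun x hx => A.inj (by
      rw [map_mul, map_mul, ← cj8 A (conj_Q _ (nu8_Q x)) rfl, ← cj8 A (conj_Q _ hx) rfl,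
        map_mul, map_mul, map_mul, map_mul, map_inv, map_inv, ← cj8 A hx rfl]
      calc _ = A.n8 * A.ι (y8 T 1) * A.n8 * A.ι x * (A.n8 * A.ι (y8 T 1) * A.n8)⁻¹ *
            A.ι (uu T u1.b8 u1.a8) := by group
        _ = _ := by rw [e]; group)
  rw [f1, f2] at e
  have hy : A.ι (y8 T 1) ∈ MM A := U8_MM L (by simp [mem_sU8, y8])
  have hx : A.ι (x8 T 1) ∈ MM A := U8_MM L (by simp [mem_sU8, x8])
  have e2 : A.ι q * A.n8 * A.ι (y8 T 1) * (A.ι q * A.n8) *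
      (A.ι (y8 T 1) * (A.ι q * A.n8) * A.ι (x8 T 1))⁻¹ =
      A.ι (q * y8 T 1 * (x8 T 1 * q.nu8 * (x8 T 1)⁻¹).nu8 * (y8 T 1 * q)⁻¹) := by
    rw [map_mul, map_mul, ← cj8 A (conj_Q _ (nu8_Q q)) rfl]
    simp only [map_mul, map_inv]
    rw [← cj8 A hq rfl]
    calc _ = A.ι q * (A.n8 * A.ι (y8 T 1) * A.n8) * (A.n8⁻¹ * A.ι q * A.n8) *
          (A.ι (y8 T 1) * (A.ι q * A.n8) * A.ι (x8 T 1))⁻¹ := by group
      _ = _ := by
        rw [e, show A.n8⁻¹ * A.ι q * A.n8 = A.n8 * A.ι q * A.n8⁻¹ by rw [n8_inv]]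
        group
  have e3 := MQ L (by simp [mem_sQ, y8, Co.nu8, hq.1, hq.2, CharTwo.add_self_eq_zero])
    (e2 ▸ mul_mem (mul_mem (mul_mem h hy) h) (inv_mem (mul_mem (mul_mem hy h) hx)))
  refine (solve_q h2 hq e1 (mul_inv_eq_one.1 e3)).resolve_right fun ⟨x, hx, xQ, ex⟩ => hN x hx ?_
  have e4 : A.ι x * A.n8 * (A.ι x)⁻¹ = A.ι q * A.n8 := by
    rw [ex, map_mul, mul_assoc, mul_assoc, ← c8 (inv_mem xQ), map_inv]
  have e5 := L.bc.cenZ _ (C_of_N2 L h.2 (k := 1) (by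
    change (A.ν * (A.ι q * A.n8) * A.ν⁻¹) ^ 2 ^ 1 = 1
    rw [conj_pow, pow_one, pow_two, s1, e1, map_one, mul_one, mul_inv_cancel])) 1
  change A.ν * (A.ι q * A.n8) * A.ν⁻¹ * A.τ = A.τ * (A.ν * (A.ι q * A.n8) * A.ν⁻¹) at e5
  rw [e4]
  calc _ = A.ν⁻¹ * (A.ν * (A.ι q * A.n8) * A.ν⁻¹ * A.τ) * A.ν := by
        nth_rewrite 2 [ν_inv]
        group
    _ = _ := by
        rw [e5]
        nth_rewrite 1 [ν_inv]
        group

theorem braid (h : A.n8 ∈ MM A) : A.Braid := by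
  have h1 := C_of_N2 L h.2 (k := 1) (by
    change (A.ν * A.n8 * A.ν⁻¹) ^ 2 ^ 1 = 1
    rw [conj_pow, pow_one, pow_two, A.n8_sq, mul_one, mul_inv_cancel])
  change A.ν * A.n8 * A.ν⁻¹ ∈ A.C at h1
  have h2 : (A.n1 * A.n8) ^ 8 ∈ A.C := by
    have := mul_mem h1 A.n8_mem
    rw [ν_inv, AD.ν] at this
    simpa only [pow_succ, pow_zero, one_mul, mul_assoc] using this
  have i1 : A.n1 * (A.n1 * A.n8) ^ 8 * A.n1⁻¹ = ((A.n1 * A.n8) ^ 8)⁻¹ := by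
    rw [← conj_pow, ← inv_pow, ← mul_assoc, A.n1_sq, one_mul, mul_inv_rev, n8_inv]
  have i8 : A.n8 * (A.n1 * A.n8) ^ 8 * A.n8⁻¹ = ((A.n1 * A.n8) ^ 8)⁻¹ := by
    rw [← conj_pow, ← inv_pow, ← mul_assoc, mul_inv_cancel_right, mul_inv_rev, n8_inv, n1_inv]
  rw [AD.Braid]
  generalize (A.n1 * A.n8) ^ 8 = c at *
  obtain ⟨d, hd, rfl⟩ := mem_T8 L h2 (by
    rw [w_c, i1, ← conj_inv, i8, inv_inv, i1]
    exact inv_mem h2)
  rw [cj1 A hd.1 rfl, ← map_inv] at i1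
  have j1 := A.inj i1
  have j2 : d.nu1 ∈ sT8 T := j1 ▸ inv_mem hd
  obtain ⟨d1, d2, d3, d4⟩ := id hd
  simp [mem_sT8, Co.nu1, d1, d2, d3, d4] at j2
  obtain ⟨d5, d6, d7⟩ := j2
  simp [d5] at d7
  rw [cj8 A ⟨d5, d6⟩ rfl, ← map_inv] at i8
  have j3 : d.nu8 ∈ sT8 T := A.inj i8 ▸ inv_mem hd
  simp [mem_sT8, Co.nu8, d1, d2, d3, d4, d7] at j3
  obtain ⟨d8, d9, d10⟩ := j3
  simp [d8] at d10
  have d11 : d.b4 = 0 := by simpa [Co.nu1, *] using congrArg Co.b6 j1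
  have d12 : d.a4 = 0 := by simpa [Co.nu1, *] using congrArg Co.a6 j1
  rw [show d = 1 by ext <;> simp [*], map_one]

end H4.Pb

namespace H4.Pb

universe u v

theorem jobBr : H63.Oc.JobBr.{u, v} := fun K _ _ _ _ _ _ _ _ L cov hN => by
  obtain ⟨q, hq, h⟩ := exists_n L cov
  have : q = 1 := by
    by_cases h2 : ∀ a : K, a = 0 ∨ a = 1
    · exact n8_two L h2 (hN h2) hq h
    · push Not at h2
      obtain ⟨α, h0, h1⟩ := h2
      exact n8_big L h0 h1 hq h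
  rw [this, map_one, one_mul] at h
  exact braid L h

end H4.Pb
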