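import Cfsg.Agent.H63.OcSpec
import Cfsg.Agent.H83.InvPair

/-! Parrott's theorem, slot E: points commuting with `τ` and the element `x₅(1)`. -/

set_option autoImplicit false
set_option linter.unusedSectionVars false
set_option linter.unusedSimpArgs false

namespace H4.Pa

open Subgroup H63.Oc

variable {K : Type*} [Field K] [Finite K] [CharP K 2] {T : TF K} {G : Type*} [Group G] [Finite G]

theorem mem_nor {D : CS T G} {X : Subgroup (Co T)} {g : G}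
    (h : ∀ c ∈ X, ∃ c' ∈ X, g * D.ι c * g⁻¹ = D.ι c') : g ∈ normalizer (D.im X : Set G) :=
  mem_normalizer_fintype fun _ ⟨c, hc, e⟩ =>
    let ⟨c', hc', e'⟩ := h c hc
    ⟨c', hc', by rw [← e, e']⟩

theorem nor_apply {D : CS T G} {X : Subgroup (Co T)} {g : G}
    (h : g ∈ normalizer (D.im X : Set G)) {c : Co T} (hc : c ∈ X) :
    ∃ c' ∈ X, g * D.ι c * g⁻¹ = D.ι c' :=
  let ⟨c', hc', e⟩ := (mem_normalizer_iff.1 h (D.ι c)).1 ⟨c, hc, rfl⟩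
  ⟨c', hc', e.symm⟩

theorem n8_inv (D : CS T G) : D.n8⁻¹ = D.n8 := inv_eq_of_mul_eq_one_right D.n8_sq

theorem n1_inv (A : AD T G) : A.n1⁻¹ = A.n1 := inv_eq_of_mul_eq_one_right A.n1_sq

theorem n8_c (D : CS T G) {c : Co T} (hc : c ∈ sQ T) : D.n8 * D.ι c * D.n8⁻¹ = D.ι c.nu8 := by
  rw [n8_inv, D.n8_conj c hc]

theorem n1_c (A : AD T G) {c : Co T} (hc : c ∈ sQ1 T) : A.n1 * A.ι c * A.n1⁻¹ = A.ι c.nu1 := by
  rw [n1_inv, A.n1_conj c hc]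

theorem ι_c (D : CS T G) (s c : Co T) : D.ι s * D.ι c * (D.ι s)⁻¹ = D.ι (s * c * s⁻¹) := by
  simp only [map_mul, map_inv]

theorem conj_mul' (a b x : G) : a * b * x * (a * b)⁻¹ = a * (b * x * b⁻¹) * a⁻¹ := by group

theorem comm_of_conj {a x : G} (h : a * x * a⁻¹ = x) : a * x = x * a := by
  rw [← mul_inv_eq_iff_eq_mul, h]

theorem conj_of_comm {a x : G} (h : a * x = x * a) : a * x * a⁻¹ = x := by
  rw [h, mul_inv_cancel_right]

theorem W_conj (s : Co T) {c : Co T} (hc : c ∈ sW T) :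
    s * c * s⁻¹ = ww T c.a6 (c.a4 + s.a1 * c.a6) := by
  obtain ⟨h1, h2, h3, h4, h5, h6, h7, h8, h9, h10⟩ := hc
  rw [mul_inv_eq_iff_eq_mul]
  ext <;> simp [ww, *] <;> grind

theorem ww_mem (s r : K) : ww T s r ∈ sW T := by simp [mem_sW, ww]

theorem ι_nor_W (D : CS T G) (s : Co T) : D.ι s ∈ normalizer (D.im (sW T) : Set G) :=
  mem_nor fun c hc => ⟨_, ww_mem _ _, by rw [ι_c, W_conj s hc]⟩

theorem dg_W {a b : K} {c : Co T} (hc : c ∈ sW T) : dg T a b c ∈ sW T := by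
  simp_all [mem_sW, dg]

theorem h0_nor_W (D : CS T G) (p : T0 T) : D.h0 p ∈ normalizer (D.im (sW T) : Set G) :=
  mem_nor fun c hc => ⟨_, dg_W hc, D.h0_conj p c⟩

theorem h_nor_W (A : AD T G) (p : Kˣ × Kˣ) : A.h p ∈ normalizer (A.im (sW T) : Set G) :=
  mem_nor fun c hc => ⟨_, dg_W hc, A.tor.h_conj p c⟩

theorem n1_nor_W (A : AD T G) : A.n1 ∈ normalizer (A.im (sW T) : Set G) :=
  mem_nor fun c hc => ⟨_, by simp_all [mem_sW, Co.nu1], n1_c A hc.1⟩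

theorem nu1_x4 (a : K) : (x4 T a).nu1 = x6 T a := by ext <;> simp [Co.nu1, x4, x6]
theorem nu1_x6 (a : K) : (x6 T a).nu1 = x4 T a := by ext <;> simp [Co.nu1, x4, x6]
theorem nu1_x5 (a : K) : (x5 T a).nu1 = x5 T a := by ext <;> simp [Co.nu1, x5]
theorem nu1_x8 (a : K) : (x8 T a).nu1 = x2 T a := by ext <;> simp [Co.nu1, x8, x2]
theorem nu1_x2 (a : K) : (x2 T a).nu1 = x8 T a := by ext <;> simp [Co.nu1, x8, x2]
theorem nu8_x2 (a : K) : (x2 T a).nu8 = x6 T a := by ext <;> simp [Co.nu8, x2, x6]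
theorem nu8_x6 (a : K) : (x6 T a).nu8 = x2 T a := by ext <;> simp [Co.nu8, x2, x6]
theorem nu8_x3 (a : K) : (x3 T a).nu8 = x5 T a := by ext <;> simp [Co.nu8, x3, x5]
theorem nu8_x5 (a : K) : (x5 T a).nu8 = x3 T a := by ext <;> simp [Co.nu8, x3, x5]

/-- The elements of `W` are conjugate in `C(x₅(1)) ∩ N(W)`. -/
theorem trans_W (A : AD T G) {c : Co T} (hc : c ∈ sW T) (h1 : c ≠ 1) :
    ∃ m, m * A.ι (x5 T 1) * m⁻¹ = A.ι (x5 T 1) ∧ m ∈ normalizer (A.im (sW T) : Set G) ∧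
      m * A.τ * m⁻¹ = A.ι c := by
  have k : ∀ r : K, r ≠ 0 → ∃ m, m * A.ι (x5 T 1) * m⁻¹ = A.ι (x5 T 1) ∧
      m ∈ normalizer (A.im (sW T) : Set G) ∧ m * A.τ * m⁻¹ = A.ι (x4 T r) := fun r hr => by
    have hs : T.σ r ≠ 0 := (map_ne_zero _).2 hr
    refine ⟨A.h (Units.mk0 r hr ^ 2, (Units.mk0 r hr)⁻¹), ?_, h_nor_W A _, ?_⟩
    · rw [A.tor.h_conj]
      congr 1
      ext <;> simp [dg, x5]
      field_simp
    · rw [CS.τ, A.tor.h_conj]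
      congr 1
      ext <;> simp [dg, x4]
      field_simp
  obtain ⟨g1, g2, g3, g4, g5, g6, g7, g8, g9, g10⟩ := id hc
  by_cases h6 : c.a6 = 0
  · obtain ⟨m, m1, m2, m3⟩ := k c.a4 fun e => h1 (by ext <;> simp [*])
    exact ⟨m, m1, m2, m3.trans (congrArg _ (by ext <;> simp [x4, *]))⟩
  · obtain ⟨m, m1, m2, m3⟩ := k c.a6 h6
    refine ⟨A.ι (x1 T (c.a4 / c.a6)) * A.n1 * m, ?_,
      mul_mem (mul_mem (ι_nor_W _ _) (n1_nor_W A)) m2, ?_⟩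
    · rw [conj_mul', m1, conj_mul', n1_c A (by rfl), nu1_x5, ι_c]
      congr 1
      rw [mul_inv_eq_iff_eq_mul]
      ext <;> simp [x1, x5]
    · rw [conj_mul', m3, conj_mul', n1_c A (by rfl), nu1_x4, ι_c, W_conj _ (by simp [mem_sW, x6])]
      congr 1
      ext <;> simp [x1, x6, ww, *]

variable {A : AD T G} (L : Loc A.toCS)
include L

theorem nor_V {y : G} (h : y * A.τ * y⁻¹ = A.τ) : y ∈ normalizer (A.im (sV T) : Set G) :=
  L.bh.nC _ (by simp) (L.hy.nrm y (comm_of_conj h))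

theorem not_conj {g : G} : g * A.τ * g⁻¹ ≠ A.ι (x5 T 1) := fun h => L.fu.n5 (isConj_iff.2 ⟨g, h⟩)

/-- an element of `C` mapping `x₅(1)` into `V₄U₅V₆` normalises `W` -/
theorem nor_W_of_A {g : G} (hg : g ∈ A.C) {v : Co T} (hv : v ∈ sV T) (h2 : v.a2 = 0)
    (h3 : v.a3 = 0) (e : g * A.ι (x5 T 1) * g⁻¹ = A.ι v) :
    g ∈ normalizer (A.im (sW T) : Set G) := by
  rcases (L.bc.bruhat g).1 hg with ⟨c, p, rfl⟩ | ⟨c, p, u, hu, rfl⟩
  · exact mul_mem (ι_nor_W _ _) (h0_nor_W _ _)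
  exfalso
  obtain ⟨u1, u2, u3, u4, u5, u6, u7, u8, u9, u10⟩ := hu
  obtain ⟨v1, v2, v3, v4, v5, v6, v7⟩ := hv
  have e1 : u * x5 T 1 * u⁻¹ = ⟨0, 0, 0, 0, 0, 0, 1, 0, u.b8, 0, 0, 0⟩ := by
    rw [mul_inv_eq_iff_eq_mul]
    ext <;> simp [x5, *] <;> grind
  rw [conj_mul', ι_c, e1, conj_mul', n8_c _ ⟨rfl, rfl⟩, conj_mul', A.h0_conj, ι_c] at e
  have e2 := mul_inv_eq_iff_eq_mul.1 (A.inj e)
  have e3 := congrArg Co.a2 e2
  have e4 := congrArg Co.a3 e2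
  simp [dg, Co.nu8, *] at e3 e4
  simp [e3] at e4

/-- `V ∩ V₈` -/
theorem V_inter {v v' : Co T} (hv : v ∈ sV T) (hv' : v' ∈ sV T)
    (e : A.n1 * A.n8 * A.n1 * A.ι v * (A.n1 * A.n8 * A.n1)⁻¹ = A.ι v') : v ∈ sW T := by
  obtain ⟨v1, v2, v3, v4, v5, v6, v7⟩ := hv
  obtain ⟨w1, w2, w3, w4, w5, w6, w7⟩ := hv'
  have e1 : A.n8 * A.ι v.nu1 * A.n8⁻¹ = A.ι v'.nu1 := by
    rw [← n1_c A v1, ← n1_c A w1, ← e, n1_inv]
    simp only [mul_inv_rev, n1_inv, ← mul_assoc, A.n1_sq, one_mul]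
    simp only [mul_assoc, A.n1_sq, mul_one]
  have e2 : v.nu1 = (⟨0, 0, 0, 0, 0, v.a6, v.a5, 0, v.a4, v.a3, 0, 0⟩ : Co T) * x8 T v.a2 := by
    ext <;> simp [Co.nu1, x8, *]
  by_cases h2 : v.a2 = 0
  · rw [n8_c _ (by simp [mem_sQ, Co.nu1, *])] at e1
    have e3 := congrArg Co.a1 (A.inj e1)
    have e4 := congrArg Co.a3 (A.inj e1)
    simp [Co.nu1, Co.nu8, *] at e3 e4
    simp [mem_sW, *]
  exfalso
  obtain ⟨u', -, u'', -, p, e3⟩ := A.rank8 (x8 T v.a2) (by simp [mem_sU8, x8]) fun e => h2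
    (congrArg Co.a8 e)
  have e4 := n8_c A.toCS (c := ⟨0, 0, 0, 0, 0, v.a6, v.a5, 0, v.a4, v.a3, 0, 0⟩) ⟨rfl, rfl⟩
  refine L.bc.sep (Co.nu8 ⟨0, 0, 0, 0, 0, v.a6, v.a5, 0, v.a4, v.a3, 0, 0⟩ * u') p u'' v'.nu1 1 ?_
  rw [map_one, mul_one, ← e1, e2, map_mul, map_mul, ← e4, mul_assoc, mul_assoc, mul_assoc,
    ← mul_assoc (A.ι u'), ← mul_assoc (A.ι u' * _), ← e3, n8_inv]
  simp only [← mul_assoc]
  rw [mul_assoc _ A.n8 A.n8, A.n8_sq, mul_one]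

/-- A point `d` commuting with `τ` such that `x₅(1) ∈ V(d)` lies in `W`. -/
theorem key {x : G} (hx : x * A.ι (x5 T 1) * x⁻¹ = A.ι (x5 T 1))
    (hc : x * A.τ * x⁻¹ * A.τ = A.τ * (x * A.τ * x⁻¹)) : x * A.τ * x⁻¹ ∈ A.im (sW T) := by
  have t2 : A.τ * A.τ = 1 := by
    rw [CS.τ, ← map_mul, ← map_one A.ι]
    congr 1
    ext <;> simp [x4, CharTwo.add_self_eq_zero]
  have d2 : x * A.τ * x⁻¹ * (x * A.τ * x⁻¹) = 1 := by
    rw [conj_mul, t2, mul_one, mul_inv_cancel]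
  have hd := L.bh.two _ (L.hy.nrm _ hc) ⟨1, by rw [pow_one, pow_two, d2]⟩
  obtain ⟨g, hg, h⟩ := L.ty.cls _ hd d2
  obtain ⟨v, hv, ev⟩ := nor_apply (L.bc.nor (sV T) (by simp) hg) (c := x5 T 1)
    (by simp [mem_sV, x5])
  have k : ∀ y : G, y * g * x * A.τ * (y * g * x)⁻¹ = A.τ →
      ∃ v' ∈ sV T, y * A.ι v * y⁻¹ = A.ι v' := fun y hy => by
    obtain ⟨v', hv', e⟩ := nor_apply (nor_V L hy) (c := x5 T 1) (by simp [mem_sV, x5])
    rw [conj_mul', hx, conj_mul', ev] at e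
    exact ⟨v', hv', e⟩
  rcases h with ⟨a, h⟩ | h | h | h | ⟨a, h⟩
  · have h1 := conj_of_comm (L.bc.cenZ _ (inv_mem hg) a)
    rw [← h] at h1
    rw [show x * A.τ * x⁻¹ = A.ι (x4 T a) by rw [← h, ← h1]; group]
    exact ⟨_, by simp [mem_sW, x4], rfl⟩
  · obtain ⟨v', hv', e⟩ := k A.n1 (by
      rw [conj_mul', conj_mul', h, n1_c A (by rfl), nu1_x6, CS.τ])
    rw [n1_c A hv.1] at e
    obtain rfl := A.inj e
    obtain ⟨v1, v2, v3, v4, v5, v6, v7⟩ := id hv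
    obtain ⟨-, -, -, -, w5, -, w7⟩ := hv'
    have hn := nor_W_of_A L hg hv w7 (by simpa [Co.nu1, *] using w5) ev
    obtain ⟨c, hc, e⟩ := nor_apply (inv_mem hn) (c := x6 T 1) (by simp [mem_sW, x6])
    exact ⟨c, hc, by rw [← e, ← h]; group⟩
  · exact absurd (by rw [conj_mul', h]) (not_conj L (g := g * x))
  · exact absurd (isConj_iff.2 ⟨g * x, by rw [conj_mul', h]⟩) L.fu.n7
  exfalso
  by_cases ha : a = 0
  · obtain ⟨v', hv', e⟩ := k (A.n1 * A.n8 * A.n1) (by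
      rw [conj_mul', conj_mul', h, conj_mul', conj_mul', ha,
        show x4 T 0 * x8 T 1 = x8 T 1 by ext <;> simp [x4, x8], n1_c A (by rfl), nu1_x8,
        n8_c _ ⟨rfl, rfl⟩, nu8_x2, n1_c A (by rfl), nu1_x6, CS.τ])
    obtain ⟨m, -, -, m3⟩ := trans_W A (V_inter L hv hv' e) fun e1 => by
      rw [e1, map_one, conj_eq_one_iff, ← map_one A.ι] at ev
      simpa [x5] using congrArg Co.a5 (A.inj ev)
    exact not_conj L (g := g⁻¹ * m) (by rw [conj_mul', m3, ← ev]; group)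
  · obtain ⟨g', -, e⟩ := L.ty.cls26 a ha
    refine not_conj L (g := g' * A.n1 * g * x) ?_
    rw [conj_mul', conj_mul', h, conj_mul', n1_c A (by simp [mem_sQ1, x4, x8]), ← e]
    congr 3
    ext <;> simp [Co.nu1, x4, x8, x2, x6]

/-- The final contradiction. -/
theorem fin {k : G} (hk : k ∈ normalizer (A.im (sW T) : Set G))
    (h5 : k * A.ι (x5 T 1) * k⁻¹ = A.ι (x5 T 1)) {w : Co T} (hw : w ∈ sW T)
    (h3 : k * A.ι (x3 T 1 * w) * k⁻¹ = A.ι (x3 T 1 * w)) : k * A.τ * k⁻¹ ≠ A.ι (x6 T 1) := by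
  have hQ : k ∈ normalizer (A.im (sQ1 T) : Set G) := mem_normalizer_fintype fun _ ⟨c, hc, e⟩ => by
    refine L.cw _ fun d hd => ?_
    obtain ⟨d', hd', e'⟩ := nor_apply (inv_mem hk) hd
    have h1 : c * d' * c⁻¹ = d' := by
      have h2 : c.a1 = 0 := hc
      obtain ⟨g1, g2, g3, g4, g5, g6, g7, g8, g9, g10⟩ := id hd'
      rw [W_conj c hd']
      ext <;> simp [ww, *]
    have h2 : A.ι d = k * A.ι d' * k⁻¹ := by rw [← e']; group
    rw [← e, h2, conj_mul, conj_mul, ← map_mul, ← map_mul, mul_inv_eq_iff_eq_mul.1 h1]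
  have hA := L.bh.nQ1 (sA7 T) (by simp) hQ
  obtain ⟨v, hv, ev⟩ := nor_apply hQ (c := x2 T 1) rfl
  obtain ⟨a, ha, ea⟩ := nor_apply hA (c := x7 T 1) (by simp [mem_sA7, x7])
  have tr : ∀ c c' : Co T, k * A.ι c * k⁻¹ = A.ι c' → x2 T 1 * c = c * x2 T 1 → v * c' = c' * v :=
    fun c c' e h => A.inj (by rw [map_mul, map_mul, ← ev, ← e, conj_mul, conj_mul, ← map_mul,
      ← map_mul, h])
  obtain ⟨g1, g2, g3, g4, g5, g6, g7, g8, g9, g10⟩ := hw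
  have v1 : v.a1 = 0 := hv
  have c5 := tr _ _ h5 (by ext <;> simp [x2, x5])
  have c3 := tr _ _ h3 (by ext <;> simp [x2, x3, *] <;> grind)
  have c2 : v * v = 1 := A.inj (by
    rw [map_mul, ← ev, conj_mul, ← map_mul, show x2 T 1 * x2 T 1 = 1 by
      ext <;> simp [x2, CharTwo.add_self_eq_zero], map_one, mul_one, mul_inv_cancel])
  have v2 : v.b2 = 0 := by simpa [x5, v1, add_comm] using congrArg Co.a4 c5
  have v8 : v.b8 = 0 := by simpa [x5, v1, add_comm] using congrArg Co.a6 c5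
  have v6 : v.b6 = 0 := by
    have := congrArg Co.a4 c3
    simp [x3, *] at this
    grind
  have v9 : v.a8 = 0 := by
    have := congrArg Co.a6 c3
    simp [x3, *] at this
    grind
  have q4 := congrArg Co.a4 c2
  have q6 := congrArg Co.a6 c2
  simp [CharTwo.add_self_eq_zero, v1, v2, v8, v6, v9] at q4 q6
  have v4 : v.b4 = 0 := by
    rcases q6 with h | h
    · simpa [h] using q4
    · exact h
  have v3 : v.a2 ≠ 0 := fun h => by
    obtain ⟨c, hc, e⟩ := nor_apply (inv_mem hA) (c := v) (by simp [mem_sA7, *])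
    rw [← ev, show k⁻¹ * (k * A.ι (x2 T 1) * k⁻¹) * k⁻¹⁻¹ = A.ι (x2 T 1) by group] at e
    rw [← A.inj e] at hc
    simp [mem_sA7, x2] at hc
  have v7 : v.a7 = 0 := by simpa [v4, v3] using q4
  obtain ⟨a1, a2, a3, a4, a5, a6, a7⟩ := ha
  have e1 : x7 T 1 * x2 T 1 = x4 T 1 * (x2 T 1 * x7 T 1) := by ext <;> simp [x2, x4, x7]
  have e2 : a * v = x4 T (a.a7 * v.a2) * (v * a) := by
    ext <;> simp [x4, *] <;> grind
  intro e
  have e3 := congrArg (fun z => k * A.ι z * k⁻¹) e1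
  simp only [map_mul] at e3
  rw [← conj_mul, ← conj_mul, ← conj_mul, ev, ea, show A.ι (x4 T 1) = A.τ from rfl, e, ← map_mul,
    ← map_mul, ← map_mul, e2] at e3
  simpa [x4, x6] using congrArg Co.a6 (mul_right_cancel (A.inj e3))

end H4.Pa
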