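import Cfsg.Agent.H4.PaE1

/-! Parrott's theorem, slot E: `C(x₅(1)) ≤ N(W)`. -/

set_option autoImplicit false
set_option linter.unusedSectionVars false
set_option linter.unusedSimpArgs false

namespace H4.Pa

open Subgroup H63.Oc

/-- In a dihedral group of order `4m` with central involution `c`. -/
theorem dih_even {G : Type*} [Group G] [Finite G] {x y : G} (hx : x * x = 1) (hy : y * y = 1)
    (h : ¬ Odd (orderOf (x * y))) : ∃ c r : G, c ≠ 1 ∧ c * c = 1 ∧ c * x = x * c ∧ c * y = y * c ∧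
      r ∈ zpowers (x * y) ∧ (x * c = r * y * r⁻¹ ∨ (x * c = r * x * r⁻¹ ∧ y * c = r * y * r⁻¹)) := by
  obtain ⟨h1, h2, h3⟩ := H83.half_pow_spec hx hy (orderOf_pos _).ne' (Nat.not_odd_iff_even.1 h)
  have i1 := H83.left_inverts_mul hx hy
  have i2 := H83.right_inverts_mul hx hy
  generalize orderOf (x * y) / 2 = m at h1 h2 h3
  refine ⟨(x * y) ^ m, (x * y) ^ (-((m / 2 : ℕ) : ℤ)), H83.ne_one_of_orderOf_two h1,
    H83.mul_self_of_orderOf_two h1, h2, h3, zpow_mem (mem_zpowers _) _, ?_⟩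
  rw [H83.zpow_conj_of_inverts i1, H83.zpow_conj_of_inverts i2, ← zpow_natCast]
  rcases Nat.even_or_odd' m with ⟨k, rfl | rfl⟩
  · have : -2 * -((2 * k / 2 : ℕ) : ℤ) = (2 * k : ℕ) := by omega
    rw [this]
    exact .inr ⟨rfl, rfl⟩
  · have : ((2 * k + 1 : ℕ) : ℤ) = 1 + -2 * -(((2 * k + 1) / 2 : ℕ) : ℤ) := by omega
    rw [this, zpow_add, zpow_one, ← mul_assoc, ← mul_assoc, hx, one_mul]
    exact .inl rfl

variable {K : Type*} [Field K] [Finite K] [CharP K 2] {T : TF K} {G : Type*} [Group G] [Finite G]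

/-- the class of `τ` in `C(x₅(1))` -/
def InD (A : AD T G) (d : G) : Prop :=
  ∃ x ∈ centralizer ({A.ι (x5 T 1)} : Set G), d = x * A.τ * x⁻¹

theorem mem_X {A : AD T G} {x : G} : x ∈ centralizer ({A.ι (x5 T 1)} : Set G) ↔
    x * A.ι (x5 T 1) * x⁻¹ = A.ι (x5 T 1) := by
  rw [mem_centralizer_singleton_iff, mul_inv_eq_iff_eq_mul]

theorem τ_sq (D : CS T G) : D.τ * D.τ = 1 := by
  rw [CS.τ, ← map_mul, ← map_one D.ι]
  congr 1
  ext <;> simp [x4, CharTwo.add_self_eq_zero]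

theorem τ_ne (D : CS T G) : D.τ ≠ 1 := fun e => by
  rw [CS.τ, ← map_one D.ι] at e
  simpa [x4] using congrArg Co.a4 (D.inj e)

theorem W_comm {D : CS T G} {a b : G} (ha : a ∈ D.im (sW T)) (hb : b ∈ D.im (sW T)) :
    a * b = b * a := by
  obtain ⟨c, hc, rfl⟩ := ha
  obtain ⟨d, hd, rfl⟩ := hb
  rw [← map_mul, ← map_mul]
  congr 1
  obtain ⟨g1, g2, g3, g4, g5, g6, g7, g8, g9, g10⟩ := hc
  obtain ⟨h1, h2, h3, h4, h5, h6, h7, h8, h9, h10⟩ := hd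
  ext <;> simp [add_comm, *]

theorem τ_W (D : CS T G) : D.τ ∈ D.im (sW T) := ⟨_, by simp [mem_sW, x4], rfl⟩

variable {A : AD T G}

theorem τ_X : A.τ ∈ centralizer ({A.ι (x5 T 1)} : Set G) := by
  rw [mem_centralizer_singleton_iff, CS.τ, ← map_mul, ← map_mul]
  congr 1
  ext <;> simp [x4, x5]

theorem InD.conj {d x : G} (h : InD A d) (hx : x ∈ centralizer ({A.ι (x5 T 1)} : Set G)) :
    InD A (x * d * x⁻¹) := by
  obtain ⟨y, hy, rfl⟩ := h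
  exact ⟨x * y, mul_mem hx hy, (conj_mul' _ _ _).symm⟩

theorem InD.mem {d : G} (h : InD A d) : d ∈ centralizer ({A.ι (x5 T 1)} : Set G) := by
  obtain ⟨y, hy, rfl⟩ := h
  exact mul_mem (mul_mem hy τ_X) (inv_mem hy)

theorem InD.sq {d : G} (h : InD A d) : d * d = 1 := by
  obtain ⟨y, -, rfl⟩ := h
  rw [conj_mul, τ_sq, mul_one, mul_inv_cancel]

theorem InD.ne {d : G} (h : InD A d) : d ≠ 1 := by
  obtain ⟨y, -, rfl⟩ := h
  exact fun e => τ_ne _ (conj_eq_one_iff.1 e)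

theorem trans_W' {w : G} (hw : w ∈ A.im (sW T)) (h1 : w ≠ 1) :
    ∃ m ∈ centralizer ({A.ι (x5 T 1)} : Set G), m ∈ normalizer (A.im (sW T) : Set G) ∧
      m * A.τ * m⁻¹ = w := by
  obtain ⟨c, hc, rfl⟩ := hw
  obtain ⟨m, m1, m2, m3⟩ := trans_W A hc fun e => h1 (by rw [e, map_one])
  exact ⟨m, mem_X.2 m1, m2, m3⟩

theorem inD_of_W {w : G} (hw : w ∈ A.im (sW T)) (h1 : w ≠ 1) : InD A w :=
  let ⟨m, m1, _, m3⟩ := trans_W' hw h1
  ⟨m, m1, m3.symm⟩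

variable (L : Loc A.toCS)
include L

theorem InD.of_comm {d w : G} (h : InD A d) (hw : w ∈ A.im (sW T)) (h1 : w ≠ 1)
    (hc : d * w = w * d) : d ∈ A.im (sW T) := by
  obtain ⟨m, m1, m2, rfl⟩ := trans_W' hw h1
  obtain ⟨x, hx, e⟩ := h.conj (inv_mem m1)
  have h2 := key L (mem_X.1 hx) (by
    rw [← e]
    calc m⁻¹ * d * m⁻¹⁻¹ * A.τ = m⁻¹ * (d * (m * A.τ * m⁻¹)) * m := by group
      _ = A.τ * (m⁻¹ * d * m⁻¹⁻¹) := by rw [hc]; group)
  rw [← e] at h2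
  exact (mem_normalizer_iff.1 (inv_mem m2) d).2 h2

theorem nor_of_W {x : G} (hx : x ∈ centralizer ({A.ι (x5 T 1)} : Set G))
    (h : x * A.τ * x⁻¹ ∈ A.im (sW T)) : x ∈ normalizer (A.im (sW T) : Set G) := by
  refine mem_normalizer_fintype fun w hw => ?_
  by_cases h1 : w = 1
  · rw [h1, mul_one, mul_inv_cancel]; exact one_mem _
  exact ((inD_of_W hw h1).conj hx).of_comm L h (fun e => τ_ne _ (conj_eq_one_iff.1 e)) (by
    rw [conj_mul, conj_mul, W_comm hw (τ_W _)])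

theorem InD.mul {d e : G} (hd : InD A d) (he : InD A e) (hc : d * e = e * d) (h1 : d * e ≠ 1) :
    InD A (d * e) := by
  obtain ⟨x, hx, rfl⟩ := he
  have h2 := (hd.conj (inv_mem hx)).of_comm L (τ_W _) (τ_ne _) (by
    calc x⁻¹ * d * x⁻¹⁻¹ * A.τ = x⁻¹ * (d * (x * A.τ * x⁻¹)) * x := by group
      _ = A.τ * (x⁻¹ * d * x⁻¹⁻¹) := by rw [hc]; group)
  have h3 := (inD_of_W (mul_mem h2 (τ_W _)) fun e => h1 (by
    rw [← conj_eq_one_iff (a := x)] at e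
    rw [← e]; group)).conj hx
  convert h3 using 1
  group

theorem InD.odd {d w : G} (hd : InD A d) (hd' : d ∉ A.im (sW T)) (hw : w ∈ A.im (sW T))
    (h1 : w ≠ 1) : Odd (orderOf (w * d)) := by
  by_contra h
  have hw' := inD_of_W hw h1
  obtain ⟨c, r, c1, -, c3, c4, hr, h2⟩ := dih_even hw'.sq hd.sq h
  have hr' := zpowers_le.2 (mul_mem hw'.mem hd.mem) hr
  have h3 : InD A (w * c) := by
    rcases h2 with e | ⟨e, -⟩ <;> rw [e]
    · exact hd.conj hr'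
    · exact hw'.conj hr'
  have h4 := mul_mem (inv_mem hw) (h3.of_comm L hw h1 (by rw [mul_assoc, c3]))
  rw [inv_mul_cancel_left] at h4
  exact hd' (hd.of_comm L h4 c1 c4.symm)

theorem exists_fix {d : G} (hd : InD A d) (hd' : d ∉ A.im (sW T)) :
    ∃ w ∈ sW T, ∃ e, InD A e ∧ e ∉ A.im (sW T) ∧
      A.ι (x3 T 1 * w) * e = e * A.ι (x3 T 1 * w) := by
  have a2 : A.ι (x3 T 1) * A.ι (x3 T 1) = 1 := by
    rw [← map_mul, ← map_one A.ι]
    congr 1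
    ext <;> simp [x3, CharTwo.add_self_eq_zero]
  have aX : A.ι (x3 T 1) ∈ centralizer ({A.ι (x5 T 1)} : Set G) := by
    rw [mem_centralizer_singleton_iff, ← map_mul, ← map_mul]
    congr 1
    ext <;> simp [x3, x5]
  obtain ⟨c, r, c1, c2, c3, c4, hr, h2⟩ := dih_even a2 hd.sq fun h => by
    obtain ⟨g, hg⟩ := isConj_iff.1 (H83.isConj_of_odd_orderOf_mul a2 hd.sq h)
    obtain ⟨x, -, rfl⟩ := hd
    refine not_conj L (g := A.n8 * g⁻¹ * x) ?_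
    rw [conj_mul', ← hg, conj_mul', ← nu8_x3, ← n8_c _ ⟨rfl, rfl⟩]
    group
  have hr' := zpowers_le.2 (mul_mem aX hd.mem) hr
  rcases h2 with e | ⟨-, e⟩
  · have h3 : InD A (A.ι (x3 T 1) * c) := e ▸ hd.conj hr'
    by_cases h4 : A.ι (x3 T 1) * c ∈ A.im (sW T)
    · obtain ⟨w, hw, e'⟩ := h4
      refine ⟨w, hw, d, hd, hd', ?_⟩
      rw [map_mul, e', ← mul_assoc (A.ι _), a2, one_mul, c4]
    · exact ⟨1, one_mem _, _, h3, h4, by rw [mul_one, mul_assoc, c3]⟩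
  · have h3 := hd.mul L (e ▸ hd.conj hr' : InD A (d * c)) (by rw [mul_assoc, c4]) (by
      rwa [← mul_assoc, hd.sq, one_mul])
    rw [← mul_assoc, hd.sq, one_mul] at h3
    exact ⟨1, one_mem _, c, h3, fun h => hd' (hd.of_comm L h c1 c4.symm), by rw [mul_one, c3]⟩

theorem ce : CE A.toCS := fun x hx => by
  by_contra hn
  have hx' := mem_centralizer_singleton_iff.2 hx
  obtain ⟨w, hw, d, hd, hd', hc⟩ := exists_fix L ⟨x, hx', rfl⟩ fun h => hn (nor_of_W L hx' h)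
  have h6 : A.ι (x6 T 1) ∈ A.im (sW T) := ⟨_, by simp [mem_sW, x6], rfl⟩
  have h6' : A.ι (x6 T 1) ≠ 1 := fun e => by
    rw [← map_one A.ι] at e
    simpa [x6] using congrArg Co.a6 (A.inj e)
  have k : ∀ u ∈ A.im (sW T), u ≠ 1 → ∃ k ∈ centralizer ({A.ι (x5 T 1)} : Set G) ⊓
      centralizer ({A.ι (x3 T 1 * w)} : Set G), k * u * k⁻¹ = d := fun u hu u1 => by
    obtain ⟨n, hn⟩ := H83.exists_zpow_conj_of_odd (inD_of_W hu u1).sq hd.sq (hd.odd L hd' hu u1)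
    refine ⟨_, zpow_mem (mul_mem (mem_inf.2 ⟨(inD_of_W hu u1).mem, ?_⟩) (mem_inf.2 ⟨hd.mem,
      mem_centralizer_singleton_iff.2 hc.symm⟩)) n, hn⟩
    obtain ⟨c, hc, rfl⟩ := hu
    rw [mem_centralizer_singleton_iff, ← map_mul, ← map_mul]
    congr 1
    obtain ⟨g1, g2, g3, g4, g5, g6, g7, g8, g9, g10⟩ := hc
    obtain ⟨h1, h2, h3, h4, h5, h6, h7, h8, h9, h10⟩ := hw
    ext <;> simp [x3, add_comm, *]
  obtain ⟨k1, a1, e1⟩ := k _ (τ_W _) (τ_ne _)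
  obtain ⟨k2, a2, e2⟩ := k _ h6 h6'
  have a3 := mul_mem (inv_mem a2) a1
  have e3 : k2⁻¹ * k1 * A.τ * (k2⁻¹ * k1)⁻¹ = A.ι (x6 T 1) := by
    rw [conj_mul', e1, ← e2]; group
  exact fin L (nor_of_W L a3.1 (e3 ▸ h6)) (mem_X.1 a3.1) hw
    (conj_of_comm (mem_centralizer_singleton_iff.1 a3.2)) e3

end H4.Pa

namespace H4.Pa

universe u v

theorem jobE : H63.Oc.JobE.{u, v} := fun _ _ _ _ _ _ _ _ _ L => ce L

end H4.Pa
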