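import Cfsg.Agent.H42.PnSpec

/-! PN tower, slot QUO: the quotient by the points that no block separates. -/

set_option autoImplicit false
set_option linter.unusedSectionVars false

namespace H4.PnQuo

open Equiv MulAction Pointwise H2.Ln H42.PN

theorem pro_sub {Γ : Type} [Group Γ] {H K : Subgroup Γ} (hK : K ≤ H) (h : Pro H K) :
    Pro ⊤ (K.subgroupOf H) := fun g _ => by
  obtain ⟨w, hw, e⟩ := h g g.2
  have : K ⊔ cj K g ≤ (K.subgroupOf H ⊔ cj (K.subgroupOf H) g).map H.subtype :=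
    sup_le (fun k hk => ⟨⟨k, hK hk⟩, Subgroup.mem_sup_left hk, rfl⟩) (by
      rintro _ ⟨k, hk, rfl⟩
      exact ⟨_, Subgroup.mem_sup_right ⟨⟨k, hK hk⟩, hk, rfl⟩, rfl⟩)
  obtain ⟨w, hw', rfl⟩ := this hw
  refine ⟨w, hw', Subgroup.ext fun x => ?_⟩
  have := SetLike.ext_iff.1 e x.1
  rw [mem_cj, mem_cj] at this ⊢
  exact this

variable {α : Type} [Fintype α] [DecidableEq α] (H K : Subgroup (Perm α)) (Δ : Finset α)

open Classical in
/-- the class of `u` -/
noncomputable def cls (u : α) : Finset α := Δ.filter fun v => ∀ g ∈ H, (u ∈ g • fp K ↔ v ∈ g • fp K)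

variable {H K Δ}

theorem mem_cls {u v : α} :
    v ∈ cls H K Δ u ↔ v ∈ Δ ∧ ∀ g ∈ H, (u ∈ g • fp K ↔ v ∈ g • fp K) := by simp [cls]

theorem self_cls {u : α} (hu : u ∈ Δ) : u ∈ cls H K Δ u := mem_cls.2 ⟨hu, fun _ _ => Iff.rfl⟩

theorem fib {v : α} : Δ.filter (fun u => cls H K Δ u = cls H K Δ v) = cls H K Δ v := by
  ext u
  rw [Finset.mem_filter]
  refine ⟨fun h => h.2 ▸ self_cls h.1, fun h => ⟨(mem_cls.1 h).1, Finset.ext fun x => ?_⟩⟩
  rw [mem_cls, mem_cls]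
  exact and_congr_right fun _ => forall₂_congr fun g hg => by rw [(mem_cls.1 h).2 g hg]

theorem sm_cls (s : Sit H K Δ) {h : Perm α} (hh : h ∈ H) (u : α) :
    h • cls H K Δ u = cls H K Δ (h u) := by
  ext v
  rw [mem_sm, mem_cls, mem_cls]
  refine and_congr ⟨fun k => by simpa using s.inv h hh _ k, s.inv _ (H.inv_mem hh) _⟩
    ⟨fun k g hg => ?_, fun k g hg => ?_⟩
  · simpa [mem_sm] using k _ (H.mul_mem (H.inv_mem hh) hg)
  · simpa [mem_sm] using k _ (H.mul_mem hh hg)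

theorem rel (s : Sit H K Δ) {a b : α} (ha : a ∈ Δ) (haF : a ∈ fp K) (hb : b ∈ Δ)
    (ho : orb (fx H {a}) b ⊆ fp K) : b ∈ cls H K Δ a := by
  have k : (el H).filter (fun g => a ∈ g • fp K) ⊆ (el H).filter fun g => b ∈ g • fp K := fun g hg => by
    rw [Finset.mem_filter] at hg ⊢
    obtain ⟨w, hw, h1, e⟩ := s.pro.ex_fix s.le (mem_el.1 hg.1)
    refine ⟨hg.1, e ▸ mem_sm.2 (ho (mem_orb.2 ⟨w⁻¹, (fx H {a}).inv_mem (mem_fx.2 ⟨hw, ?_⟩), rfl⟩))⟩
    simpa using h1 a haF hg.2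
  obtain ⟨h, hh, rfl⟩ := s.tr a ha b hb
  have e := Finset.eq_of_subset_of_card_le k (Finset.card_le_card_of_injOn (fun g => h⁻¹ * g)
    (fun g hg => by
      rw [Finset.mem_coe, Finset.mem_filter, mem_el] at hg ⊢
      exact ⟨H.mul_mem (H.inv_mem hh) hg.1, by simpa [mem_sm] using hg.2⟩)
    fun g _ g' _ e => mul_left_cancel e)
  refine mem_cls.2 ⟨hb, fun g hg => ?_⟩
  simpa [mem_el, hg] using Finset.ext_iff.1 e g

theorem jobQuo : QuoJ := by
  intro N ih α _ _ H K Δ s hN a ha haF b hb ne ho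
  classical
  have mo : ∀ u ∈ Δ, cls H K Δ u ∈ orbit H (cls H K Δ a) := fun u hu => by
    obtain ⟨g, hg, rfl⟩ := s.tr a ha u hu
    exact ⟨⟨g, hg⟩, sm_cls s hg a⟩
  have oc : ∀ C ∈ orbit H (cls H K Δ a), (Δ.filter fun u => cls H K Δ u = C).card =
      (cls H K Δ a).card := by
    rintro _ ⟨g, rfl⟩
    have e : g • cls H K Δ a = cls H K Δ (g.1 a) := sm_cls s g.2 a
    simp only [e, fib]
    rw [← e]; exact Finset.card_smul_finset g.1 _
  have c2 : 2 ≤ (cls H K Δ a).card :=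
    Finset.one_lt_card.2 ⟨b, rel s ha haF hb ho, a, self_cls ha, ne⟩
  have k1 := Finset.mul_card_image_le_card_of_maps_to (s := Δ) (t := (orbit H (cls H K Δ a)).toFinset)
    (fun u hu => Set.mem_toFinset.2 (mo u hu)) _ fun C hC => (oc C (Set.mem_toFinset.1 hC)).ge
  rw [Set.toFinset_card] at k1
  have p : 0 < Fintype.card (orbit H (cls H K Δ a)) := Fintype.card_pos_iff.2 ⟨⟨_, mo a ha⟩⟩
  have k2 := ih H (orbit H (cls H K Δ a)) (K.subgroupOf H) (by nlinarith) inferInstance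
    (pro_sub s.le s.pro) (by
      by_contra! k
      obtain ⟨u, hu, huF⟩ := s.mv
      obtain ⟨g, hg, rfl⟩ := s.tr a ha u hu
      obtain ⟨w, hw, e⟩ := s.pro.ex hg
      have k' : ∀ x ∈ K, ∀ C ∈ orbit H (cls H K Δ a), x • C = C := fun x hx C hC =>
        congrArg Subtype.val (k ⟨x, s.le hx⟩ hx ⟨C, hC⟩)
      have h1 := hw (stabilizer _ (cls H K Δ (g a))) (fun x hx => k' x hx _ (mo _ hu)) fun x hx => by
        have := k' _ (mem_cj.1 hx) _ (mo a ha)
        rw [mem_stabilizer_iff, ← sm_cls s hg, ← mul_smul]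
        rwa [mul_assoc, mul_smul, inv_smul_eq_iff] at this
      have h2 : g a ∈ w • cls H K Δ (g a) := (mem_stabilizer_iff.1 h1).symm ▸ self_cls hu
      have h3 := (mem_cls.1 (mem_sm.1 h2)).2 1 H.one_mem
      rw [one_smul, ← mem_sm, e, app_mem_sm] at h3
      exact huF (h3.2 haF))
  have k3 := Finset.card_le_mul_card_image_of_maps_to (s := Δ ∩ fp K)
    (t := Finset.univ.image fun C : {C : orbit H (cls H K Δ a) // ∀ k ∈ K.subgroupOf H, k • C = C} =>
      C.1.1) (f := cls H K Δ) (fun u hu => by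
      rw [Finset.mem_inter] at hu
      exact Finset.mem_image.2 ⟨⟨⟨_, mo u hu.1⟩, fun k hk => Subtype.ext
        ((sm_cls s k.2 u).trans (by rw [mem_fp.1 hu.2 k.1 hk]))⟩, Finset.mem_univ _, rfl⟩) _
    fun C hC => by
      obtain ⟨C, -, rfl⟩ := Finset.mem_image.1 hC
      exact (Finset.card_le_card (Finset.filter_subset_filter _ Finset.inter_subset_left)).trans
        (oc _ C.1.2).le
  have k4 := k3.trans (Nat.mul_le_mul_left _ Finset.card_image_le)
  rw [Finset.card_univ, ← Nat.card_eq_fintype_card] at k4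
  nlinarith

end H4.PnQuo
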