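import Cfsg.Agent.H52.RCSpec

/-! S3860, tower RC, job R0: the hypothesis passes to quotients by normal subgroups of odd order. -/

set_option autoImplicit false

namespace H4.RcR0

open Subgroup H52.RC

universe u

section
variable {G : Type u} [Group G]

/-- conjugation, possibly after inversion -/
def tw (a : G × ℤˣ) (y : G) : G := a.1 * y ^ (a.2 : ℤ) * a.1⁻¹

theorem tw_one (y : G) : tw 1 y = y := by simp [tw]

theorem tw_mul (a b : G × ℤˣ) (y : G) : tw (a * b) y = tw a (tw b y) := by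
  simp only [tw, Prod.fst_mul, Prod.snd_mul, Units.val_mul, conj_zpow, ← zpow_mul]
  rw [mul_comm (b.2 : ℤ)]; group

theorem map_tw {X : Type u} [Group X] (f : G →* X) (a : G × ℤˣ) (y : G) :
    f (tw a y) = tw (f a.1, a.2) (f y) := by simp [tw]

theorem inv_odd {g x : G} (h : Inv g x) {k : ℕ} (hk : Odd k) : Inv (g ^ k) x := by
  obtain ⟨j, rfl⟩ := hk
  unfold H52.RC.Inv at *
  have h2 : g * x⁻¹ * g⁻¹ = x := by
    calc g * x⁻¹ * g⁻¹ = (g * x * g⁻¹)⁻¹ := by group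
      _ = x := by rw [h, inv_inv]
  induction j with
  | zero => simpa using h
  | succ j ih =>
    calc g ^ (2 * (j + 1) + 1) * x * (g ^ (2 * (j + 1) + 1))⁻¹
        = g * (g * (g ^ (2 * j + 1) * x * (g ^ (2 * j + 1))⁻¹) * g⁻¹) * g⁻¹ := by group
      _ = x⁻¹ := by rw [ih, h2, h]

theorem conj_C1 {g h x : G} (hg : g ∈ Cs x) (hh : h ∈ C1 x) : g * h * g⁻¹ ∈ C1 x := by
  rw [mem_C1] at *
  have h1 : Commute h (g⁻¹ * x * g⁻¹⁻¹) := by
    rcases mem_Cs.1 (inv_mem hg) with e | e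
    · rw [e]; exact hh
    · rw [show g⁻¹ * x * g⁻¹⁻¹ = x⁻¹ from e]; exact hh.inv_right
  calc g * h * g⁻¹ * x = g * (h * (g⁻¹ * x * g⁻¹⁻¹)) * g⁻¹ := by group
    _ = g * ((g⁻¹ * x * g⁻¹⁻¹) * h) * g⁻¹ := by rw [h1.eq]
    _ = x * (g * h * g⁻¹) := by group

/-- a common fixed point in the fibre -/
theorem exists_fix [Finite G] (N : Subgroup G) [N.Normal] (hN : Odd (Nat.card N)) (Q : Subgroup G)
    (hQ : IsPGroup 2 Q) (y₀ : G) : ∃ y : G, QuotientGroup.mk' N y = QuotientGroup.mk' N y₀ ∧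
      ∀ q ∈ Q, ∀ e : ℤˣ, tw (QuotientGroup.mk' N q, e) (QuotientGroup.mk' N y₀) =
        QuotientGroup.mk' N y₀ → tw (q, e) y = y := by
  set π := QuotientGroup.mk' N with hπ
  let ρ : G × ℤˣ →* (G ⧸ N) × ℤˣ := π.prodMap (MonoidHom.id _)
  let P : Subgroup (G × ℤˣ) :=
    { carrier := {a | a.1 ∈ Q ∧ tw (ρ a) (π y₀) = π y₀}
      one_mem' := ⟨one_mem Q, by rw [map_one, tw_one]⟩
      mul_mem' := fun {a b} ha hb => ⟨mul_mem ha.1 hb.1, by rw [map_mul, tw_mul, hb.2, ha.2]⟩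
      inv_mem' := fun {a} ha => ⟨inv_mem ha.1, by
        conv_lhs => rw [← ha.2, ← tw_mul, ← map_mul, inv_mul_cancel, map_one, tw_one]⟩ }
  have hP : IsPGroup 2 P := fun a => by
    obtain ⟨k, hk⟩ := hQ ⟨a.1.1, a.2.1⟩
    refine ⟨k + 1, Subtype.ext (Prod.ext ?_ ?_)⟩
    · have h1 : a.1.1 ^ 2 ^ k = 1 := congrArg Subtype.val hk
      change a.1.1 ^ 2 ^ (k + 1) = 1
      rw [pow_succ, pow_mul, h1, one_pow]
    · change a.1.2 ^ 2 ^ (k + 1) = 1
      rw [pow_succ', pow_mul, Int.units_sq, one_pow]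
  letI : MulAction P (π ⁻¹' {π y₀}) :=
    { smul := fun a y => ⟨tw a.1 y.1, by
        have h1 : π y.1 = π y₀ := y.2
        change π _ = π y₀
        rw [map_tw, h1]; exact a.2.2⟩
      one_smul := fun y => Subtype.ext (tw_one y.1)
      mul_smul := fun a b y => Subtype.ext (tw_mul a.1 b.1 y.1) }
  haveI : Fact (Nat.Prime 2) := ⟨Nat.prime_two⟩
  have hc : Nat.card (π ⁻¹' {π y₀}) = Nat.card N := by
    rw [Nat.card_congr (π.fiberEquivKer y₀), hπ, QuotientGroup.ker_mk']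
  obtain ⟨y, hy⟩ := hP.nonempty_fixed_point_of_prime_not_dvd_card (π ⁻¹' {π y₀})
    (by rw [hc]; exact hN.not_two_dvd_nat)
  exact ⟨y.1, y.2, fun q hq e h => congrArg Subtype.val (hy ⟨(q, e), hq, h⟩)⟩

theorem v2_comap [Finite G] (N : Subgroup G) [N.Normal] (hN : Odd (Nat.card N))
    (K : Subgroup (G ⧸ N)) : v2 (K.comap (QuotientGroup.mk' N)) = v2 K := by
  have h : Nat.card (K.comap (QuotientGroup.mk' N)) = Nat.card N * Nat.card K :=
    QuotientGroup.card_preimage_mk N (K : Set (G ⧸ N))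
  rw [v2, v2, h, Nat.factorization_mul Nat.card_pos.ne' Nat.card_pos.ne', Finsupp.add_apply,
    Nat.factorization_eq_zero_of_not_dvd hN.not_two_dvd_nat, zero_add]

end

theorem jobR0 : JobR0.{u} := by
  intro ka G _ _ m N _ hN hH x hx hxc
  obtain ⟨-, k2, -, -, k5, -, k7, k8, k9⟩ := ka G
  obtain ⟨y₀, rfl⟩ := QuotientGroup.mk'_surjective N x
  obtain ⟨g', hg⟩ := hx
  obtain ⟨g, rfl⟩ := QuotientGroup.mk'_surjective N g'
  set π := QuotientGroup.mk' N with hπ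
  obtain ⟨k, hk, hs, -⟩ := k2 g
  have hsi : Inv (π (g ^ k)) (π y₀) := by rw [map_pow]; exact inv_odd hg hk
  set s := g ^ k
  have hz : IsPGroup 2 (zpowers s) := (k5 _).2 fun t ht => by
    obtain ⟨n, rfl⟩ := mem_powers_iff_mem_zpowers.2 ht
    exact hs.pow n
  obtain ⟨Q, hsQ, hQ, -⟩ := k7 ((Cs (π y₀)).comap π) (zpowers s) hz
    (zpowers_le.2 (mem_Cs.2 (Or.inr hsi)))
  have hCA : (C1 (π y₀)).comap π ≤ (Cs (π y₀)).comap π := fun h hh =>
    mem_Cs.2 (Or.inl (by rw [(mem_C1.1 hh).eq]; group))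
  have hcj : ∀ a ∈ (Cs (π y₀)).comap π, ∀ h ∈ (C1 (π y₀)).comap π,
      a * h * a⁻¹ ∈ (C1 (π y₀)).comap π := fun a ha h hh => by
    rw [mem_comap, map_mul, map_mul, map_inv]; exact conj_C1 ha hh
  have hno : (Cs (π y₀)).comap π ≤ normalizer ((C1 (π y₀)).comap π : Set G) := fun a ha =>
    mem_normalizer_iff.2 fun h => ⟨hcj a ha h, fun hh => by
      have := hcj a⁻¹ (inv_mem ha) _ hh
      simpa [mul_assoc] using this⟩
  have hQ0 := (k8 _ _ hQ).2.1 _ hno hCA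
  have hcard := (k8 _ _ hQ0).1
  obtain ⟨y, hy, hfix⟩ := exists_fix N hN Q hQ.2.1 y₀
  have hre : Re y := by
    have h1 := hfix s (hsQ (mem_zpowers s)) (-1) (by
      have e : π s * π y₀ * (π s)⁻¹ = (π y₀)⁻¹ := hsi
      change π s * π y₀ ^ (-1 : ℤ) * (π s)⁻¹ = π y₀
      calc π s * π y₀ ^ (-1 : ℤ) * (π s)⁻¹ = (π s * π y₀ * (π s)⁻¹)⁻¹ := by group
        _ = π y₀ := by rw [e, inv_inv])
    have h2 : s * y ^ (-1 : ℤ) * s⁻¹ = y := h1
    refine ⟨s, ?_⟩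
    change s * y * s⁻¹ = y⁻¹
    calc s * y * s⁻¹ = (s * y ^ (-1 : ℤ) * s⁻¹)⁻¹ := by group
      _ = y⁻¹ := by rw [h2]
  have hyc : y ∉ center G := fun h => hxc (by
    rw [← hy, mem_center_iff]
    intro a
    obtain ⟨b, rfl⟩ := QuotientGroup.mk'_surjective N a
    rw [← map_mul, ← map_mul, mem_center_iff.1 h b])
  have hm := hH y hre hyc
  have h1 : Q ⊓ (C1 (π y₀)).comap π ≤ C1 y := fun q hq => by
    have h2 := hfix q hq.1 1 (by
      change π q * π y₀ ^ (1 : ℤ) * (π q)⁻¹ = π y₀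
      rw [zpow_one, (mem_C1.1 hq.2).eq]; group)
    have h3 : q * y ^ (1 : ℤ) * q⁻¹ = y := h2
    rw [zpow_one] at h3
    rw [mem_C1]
    calc q * y = q * y * q⁻¹ * q := by group
      _ = y * q := by rw [h3]
  have h2 : C1 y ≤ (C1 (π y₀)).comap π := fun c hc => by
    rw [mem_comap, ← hy, mem_C1]; exact (mem_C1.1 hc).map π
  have h3 := (k9 _ _ hQ0.2.1 h1).1
  rw [hcard, Nat.pow_le_pow_iff_right (by norm_num)] at h3
  have h4 : v2 (C1 y) ≤ v2 ((C1 (π y₀)).comap π) :=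
    (Nat.factorization_le_iff_dvd Nat.card_pos.ne' Nat.card_pos.ne').2 (card_dvd_of_le h2) 2
  rw [← v2_comap N hN, ← hm]
  exact le_antisymm h3 h4

end H4.RcR0
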