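import Cfsg.Agent.H30.SQSpec

/-! SQ tower, slot C1. -/

set_option autoImplicit false

namespace H4.SQC1

open Subgroup H30.SQ

universe u

variable {G : Type u} [Group G] {T A U : Subgroup G} {n : ℕ} {w x m : G}

theorem cj {H : Subgroup G} {g y : G} (hg : g ∈ normalizer (H : Set G)) (hy : y ∈ H) :
    g * y * g⁻¹ ∈ H := (mem_normalizer_iff.1 hg y).1 hy

theorem cj' {H : Subgroup G} {g y : G} (hg : g ∈ normalizer (H : Set G)) (hy : y ∈ H) :
    g⁻¹ * y * g ∈ H := by simpa using cj (inv_mem hg) hy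

theorem comm_cj {a b : G} (g : G) : Commute (g * a * g⁻¹) (g * b * g⁻¹) ↔ Commute a b := by
  simp only [commute_iff_eq, conj_mul, mul_left_inj, mul_right_inj]

theorem Br.norm (h : Br T w) {s g : G} (hs : s ∈ T) (hg : g ∈ T) (c : Commute s w) :
    Commute (g * s * g⁻¹) w := by
  rcases h.2 _ (mul_mem hg hs) _ (inv_mem hg) with k | k | k
  · have k' : Commute g w := by simpa using k.mul_left c.inv_left
    exact k.mul_left k'.inv_left
  · exact ((Commute.inv_left_iff.1 k).mul_left c).mul_left k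
  · exact k

variable [Finite G]

theorem v1 (H : Hy T n) (S : SE T A U) {L : Subgroup G} (h1 : T ⊓ normalizer (U : Set G) ≤ L)
    (h2 : L ≤ normalizer (U : Set G)) {g r : G} (hg : g ∈ L) (g2 : x * g * x⁻¹ ∈ T)
    (hr : ∀ h ∈ L, h * r * h⁻¹ ∈ A) : Commute g r := by
  obtain ⟨k, e⟩ := H.ev
  have e1 : g ^ 2 ^ (k + 1 + 1) = 1 := by
    have := H.ex _ g2
    rwa [conj_pow, mul_inv_eq_one, mul_eq_left, e, ← pow_succ'] at this
  obtain ⟨h, hh, e2⟩ := syl_conj h1 (H.pg.to_le inf_le_left)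
    (fun k => S.syl (k.trans (Dvd.intro _ (relIndex_mul_relIndex _ _ _ h1 h2))))
    (Q := zpowers g) (IsPGroup.iff_card.2 (by
      rw [Nat.card_zpowers]
      exact ((Nat.dvd_prime_pow Nat.prime_two).1 (orderOf_dvd_of_pow_eq_one e1)).imp fun _ => And.right))
    (zpowers_le.2 hg)
  exact (comm_cj h).1 ((S.Ac _ (hr h hh)).1.2 _ (e2 g (mem_zpowers g)).1)

omit [Finite G] in
theorem nc (S : SE T A U) {a : G} (ha : a ∈ A) (hx : x ∈ normalizer (U : Set G))
    (ax : x * a * x⁻¹ ∉ A) (mT : x * m * x⁻¹ ∈ T) (c : Commute m a) : m ∈ U :=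
  (mem_normalizer_iff.1 hx m).2 (S.K _ (cj hx (S.ZU a (S.Ac a ha).1)) (fun u hu => by
    have := (comm_cj x).2 ((S.Ac a ha).1.2 _ (S.UT (cj' hx hu)))
    rwa [show x * (x⁻¹ * u * x) * x⁻¹ = u by group] at this)
    ⟨a, ha, isConj_iff.2 ⟨x, rfl⟩⟩ ax _ mT ((comm_cj x).2 c))

omit [Finite G] in
/-- the top power of `w'` is central -/
theorem cen' (H : Hy T n) (b : Br T w) {w' : G} (h' : w' ∈ T) (c1 : Commute (w * w) w')
    (e : (w * w') ^ n = 1) : Cen T (w' ^ n) := by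
  obtain ⟨c, hc⟩ : ∃ c, w' * w * w'⁻¹ = w * c := ⟨w⁻¹ * (w' * w * w'⁻¹), by group⟩
  have ec : c = w⁻¹ * (w' * w * w'⁻¹) := by rw [hc, inv_mul_cancel_left]
  have c2 := b.sq h'
  have c3 : Commute w c := ec ▸ (Commute.refl w).inv_right.mul_right (b.conj h')
  have c4 : c * c = 1 := by
    have : w * c * (w * c) = w * w := by rw [← hc, conj_mul, ← c1.eq, mul_inv_cancel_right]
    rwa [mul_assoc, ← mul_assoc c, ← c3.eq, mul_assoc, ← mul_assoc, mul_eq_left] at this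
  have c5 : Commute w' c := by
    have : w * c * (w' * c * w'⁻¹) = w := by
      calc _ = w' * (w * c) * w'⁻¹ := by conv_lhs => rw [← hc, conj_mul]
        _ = w' * w' * w * (w' * w')⁻¹ := by rw [← hc]; group
        _ = w := by rw [c2.eq, mul_inv_cancel_right]
    rw [mul_assoc, mul_eq_left, ← c4, mul_right_inj, mul_inv_eq_iff_eq_mul] at this
    exact this
  have c6 : ∀ s ∈ T, Commute s w → Commute s c := fun s hs k => by
    have := (comm_cj w').2 (Br.norm b hs (inv_mem h') k)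
    rw [show w' * (w'⁻¹ * s * w'⁻¹⁻¹) * w'⁻¹ = s by group] at this
    exact ec ▸ k.inv_right.mul_right this
  have c7 : ∀ s ∈ T, Commute s c := fun s hs => by
    rcases b.2 s hs w' h' with k | k | k
    · exact c6 s hs k
    · rw [ec, k.eq, mul_inv_cancel_right, inv_mul_cancel]; exact Commute.one_right s
    · simpa using (c6 _ (mul_mem hs h') k).mul_left c5.inv_left
  obtain ⟨k, rfl⟩ := H.ev
  have e1 : (w * w') ^ 2 = w * w * c * (w' * w') := by
    rw [mul_assoc w w c, ← hc, sq]; group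
  rw [pow_succ', pow_mul, e1, ((c1.mul_right c1).mul_left (c5.mul_left c5).symm).mul_pow,
    (c3.mul_left c3).mul_pow, ← sq, ← sq, ← pow_mul, ← pow_mul, ← pow_succ'] at e
  refine ⟨pow_mem h' _, fun s hs => ?_⟩
  rw [eq_inv_of_mul_eq_one_right e]
  exact (((H.top_cen b).2 s hs).mul_right ((c7 s hs).pow_right _)).inv_right

theorem i1 (H : Hy T n) (S : SE T A U) (b : Br T w) (ha : w ^ n ∈ A) (hw : w ∈ U)
    (hx : x ∈ normalizer (U : Set G)) (ax : x * w ^ n * x⁻¹ ∉ A) (mT : x * m * x⁻¹ ∈ T)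
    (mN : m ∈ normalizer (U : Set G)) (mU : m ∉ U) (m2 : m * m ∈ U) (c : Commute (m * m) w) :
    False := by
  have h' := S.UT (cj mN hw)
  have c1 : Commute (w * w) (m * w * m⁻¹) := by
    have := (comm_cj m).2 (b.sq (S.UT (cj' mN hw)))
    rwa [show m * (m⁻¹ * w * m * (m⁻¹ * w * m)) * m⁻¹ = w * w by group] at this
  have c2 : Commute (m * m) (m * w * m⁻¹) := by
    have := (comm_cj m).2 c
    rwa [mul_assoc m, mul_inv_cancel_right] at this
  have ex : ∀ g, x * g * x⁻¹ ∈ T → g ^ (2 * n) = 1 := fun g hg => by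
    have := H.ex _ hg
    rwa [conj_pow, mul_inv_eq_one, mul_eq_left] at this
  have e : (w * (m * w * m⁻¹)) ^ n = 1 := by
    have e1 := ex (w * m) (by rw [← conj_mul]; exact mul_mem (S.UT (cj hx hw)) mT)
    rwa [pow_mul, show (w * m) ^ 2 = w * (m * w * m⁻¹) * (m * m) by rw [sq]; group,
      (c.symm.mul_left c2.symm).mul_pow, ← sq, ← pow_mul, ex m mT, mul_one] at e1
  have z := cen' H b h' c1 e
  rw [conj_pow] at z
  have z0 := (S.Ac _ ha).1
  have a' := S.Az _ ha _ z (isConj_iff.2 ⟨m, rfl⟩)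
  refine mU (nc S ha hx ax mT (v1 H S (x := x)
    (L := normalizer (U : Set G) ⊓ normalizer ({w ^ n, m * w ^ n * m⁻¹} : Set G))
    (fun s hs => ⟨hs.2, mem_normalizer_fintype ?_⟩) inf_le_left
    ⟨mN, mem_normalizer_fintype ?_⟩ mT fun h hh => ?_))
  · rintro _ (rfl | rfl)
    · exact Or.inl (by rw [(z0.2 s hs.1).eq, mul_inv_cancel_right])
    · exact Or.inr (by rw [(z.2 s hs.1).eq, mul_inv_cancel_right]; rfl)
  · rintro _ (rfl | rfl)
    · exact Or.inr rfl
    · exact Or.inl (by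
        rw [show m * (m * w ^ n * m⁻¹) * m⁻¹ = m * m * w ^ n * (m * m)⁻¹ by group,
          (z0.2 _ (S.UT m2)).eq, mul_inv_cancel_right])
  · rcases (hh.2 _).1 (Or.inl rfl) with k | k <;> rw [k]
    exacts [ha, a']

theorem jobC1 : JobC1.{u} := by
  intro G _ _ T A U n H S w b ha x hx ax hw
  obtain ⟨σ, sT, sN, sU, s2⟩ := ex_sig H.pg S.UT S.ne
  have key : ∀ y ∈ normalizer (U : Set G), y * (y⁻¹ * σ * y) * y⁻¹ ∈ T ∧
      y⁻¹ * σ * y ∈ normalizer (U : Set G) ∧ y⁻¹ * σ * y ∉ U ∧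
      y⁻¹ * σ * y * (y⁻¹ * σ * y) = y⁻¹ * (σ * σ) * y := fun y hy => by
    have e : y * (y⁻¹ * σ * y) * y⁻¹ = σ := by group
    exact ⟨e.symm ▸ sT, mul_mem (mul_mem (inv_mem hy) sN) hy, fun k => sU (e ▸ cj hy k), by group⟩
  obtain ⟨mT, mN, mU, m2⟩ := key x hx
  replace m2 := m2 ▸ cj' hx s2
  generalize x⁻¹ * σ * x = m at mT mN mU m2
  by_cases c : Commute (m * m) w
  · exact i1 H S b ha hw hx ax mT mN mU m2 c
  have mem : ∀ u, u ∈ U ⊓ centralizer {w} ↔ u ∈ U ∧ Commute u w := fun u => by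
    rw [mem_inf, mem_centralizer_singleton_iff]; rfl
  by_cases k : ∀ u ∈ U, Commute u w → Commute (m * u * m⁻¹) w
  · refine mU (nc S ha hx ax mT (v1 H S (x := x)
      (L := normalizer (U : Set G) ⊓ normalizer (U ⊓ centralizer {w} : Subgroup G))
      (fun s hs => ⟨hs.2, mem_normalizer_fintype fun u hu => (mem _).2 ⟨cj hs.2 hu.1,
        Br.norm b (S.UT hu.1) hs.1 ((mem u).1 hu).2⟩⟩) inf_le_left
      ⟨mN, mem_normalizer_fintype fun u hu => (mem _).2 ⟨cj mN hu.1, k u hu.1 ((mem u).1 hu).2⟩⟩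
      mT fun h hh => by_contra fun k' => ?_))
    obtain ⟨k1, k2, k3, k4⟩ := key h hh.1
    exact i1 H S b ha hw hh.1 k' k1 k2 k3 (k4 ▸ cj' hh.1 s2)
      (k4 ▸ ((mem _).1 (cj' hh.2 ((mem _).2 ⟨s2, b.sq sT⟩))).2)
  push Not at k
  obtain ⟨u, hu, c1, c2⟩ := k
  have e : u * m * (u * m) = u * (m * u * m⁻¹ * (m * m)) := by group
  refine i1 H S b ha hw hx ax (m := u * m) (by rw [← conj_mul]; exact mul_mem (S.UT (cj hx hu)) mT)
    (mul_mem (le_normalizer hu) mN) (fun k => mU ((mul_mem_cancel_left hu).1 k))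
    (e ▸ mul_mem hu (mul_mem (cj mN hu) m2)) (e ▸ c1.mul_left ?_)
  exact ((b.2 _ (S.UT (cj mN hu)) _ (S.UT m2)).resolve_left c2).resolve_left c

end H4.SQC1
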