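import Cfsg.Agent.H53.SimXASpec

/-! Tower SIM, chapter XA: the parts of `cj g E` on a block commute with their conjugates. -/

set_option autoImplicit false

namespace H4.SimA23

open Subgroup Cfsg H98 Matrix H0.Sim H53.XA

theorem ad_pow {n : ℕ} {F : Type} [Field F] [Fintype F] {q : ℕ} (hF : Fintype.card F = q ^ 2)
    (m : Mt n F) (k : ℕ) : ad q (m ^ k) = ad q m ^ k := by
  induction k with
  | zero => rw [pow_zero, pow_zero, ad_one hF]
  | succ k ih => rw [pow_succ, ad_mul hF, ih, pow_succ']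

theorem job : JA23 := by
  intro rp red bk bc rk pt n F _ _ u q p Θ H Q E g b c hq f hf x hx h hh
  have fq : Fq F u q := c.par.card
  obtain ⟨-, hB, -, -, -, nE⟩ := rp n F u q p Θ H Q E g c.toXa
  have xQ : x ∈ Q := c.BQ hx
  have xC : x ∈ Cz u q f := ⟨c.HG (c.QH xQ), hq x xQ f hf⟩
  have hH : h ∈ H := c.sh f hf hh
  have yN : h * x * h⁻¹ ∈ normalizer (cj g E : Set (GL (Fin n) F)) := c.nb1 h hH (conj_mem_cj hx)
  obtain ⟨-, -, -, -, nG, -⟩ := pt n F u q f fq hf.2.1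
  have conj : ∀ z ∈ Cz u q f, ∀ k ∈ Gf u q f, z * k * z⁻¹ ∈ Gf u q f := fun z hz k hk =>
    (mem_normalizer_iff.1 (nG hz) k).1 hk
  by_contra hne
  obtain ⟨d, hd⟩ : ∃ d, d = x * (h * x * h⁻¹) * x⁻¹ * (h * x * h⁻¹)⁻¹ := ⟨_, rfl⟩
  have d1 : d ≠ 1 := fun e => hne (by
    rw [hd, mul_inv_eq_one, mul_inv_eq_iff_eq_mul] at e
    exact e)
  have dB : d ∈ cj g E := by
    have h1 := (mem_normalizer_iff.1 yN x⁻¹).1 (inv_mem hx)
    have h2 := mul_mem hx h1
    rw [hd]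
    simpa only [mul_assoc] using h2
  have dG : d ∈ Gf u q f := by
    have k1 : x⁻¹ * h * x⁻¹⁻¹ * h⁻¹ ∈ Gf u q f := mul_mem (conj _ (inv_mem xC) h hh.2) (inv_mem hh.2)
    have k2 := conj x xC _ (mul_mem (conj x xC _ k1) (inv_mem k1))
    rw [hd]
    convert k2 using 1
    group
  obtain ⟨mu, one, adm, K, K1, hK⟩ := red n F u q (cj g E) fq hB
  have sub : ∀ z ∈ cj g E, (z : Mt n F) ∈ Sp (cj g E) := fun z hz => Submodule.subset_span ⟨z, hz, rfl⟩
  obtain ⟨m, hm⟩ : ∃ m : Mt n F, m = (d : Mt n F) - 1 := ⟨_, rfl⟩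
  have mS : m ∈ Sp (cj g E) := hm ▸ Submodule.sub_mem _ (sub d dB) one
  have m0 : m ≠ 0 := fun e => d1 (Units.ext (sub_eq_zero.1 (hm ▸ e)))
  have fm : f * m = m := by
    have h1 : (1 - f) * m = 0 := by rw [hm, mul_sub, dG.2.1, mul_one, sub_self]
    rw [sub_mul, one_mul, sub_eq_zero] at h1
    exact h1.symm
  have mf : m * f = m := by
    have h1 : m * (1 - f) = 0 := by rw [hm, sub_mul, dG.2.2, one_mul, sub_self]
    rw [mul_sub, mul_one, sub_eq_zero] at h1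
    exact h1.symm
  have pw : ∀ k : ℕ, m ^ k ∈ Sp (cj g E) := fun k => by
    induction k with
    | zero => rw [pow_zero]; exact one
    | succ k ih => rw [pow_succ]; exact (mu _ ih _ mS).1
  obtain ⟨J, rfl⟩ : ∃ J, K = J + 1 := ⟨K - 1, by omega⟩
  have mK := hK m mS
  have ip : Ip u q (m ^ (J + 1)) := by
    refine ⟨?_, fun hu => ?_⟩
    · rw [← pow_add, show J + 1 + (J + 1) = J + 1 + 1 + J by ring, pow_add, mK, ← pow_succ']
    · subst hu
      have hF : Fintype.card F = q ^ 2 := by simpa [Fq] using fq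
      have a1 : ad q (d : Mt n F) * d = 1 := (mem_gu hF).1 dG.1
      have a2 : ad q (d : Mt n F) = ((d⁻¹ : GL (Fin n) F) : Mt n F) := by
        rw [← mul_one (ad q (d : Mt n F)), ← Units.mul_inv d, ← mul_assoc, a1, one_mul]
      have wS : -((d⁻¹ : GL (Fin n) F) : Mt n F) ∈ Sp (cj g E) :=
        Submodule.neg_mem _ (sub _ (inv_mem dB))
      have a3 : ad q m = -((d⁻¹ : GL (Fin n) F) : Mt n F) * m := by
        rw [hm, ad_sub hF, ad_one hF, a2, mul_sub, neg_mul, Units.inv_mul, mul_one]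
        abel
      have wU : IsUnit (-((d⁻¹ : GL (Fin n) F) : Mt n F)) := (Units.isUnit _).neg
      have w1 : (-((d⁻¹ : GL (Fin n) F) : Mt n F)) ^ (J + 1) = 1 := by
        have := hK _ wS
        rw [pow_succ] at this
        exact wU.mul_right_cancel (this.trans (one_mul _).symm)
      have cm : Commute (-((d⁻¹ : GL (Fin n) F) : Mt n F)) m := (mu _ wS _ mS).2
      rw [ad_pow hF, a3, cm.mul_pow, w1, one_mul]
  have e0 : m ^ (J + 1) ≠ 0 := fun e => m0 (by rw [← mK, pow_succ, e, zero_mul])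
  obtain ⟨f', hf', k1, k2⟩ := (bk n F u q (cj g E) fq hB).2.1 _ (pw _) ip e0
  have k3 : f' * f = f' := by
    conv_lhs => rw [← k1, pow_succ, mul_assoc, mul_assoc, mf, ← pow_succ, k1]
  have k4 : f * f' = f' := by
    conv_lhs => rw [← k2, pow_succ', ← mul_assoc, ← mul_assoc, fm, ← pow_succ', k2]
  obtain ⟨bc1, bc2⟩ := bc n F u q E g fq c.gS.1
  obtain ⟨f0, hf0, e1, e2⟩ := bc1 f' hf'
  have e3 : f' = f := (rk n F).2.2.1 f' f hf'.2.1.sq hf.2.1.sq k3 k4
    (by rw [e2, c.rk f0 hf0, c.rk f hf])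
  have k5 : g⁻¹ * h * g ∈ normalizer (E : Set (GL (Fin n) F)) :=
    nE (c.sh f0 hf0 (bc2 f0 h (by rw [← e1, e3]; exact hh)))
  have yB : h * x * h⁻¹ ∈ cj g E := by
    have k6 := (mem_normalizer_iff.1 k5 _).1 (mem_cj.1 hx)
    rw [mem_cj]
    convert k6 using 1
    group
  exact hne (hB.ab x hx _ yB)

end H4.SimA23
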