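import Cfsg.Agent.H42.SimXBSpec

/-! Tower SIM, chapter XA part two: the Singer case for the linear groups. -/

set_option autoImplicit false

namespace H4.SimSL

open Subgroup Cfsg H98 Matrix H0.Sim H42.SX

theorem jobSL : JobSL := by
  intro sd nl n F K _ _ _ _ _ ι q p H Q A b c hA hn hC
  have hq : Fintype.card F = q := by simpa using c.par.card
  have h2 : 2 ≤ q := hq ▸ Fintype.one_lt_card
  obtain ⟨d, hd, hdv⟩ := sd n F K ι false q p (q - 1) H Q A b c hA hn hC (by
    intro k hk
    refine ⟨Units.map (ι : K →* Mt n F) (Units.mk0 (k ^ (q - 1)) (pow_ne_zero _ hk)), ⟨?_, ?_⟩, rfl⟩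
    · simp [Gam]
    · refine MonoidHom.mem_ker.2 (Units.ext ?_)
      have hu : IsUnit (ι k) := (IsUnit.mk0 k hk).map ι
      have h0 : (ι k).det ≠ 0 := ((Matrix.isUnit_iff_isUnit_det _).1 hu).ne_zero
      have h1 : (ι k).det ^ (q - 1) = 1 := hq ▸ FiniteField.pow_card_sub_one_eq_one _ h0
      show (ι (k ^ (q - 1))).det = 1
      rw [map_pow, Matrix.det_pow, h1])
  have hd1 : 1 ≤ d := by
    have := c.par.two
    rcases Nat.eq_zero_or_pos d with rfl | h
    · omega
    · exact h
  rw [hq] at hdv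
  obtain ⟨rfl, rfl, h7⟩ := nl q d p c.pp h2 hd1 hdv
  have hn2 : n = 2 := hd
  have h4 := (c.par.n2 hn2).2
  have hq7 : q = 7 := by omega
  intro r f hr hf
  have hf2 : f ≤ 2 := by
    by_contra hlt
    have a1 : 2 ^ 3 ≤ r ^ f :=
      (Nat.pow_le_pow_left hr.two_le 3).trans (Nat.pow_le_pow_right hr.pos (by omega))
    omega
  have hH : Nat.card H ≤ Nat.card (Mt n F) :=
    Nat.card_le_card_of_injective (fun h : H => ((h : GL (Fin n) F) : Mt n F))
      fun x y e => Subtype.ext (Units.ext e)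
  have hM : Nat.card (Mt n F) = 2401 := by
    have : Nat.card (Fin n → Fin n → F) = 2401 := by
      rw [Nat.card_fun, Nat.card_fun, Nat.card_eq_fintype_card (α := F), hq, hq7, hn2]
      simp
    exact this
  have hZ : 0 < Nat.card (Zg n F false q) := Nat.card_pos
  have : Nat.card H * (2 * f) ≤ 2401 * 4 := Nat.mul_le_mul (hM ▸ hH) (by omega)
  omega

end H4.SimSL
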