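import Cfsg.Agent.H91.VCSpec

/-! VC tower: `JobBR` (the bridge from the primitive setting to projective representations). -/

set_option autoImplicit false
set_option linter.unusedSectionVars false

namespace H4.VCBR

open H33.Solv H12.CL H91.VC Subgroup MulAction Module
open scoped commutatorElement

variable {K G V W : Type} [Field K] [Group G] [AddCommGroup V] [Module K V] [Nontrivial V]
  [DistribMulAction G V] [AddCommGroup W] [DistribMulAction G W] {s : Scal K G V}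
  {N : Subgroup G} {π : G → W} {r : ℕ} [Fact r.Prime] [Module (ZMod r) W]

theorem exists_ex [Nontrivial W] (c : Cx s N π) :
    ∃ S : Ex r K V W, (∀ x ∈ N, ∃ d : K, d ≠ 0 ∧ ∀ v, x • v = d • S.t (π x) v) ∧
      ∀ x ∈ N, ∀ y ∈ N, (S.B (π x) (π y) = 0 ↔ x * y = y * x) := by
  classical
  have hr : r.Prime := Fact.out
  have hE : ∀ x ∈ N, x ^ r ∈ s.ι.range := fun x hx => by
    rw [← c.sec.zero _ (pow_mem hx r), c.sec.pow hx, ← Nat.cast_smul_eq_nsmul (ZMod r),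
      ZMod.natCast_self, zero_smul]
  have cz : ∀ (x : N) d, (x : G) * s.ι d = s.ι d * x := fun x d =>
    (c.ns.cent x x.2 _ ⟨d, rfl⟩).symm
  have p1 : ∀ x y : N, π (x * y : N) = π x + π y := fun x y => c.sec.mul x x.2 y y.2
  have rel : ∀ {x y : N}, π x = π y ↔ ∃ d, (x : G) = s.ι d * y := fun {x y} => by
    rw [eq_comm, c.sec.eq_iff y.2 x.2]
    refine exists_congr fun d => ?_
    rw [eq_inv_mul_iff_mul_eq, cz, eq_comm]
  have p0 : π (1 : N) = 0 := c.sec.one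
  have p4 : ∀ x : N, π x = 0 ↔ (x : G) ∈ s.ι.range := fun x => c.sec.zero x x.2
  have cen : ∀ x : N, (∀ y : N, (x : G) * y = y * x) → (x : G) ∈ s.ι.range := fun x h =>
    c.ns.n2 x fun a ha => (h ⟨a, ha⟩).symm
  have scl : ∀ d, s.ι d ∈ N := fun d => c.ns.le ⟨d, rfl⟩
  choose w hw using fun x y : N => c.ns.comm x x.2 y y.2
  have w0 : ∀ x y : N, (x : G) * y = s.ι (w x y) * (y * x) := fun x y => by
    rw [hw, commutatorElement_def]; group
  have w1 : ∀ x x' y, w (x * x') y = w x y * w x' y := fun x x' y => s.inj (by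
    rw [mul_comm (w x y), map_mul, hw, hw x, ← mul_inv_cancel_right (s.ι (w x' y)) (x : G), ← cz,
      hw]
    simp only [commutatorElement_def, coe_mul]; group)
  have w2 : ∀ x y, w y x = (w x y)⁻¹ := fun x y => s.inj (by
    rw [map_inv, hw, hw, commutatorElement_inv])
  have w3 : ∀ x y : N, w x y = 1 ↔ (x : G) * y = y * x := fun x y => by
    rw [← commutatorElement_eq_one_iff_mul_comm, ← hw, map_eq_one_iff _ s.inj]
  have w4 : ∀ {x x' : N} (y), π x = π x' → w x y = w x' y := fun {x x'} y h => by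
    obtain ⟨d, hd⟩ := rel.1 h
    rw [show x = ⟨s.ι d, scl d⟩ * x' from Subtype.ext hd, w1, (w3 _ _).2 (cz y d).symm, one_mul]
  have w5 : ∀ x y, (w x y : K) ^ r = 1 := fun x y => by
    let f : N →* Kˣ := MonoidHom.mk' (w · y) (w1 · · y)
    obtain ⟨d, hd⟩ := hE x x.2
    have : f (x ^ r) = 1 := (w3 _ _).2 (by rw [coe_pow, ← hd, cz])
    rw [← Units.val_pow_eq_pow_val, show w x y ^ r = 1 from (map_pow f x r).symm.trans this,
      Units.val_one]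
  obtain ⟨a₀, ha₀⟩ := exists_ne (0 : W)
  obtain ⟨x₀, x1, rfl⟩ := c.sec.surj a₀
  have x2 : x₀ ∉ s.ι.range := fun k => ha₀ ((c.sec.zero _ x1).2 k)
  obtain ⟨y₀, hζ⟩ : ∃ y, IsPrimitiveRoot (w ⟨x₀, x1⟩ y : K) r := by
    by_contra! k
    refine x2 (cen ⟨x₀, x1⟩ fun y => (w3 ⟨x₀, x1⟩ y).1 (by_contra fun k' => k y ?_))
    rw [← orderOf_eq_prime (w5 _ _) (by simpa using k')]
    exact IsPrimitiveRoot.orderOf _
  let χ := AddChar.zmodChar r hζ.pow_eq_one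
  have c1 : ∀ i, χ i = 1 ↔ i = 0 :=
    (AddChar.zmodChar_primitive_of_primitive_root r hζ).zmod_char_eq_one_iff r
  have c2 : Function.Injective χ := fun i j h => by
    have := χ.map_add_eq_mul (i - j) j
    rw [sub_add_cancel, h, right_eq_mul₀ fun k => by
      simpa [k] using χ.map_add_eq_mul j (-j)] at this
    exact sub_eq_zero.1 ((c1 _).1 this)
  choose lg hlg using fun x y : N => show ∃ j, χ j = w x y by
    obtain ⟨i, h1, h2⟩ := hζ.eq_pow_of_pow_eq_one (w5 x y)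
    exact ⟨i, by rw [AddChar.zmodChar_apply, ZMod.val_cast_of_lt h1, h2]⟩
  choose l l1 l2 l3 using fun a : W => show ∃ x : N, π x = a ∧
      (a = 0 → x = 1) ∧ ∀ y : N, π y = a → y ^ r = 1 → x ^ r = 1 by
    by_cases h : a = 0
    · exact ⟨1, h ▸ p0, fun _ => rfl, fun _ _ _ => one_pow r⟩
    by_cases h' : ∃ y : N, π y = a ∧ y ^ r = 1
    · exact h'.imp fun y hy => ⟨hy.1, fun k => absurd k h, fun _ _ _ => hy.2⟩
    · obtain ⟨y, hy, e⟩ := c.sec.surj a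
      exact ⟨⟨y, hy⟩, e, fun k => absurd k h, fun y a b => absurd ⟨y, a, b⟩ h'⟩
  have l4 : ∀ a b, π (l (a + b)) = π (l a * l b : N) := fun a b => by rw [p1, l1, l1, l1]
  have b1 : ∀ a a' b, lg (l (a + a')) (l b) = lg (l a) (l b) + lg (l a') (l b) := fun a a' b => c2 (by
    rw [χ.map_add_eq_mul, hlg, hlg, hlg, w4 _ (l4 a a'), w1, Units.val_mul])
  have b2 : ∀ a b b', lg (l a) (l (b + b')) = lg (l a) (l b) + lg (l a) (l b') := fun a b b' => c2 (by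
    rw [χ.map_add_eq_mul, hlg, hlg, hlg, w2, w4 _ (l4 b b'), w1, mul_inv, ← w2, ← w2, Units.val_mul])
  let B : W →ₗ[ZMod r] W →ₗ[ZMod r] ZMod r :=
    LinearMap.mk₂ (ZMod r) (fun a b => lg (l a) (l b)) b1
      (fun c a b => ZMod.map_smul (AddMonoidHom.mk' (fun a => lg (l a) (l b)) (b1 · · b)) c a) b2
      fun c a b => ZMod.map_smul (AddMonoidHom.mk' (fun b => lg (l a) (l b)) (b2 a)) c b
  have hB : ∀ a b, χ (B a b) = w (l a) (l b) := fun a b => hlg _ _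
  have hB' : ∀ x y : N, B (π x) (π y) = 0 ↔ (x : G) * y = y * x := fun x y => by
    rw [← c1, hB, Units.val_eq_one, w4 _ (l1 _), w2, w4 _ (l1 _), ← w2, w3]
  let T : N →* End K V :=
    { toFun := fun x => s.toLin (c.ns.cent x x.2)
      map_one' := LinearMap.ext fun v => one_smul G v
      map_mul' := fun x y => LinearMap.ext fun v => mul_smul (x : G) (y : G) v }
  have hT : ∀ {x y : N} {d}, (x : G) = s.ι d * y → T x = (d : K) • T y := fun {x y d} h =>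
    LinearMap.ext fun v => by
      change (x : G) • v = (d : K) • (y : G) • v
      rw [h, mul_smul, s.smul]
  refine ⟨⟨fun a => T (l a), χ, B, ⟨fun a => (c1 _).1 ?_, fun a h => ?_⟩, χ.map_add_eq_mul, c1, ?_,
      fun a b => ?_, fun a b => ?_, fun a v d v0 h => ?_⟩, fun x hx => ?_,
      fun x hx y hy => hB' ⟨x, hx⟩ ⟨y, hy⟩⟩
  · rw [hB, (w3 _ _).2 rfl, Units.val_one]
  · refine (l1 a).symm.trans ((p4 _).2 (cen _ fun y => (hB' _ _).1 ?_))
    rw [l1, h]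
  · rw [l2 0 rfl, map_one]
  · obtain ⟨d, hd⟩ := rel.1 (l4 a b).symm
    exact ⟨d, d.ne_zero, by rw [← map_mul, hT hd]⟩
  · rw [hB, ← map_mul, ← map_mul]
    exact hT (w0 _ _)
  · change (l a : G) • v = _ at h
    have c0 : d ≠ 0 := fun k => v0 (by rwa [k, zero_smul, smul_eq_zero_iff_eq] at h)
    let y : N := ⟨s.ι (Units.mk0 d c0)⁻¹, scl _⟩ * l a
    have y1 : (y : G) ∈ MulAction.stabilizer G v := by
      change (s.ι _ * _) • v = v
      rw [mul_smul, h, s.smul, smul_smul]; simp [c0]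
    obtain ⟨e, he⟩ := hE y y.2
    have y2 : (e : K) • v = (1 : K) • v := by rw [← s.smul, he, one_smul]; exact pow_mem y1 r
    rw [← map_pow, l3 a y ((rel.2 ⟨_, rfl⟩).trans (l1 a)) (Subtype.ext (by
      rw [coe_pow, ← he, Units.val_eq_one.1 (smul_left_injective K v0 y2), map_one]; rfl)), map_one]
  · obtain ⟨d, hd⟩ := rel.1 (l1 (π (⟨x, hx⟩ : N))).symm
    exact ⟨d, d.ne_zero, LinearMap.congr_fun (hT hd)⟩

section Use

variable {S : Ex r K V W}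

theorem st_iff (h1 : ∀ x ∈ N, ∃ d : K, d ≠ 0 ∧ ∀ v, x • v = d • S.t (π x) v) {x : G} (hx : x ∈ N)
    (v : V) : S.St v (π x) ↔ ∃ d : K, x • v = d • v := by
  obtain ⟨d, d0, hd⟩ := h1 x hx
  refine ⟨fun ⟨e, he⟩ => ⟨d * e, by rw [hd, he, mul_smul]⟩, fun ⟨e, he⟩ => ⟨d⁻¹ * e, ?_⟩⟩
  rw [mul_smul, ← he, hd, smul_smul, inv_mul_cancel₀ d0, one_smul]

theorem gd_conj (c : Cx s N π) (h1 : ∀ x ∈ N, ∃ d : K, d ≠ 0 ∧ ∀ v, x • v = d • S.t (π x) v)
    {x : G} (hx : x ∈ N) (g : G) (h : S.Gd (π x)) : S.Gd (π (g * x * g⁻¹)) := by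
  obtain ⟨v, v0, hv⟩ := h
  obtain ⟨d, hd⟩ := (st_iff h1 hx v).1 hv
  have d0 : d ≠ 0 := fun k => v0 (by rwa [k, zero_smul, smul_eq_zero_iff_eq] at hd)
  obtain ⟨d', -, e⟩ := s.semi g (Units.mk0 d d0)
  refine ⟨g • v, mt (smul_eq_zero_iff_eq g).1 v0,
    (st_iff h1 (c.ns.nn.conj_mem x hx g) _).2 ⟨d', ?_⟩⟩
  rw [← e, mul_smul, mul_smul, inv_smul_smul, hd, Units.val_mk0]

theorem rad (c : Cx s N π) (h1 : ∀ x ∈ N, ∃ d : K, d ≠ 0 ∧ ∀ v, x • v = d • S.t (π x) v)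
    (h2 : ∀ x ∈ N, ∀ y ∈ N, (S.B (π x) (π y) = 0 ↔ x * y = y * x)) (T : Submodule (ZMod r) W)
    (hT : ∀ a, a ∈ T ↔ S.Gd a) : ∀ a ∈ T, (∀ b ∈ T, S.B a b = 0) → a = 0 := by
  let P : Subgroup G :=
    { carrier := {x | x ∈ N ∧ π x ∈ T ∧ ∀ y ∈ N, π y ∈ T → x * y = y * x}
      one_mem' := ⟨one_mem _, c.sec.one ▸ zero_mem _, fun y _ _ => by rw [one_mul, mul_one]⟩
      mul_mem' := fun {a b} ha hb => ⟨mul_mem ha.1 hb.1,
        by rw [c.sec.mul a ha.1 b hb.1]; exact add_mem ha.2.1 hb.2.1, fun y hy k => by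
          rw [mul_assoc, hb.2.2 y hy k, ← mul_assoc, ha.2.2 y hy k, mul_assoc]⟩
      inv_mem' := fun {a} ha => ⟨inv_mem ha.1, by rw [c.sec.inv ha.1]; exact neg_mem ha.2.1,
        fun y hy k => (Commute.inv_left (ha.2.2 y hy k)).eq⟩ }
  have hc : ∀ x ∈ N, ∀ g, π x ∈ T → π (g * x * g⁻¹) ∈ T := fun x hx g k =>
    (hT _).2 (gd_conj c h1 hx g ((hT _).1 k))
  have hP : P ≤ s.ι.range := c.ns.max P ⟨fun x hx g => ⟨c.ns.nn.conj_mem x hx.1 g,
      hc x hx.1 g hx.2.1, fun y hy k => by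
        have := hx.2.2 _ (c.ns.nn.conj_mem y hy g⁻¹) (hc y hy g⁻¹ k)
        calc g * x * g⁻¹ * y = g * (x * (g⁻¹ * y * g⁻¹⁻¹)) * g⁻¹ := by group
          _ = y * (g * x * g⁻¹) := by rw [this]; group⟩⟩
    (fun a ha b hb => ha.2.2 b hb.1 hb.2.1) fun z hz => ⟨c.ns.le hz,
      by rw [(c.sec.zero z (c.ns.le hz)).2 hz]; exact zero_mem _, fun y hy _ => c.ns.cent y hy z hz⟩
  intro a ha h
  obtain ⟨x, hx, rfl⟩ := c.sec.surj a
  exact (c.sec.zero x hx).2 (hP ⟨hx, ha, fun y hy k => (h2 x hx y hy).1 (h _ k)⟩)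

theorem card_eq (c : Cx s N π) (h1 : ∀ x ∈ N, ∃ d : K, d ≠ 0 ∧ ∀ v, x • v = d • S.t (π x) v)
    {v : V} (v0 : v ≠ 0) : Nat.card ↥(N ⊓ stabilizer G v) = {a | S.St v a}.ncard := by
  rw [← Nat.card_coe_set_eq]
  refine Nat.card_eq_of_bijective (fun x : ↥(N ⊓ stabilizer G v) => (⟨π x, (st_iff h1 x.2.1 v).2
    ⟨1, by rw [one_smul]; exact x.2.2⟩⟩ : {a | S.St v a})) ⟨fun x y e => ?_, fun a => ?_⟩
  · have e1 := (c.sec.eq_iff x.2.1 y.2.1).1 (congrArg Subtype.val e)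
    have e2 : (x : G)⁻¹ * y ∈ stabilizer G v := mul_mem (inv_mem x.2.2) y.2.2
    exact Subtype.ext (inv_mul_eq_one.1 ((s.fpf _ e1 v e2).resolve_right v0))
  · obtain ⟨a, ha⟩ := a
    obtain ⟨x, hx, rfl⟩ := c.sec.surj a
    obtain ⟨d, hd⟩ := (st_iff h1 hx v).1 ha
    have d0 : d ≠ 0 := fun k => v0 (by rwa [k, zero_smul, smul_eq_zero_iff_eq] at hd)
    have hz : s.ι (Units.mk0 d d0)⁻¹ ∈ s.ι.range := ⟨_, rfl⟩
    refine ⟨⟨s.ι (Units.mk0 d d0)⁻¹ * x, mul_mem (c.ns.le hz) hx, ?_⟩, Subtype.ext ?_⟩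
    · change (s.ι _ * _) • v = v
      rw [mul_smul, hd, s.smul, smul_smul]; simp [d0]
    · change π (_ * _) = π x
      rw [c.sec.mul _ (c.ns.le hz) _ hx, (c.sec.zero _ (c.ns.le hz)).2 hz, zero_add]

end Use

theorem jobBR : JobBR := by
  intro ty st K G V W _ _ _ _ _ _ _ _ _ _ _ _ _ s N π c hW
  obtain ⟨r, k, hr, h3, hk, e⟩ : ∃ r k : ℕ, r.Prime ∧ r ≤ 3 ∧ k ≠ 0 ∧ Nat.card W = r ^ k := by
    rcases hW with e | e | e
    · exact ⟨2, 6, Nat.prime_two, by norm_num, by norm_num, e⟩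
    · exact ⟨3, 4, Nat.prime_three, by norm_num, by norm_num, e⟩
    · exact ⟨2, 8, Nat.prime_two, by norm_num, by norm_num, e⟩
  have : Fact r.Prime := ⟨hr⟩
  have h64 : 64 ≤ Nat.card W := by omega
  have : Nontrivial W := Finite.one_lt_card_iff_nontrivial.1 (by omega)
  let _ : Module (ZMod r) W := AddCommGroup.zmodModule (c.elem e hk)
  obtain ⟨S, h1, h2⟩ := exists_ex (r := r) c
  rcases st r K V W S (ty r K V W S (rad c h1 h2)) h64 h3 with ⟨u, u0, hu⟩ | ⟨e', v, w, v0, hv, w0, hw⟩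
  · refine Or.inl ⟨u, u0, ?_⟩
    rwa [funext fun i => card_eq c h1 (u0 i)]
  · exact Or.inr ⟨e', v, w, v0, (card_eq c h1 v0).trans hv, (card_eq c h1 w0).trans hw⟩

end H4.VCBR
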